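import Mathlib
import Cfsg.Prelude.Def_ClassicalGeometry

/-! Matrices attached to a quadratic form on column vectors: polar vector, reflections. -/
set_option autoImplicit false
open scoped Matrix

namespace CfsgLib.Geometry.QuadBasic

variable {F : Type*} [Field F] {ι : Type} [Fintype ι] [DecidableEq ι]

/-- `polarVec Q v ⬝ x = f(v, x)`. -/
theorem polarVec_dotProduct (Q : QuadraticForm F (ι → F)) (v x : ι → F) :
    Cfsg.polarVec (⇑Q) v ⬝ᵥ x = QuadraticMap.polar (⇑Q) v x := by
  have h : QuadraticMap.polar (⇑Q) v x = (QuadraticMap.polarBilin Q v) x := rfl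
  rw [h]
  conv_rhs => rw [← (Pi.basisFun F ι).sum_repr x]
  rw [map_sum]
  simp only [map_smul, smul_eq_mul, Pi.basisFun_repr, Pi.basisFun_apply, dotProduct, Cfsg.polarVec,
    QuadraticMap.polarBilin_apply_apply]
  exact Finset.sum_congr rfl (fun i _ => mul_comm _ _)

theorem reflection_mulVec (Q : QuadraticForm F (ι → F)) (v x : ι → F) :
    (Cfsg.reflectionMatrix (⇑Q) v) *ᵥ x = x - ((Q v)⁻¹ * QuadraticMap.polar (⇑Q) v x) • v := by
  rw [Cfsg.reflectionMatrix, Matrix.sub_mulVec, Matrix.one_mulVec, Matrix.smul_mulVec, Matrix.vecMulVec_mulVec,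
    polarVec_dotProduct]
  simp [smul_smul]

/-- `Q (x + a • v)`. -/
theorem map_add_smul (Q : QuadraticForm F (ι → F)) (x v : ι → F) (a : F) :
    Q (x + a • v) = Q x + a * a * Q v + a * QuadraticMap.polar (⇑Q) v x := by
  have h : QuadraticMap.polar (⇑Q) x (a • v) = a * QuadraticMap.polar (⇑Q) v x := by
    rw [QuadraticMap.polar_smul_right, QuadraticMap.polar_comm, smul_eq_mul]
  rw [QuadraticMap.polar, QuadraticMap.map_smul, smul_eq_mul] at h
  linear_combination h

theorem reflection_isometry (Q : QuadraticForm F (ι → F)) (v : ι → F) (hv : Q v ≠ 0) (x : ι → F) :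
    Q ((Cfsg.reflectionMatrix (⇑Q) v) *ᵥ x) = Q x := by
  rw [reflection_mulVec, sub_eq_add_neg, ← neg_smul, map_add_smul]
  field_simp
  ring

theorem reflection_det (Q : QuadraticForm F (ι → F)) (v : ι → F) (hv : Q v ≠ 0) :
    (Cfsg.reflectionMatrix (⇑Q) v).det = -1 := by
  rw [Cfsg.reflectionMatrix, sub_eq_add_neg, ← Matrix.smul_vecMulVec, ← Matrix.neg_vecMulVec,
    Matrix.vecMulVec_eq Unit, Matrix.det_one_add_replicateCol_mul_replicateRow]
  have hvv : QuadraticMap.polar (⇑Q) v v = 2 * Q v := by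
    rw [QuadraticMap.polar_self, two_nsmul, two_mul]
  simp [dotProduct_neg, dotProduct_smul, polarVec_dotProduct, hvv]
  field_simp
  ring

/-- The reflection as an element of GL. -/
noncomputable def reflectionGL (Q : QuadraticForm F (ι → F)) (v : ι → F) (hv : Q v ≠ 0) :
    Matrix.GeneralLinearGroup ι F :=
  Matrix.GeneralLinearGroup.mkOfDetNeZero (Cfsg.reflectionMatrix (⇑Q) v) (by rw [reflection_det Q v hv]; simp)

theorem reflectionGL_val (Q : QuadraticForm F (ι → F)) (v : ι → F) (hv : Q v ≠ 0) :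
    ((reflectionGL Q v hv : Matrix.GeneralLinearGroup ι F) : Matrix ι ι F) = Cfsg.reflectionMatrix (⇑Q) v := rfl

/-- Membership in the isometry group. -/
theorem mem_isometryGroup_iff (Q : (ι → F) → F) (g : Matrix.GeneralLinearGroup ι F) :
    g ∈ Cfsg.isometryGroup F Q ↔ ∀ v, Q ((g : Matrix ι ι F) *ᵥ v) = Q v := by
  constructor
  · intro h v; exact h v 0
  · intro h u _; exact h u

theorem reflectionGL_mem (Q : QuadraticForm F (ι → F)) (v : ι → F) (hv : Q v ≠ 0) :
    reflectionGL Q v hv ∈ Cfsg.isometryGroup F (⇑Q) :=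
  (mem_isometryGroup_iff _ _).mpr (reflection_isometry Q v hv)

/-- An isometry of a quadratic form with nondegenerate polar form has determinant squared one. -/
theorem det_sq_of_isometry (Q : QuadraticForm F (ι → F)) (hQ : (QuadraticMap.polarBilin Q).Nondegenerate)
    (M : Matrix ι ι F) (hM : ∀ v, Q (M *ᵥ v) = Q v) : M.det * M.det = 1 := by
  set B : LinearMap.BilinForm F (ι → F) := QuadraticMap.polarBilin Q with hB
  set G := LinearMap.BilinForm.toMatrix (Pi.basisFun F ι) B with hG
  have hG0 : G.det ≠ 0 := (LinearMap.BilinForm.nondegenerate_iff_det_ne_zero (Pi.basisFun F ι)).mp hQ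
  have hcomp : B.comp (Matrix.toLin' M) (Matrix.toLin' M) = B := by
    refine LinearMap.ext fun x => LinearMap.ext fun y => ?_
    simp [hB, LinearMap.BilinForm.comp_apply, QuadraticMap.polar, ← Matrix.mulVec_add, hM]
  have hmat := congrArg (LinearMap.BilinForm.toMatrix (Pi.basisFun F ι)) hcomp
  rw [LinearMap.BilinForm.toMatrix_comp (Pi.basisFun F ι)] at hmat
  have hM' : LinearMap.toMatrix (Pi.basisFun F ι) (Pi.basisFun F ι) (Matrix.toLin' M) = M := by
    rw [LinearMap.toMatrix_eq_toMatrix', LinearMap.toMatrix'_toLin']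
  rw [hM', ← hG] at hmat
  have := congrArg Matrix.det hmat
  simp only [Matrix.det_mul, Matrix.det_transpose] at this
  exact mul_left_cancel₀ hG0 (by linear_combination this)

end CfsgLib.Geometry.QuadBasic
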