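import Mathlib
import Cfsg.Prelude.Def_ClassicalGeometry
import Cfsg.Agent.Lib.Geometry.QuadBasic

/-!
Generation of orthogonal groups by reflections in odd characteristic.
-/

set_option autoImplicit false
open scoped Matrix

namespace CfsgLib.Geometry.Reflections

open CfsgLib.Geometry.QuadBasic

variable {F : Type*} [Field F] {ι : Type} [Fintype ι] [DecidableEq ι] {Q : QuadraticForm F (ι → F)}

/-- The reflection as an element of the isometry group. -/
noncomputable def R (Q : QuadraticForm F (ι → F)) (v : ι → F) (hv : Q v ≠ 0) :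
    Cfsg.isometryGroup F ⇑Q :=
  ⟨reflectionGL Q v hv, reflectionGL_mem Q v hv⟩

theorem R_apply (v : ι → F) (hv : Q v ≠ 0) (x : ι → F) :
    ((R Q v hv).1.1) *ᵥ x = x - ((Q v)⁻¹ * QuadraticMap.polar (⇑Q) v x) • v :=
  reflection_mulVec Q v x

theorem R_fix (v : ι → F) (hv : Q v ≠ 0) {x : ι → F} (h : QuadraticMap.polar (⇑Q) v x = 0) :
    ((R Q v hv).1.1) *ᵥ x = x := by
  rw [R_apply, h, mul_zero, zero_smul, sub_zero]

variable (Q) in
/-- All reflections. -/
def reflections : Set (Cfsg.isometryGroup F ⇑Q) :=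
  {g | ∃ v : ι → F, Q v ≠ 0 ∧ g.1.1 = Cfsg.reflectionMatrix (⇑Q) v}

theorem R_mem (v : ι → F) (hv : Q v ≠ 0) : R Q v hv ∈ reflections Q := ⟨v, hv, rfl⟩

theorem iso_polar (g : Cfsg.isometryGroup F ⇑Q) (x y : ι → F) :
    QuadraticMap.polar (⇑Q) (g.1.1 *ᵥ x) (g.1.1 *ᵥ y) = QuadraticMap.polar (⇑Q) x y := by
  have h := (mem_isometryGroup_iff (⇑Q) g.1).1 g.2
  simp only [QuadraticMap.polar, ← Matrix.mulVec_add, h]

/-- One step: move `g v` back to `v` by reflections fixing what is orthogonal to both. -/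
theorem step (h2 : (2 : F) ≠ 0) {v w : ι → F} (hv : Q v ≠ 0) (hw : Q w = Q v) :
    ∃ r ∈ Subgroup.closure (reflections Q), r.1.1 *ᵥ w = v ∧
      ∀ x, QuadraticMap.polar (⇑Q) v x = 0 → QuadraticMap.polar (⇑Q) w x = 0 → r.1.1 *ᵥ x = x := by
  have hpol : QuadraticMap.polar (⇑Q) w w = 2 * Q v := by
    rw [QuadraticMap.polar_self, two_nsmul, two_mul, hw]
  have hwv : QuadraticMap.polar (⇑Q) v w = QuadraticMap.polar (⇑Q) w v := QuadraticMap.polar_comm _ _ _
  by_cases h : Q (w - v) = 0
  · have hs : Q (w + v) ≠ 0 := by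
      intro h'
      have e : Q (w + v) + Q (w - v) = 2 * Q w + 2 * Q v := by
        have h1 := map_add_smul Q w v 1
        have h1' := map_add_smul Q w v (-1)
        rw [one_smul] at h1
        rw [neg_one_smul, ← sub_eq_add_neg] at h1'
        rw [h1, h1']
        ring
      rw [h', h, hw] at e
      exact mul_ne_zero (mul_ne_zero h2 h2) hv (by linear_combination -e)
    have hQs : Q (w + v) = 2 * Q v + QuadraticMap.polar (⇑Q) w v := by
      have h1 := map_add_smul Q w v 1
      rw [one_smul, hwv] at h1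
      rw [h1, hw]; ring
    refine ⟨R Q v hv * R Q (w + v) hs, mul_mem (Subgroup.subset_closure (R_mem v hv))
      (Subgroup.subset_closure (R_mem _ hs)), ?_, fun x hx hx' => ?_⟩
    · rw [Subgroup.coe_mul, Units.val_mul, ← Matrix.mulVec_mulVec]
      have e1 : (R Q (w + v) hs).1.1 *ᵥ w = -v := by
        rw [R_apply, QuadraticMap.polar_add_left, hpol, hwv, ← hQs, inv_mul_cancel₀ hs, one_smul]
        abel
      rw [e1, R_apply, QuadraticMap.polar_neg_right, QuadraticMap.polar_self, two_nsmul, ← two_mul,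
        show (Q v)⁻¹ * -(2 * Q v) = -2 by field_simp]
      rw [neg_smul, two_smul]
      abel
    · rw [Subgroup.coe_mul, Units.val_mul, ← Matrix.mulVec_mulVec,
        R_fix _ hs (by rw [QuadraticMap.polar_add_left, hx, hx', add_zero]), R_fix v hv hx]
  · refine ⟨R Q (w - v) h, Subgroup.subset_closure (R_mem _ h), ?_, fun x hx hx' => ?_⟩
    · have hQs : Q (w - v) = 2 * Q v - QuadraticMap.polar (⇑Q) w v := by
        have h1 := map_add_smul Q w v (-1)
        rw [neg_one_smul, ← sub_eq_add_neg, hwv] at h1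
        rw [h1, hw]; ring
      rw [R_apply, QuadraticMap.polar_sub_left, hpol, hwv, ← hQs, inv_mul_cancel₀ h, one_smul]
      abel
    · rw [R_fix _ h (by rw [QuadraticMap.polar_sub_left, hx, hx', sub_zero])]

theorem closure_reflections (h2 : (2 : F) ≠ 0) (hQ : (QuadraticMap.polarBilin Q).Nondegenerate) :
    Subgroup.closure (reflections Q) = ⊤ := by
  classical
  haveI : Invertible (2 : F) := invertibleOfNonzero h2
  have hsymm : LinearMap.IsSymm (QuadraticMap.polarBilin Q) :=
    ⟨fun x y => by simp [QuadraticMap.polar_comm]⟩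
  obtain ⟨b, hb⟩ := LinearMap.BilinForm.exists_orthogonal_basis (B := QuadraticMap.polarBilin Q) hsymm
  have hne : ∀ i, Q (b i) ≠ 0 := fun i h => by
    refine hb.not_isOrtho_basis_self_of_separatingLeft hQ.1 i ?_
    change QuadraticMap.polar (⇑Q) (b i) (b i) = 0
    rw [QuadraticMap.polar_self, h, smul_zero]
  refine eq_top_iff.2 fun g _ => ?_
  suffices H : ∀ k : ℕ, ∃ r ∈ Subgroup.closure (reflections Q),
      ∀ i, i.val < k → (r * g).1.1 *ᵥ b i = b i by
    obtain ⟨r, hr, hfix⟩ := H (Module.finrank F (ι → F))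
    have h1 : r * g = 1 := by
      refine Subtype.ext (Units.ext ?_)
      refine Matrix.toLin'.injective (b.ext fun i => ?_)
      · simpa using hfix i i.2
    rw [show g = r⁻¹ from eq_inv_of_mul_eq_one_right h1]
    exact inv_mem hr
  intro k
  induction k with
  | zero => exact ⟨1, one_mem _, fun i hi => absurd hi (Nat.not_lt_zero _)⟩
  | succ k ih =>
    obtain ⟨r, hr, hfix⟩ := ih
    rcases Nat.lt_or_ge k (Module.finrank F (ι → F)) with hk | hk
    swap
    · exact ⟨r, hr, fun i _ => hfix i (lt_of_lt_of_le i.2 hk)⟩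
    obtain ⟨s, hs, hsw, hsfix⟩ := step h2 (v := b ⟨k, hk⟩) (w := (r * g).1.1 *ᵥ b ⟨k, hk⟩) (hne _)
      ((mem_isometryGroup_iff (⇑Q) (r * g).1).1 (r * g).2 _)
    refine ⟨s * r, mul_mem hs hr, fun i hi => ?_⟩
    rw [mul_assoc, Subgroup.coe_mul, Units.val_mul, ← Matrix.mulVec_mulVec]
    rcases Nat.lt_succ_iff_lt_or_eq.1 hi with hik | hik
    · rw [hfix i hik]
      have hort : QuadraticMap.polar (⇑Q) (b ⟨k, hk⟩) (b i) = 0 :=
        hb (show (⟨k, hk⟩ : Fin _) ≠ i by simp only [ne_eq, Fin.ext_iff]; omega)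
      refine hsfix _ hort ?_
      conv_lhs => rw [← hfix i hik]
      rw [iso_polar, hort]
    · rw [show i = ⟨k, hk⟩ from Fin.ext hik]
      exact hsw

variable (Q) in
/-- Products of two reflections. -/
def pairs : Set (Cfsg.isometryGroup F ⇑Q) :=
  {g | ∃ u v : ι → F, Q u ≠ 0 ∧ Q v ≠ 0 ∧
    g.1.1 = Cfsg.reflectionMatrix (⇑Q) u * Cfsg.reflectionMatrix (⇑Q) v}

theorem special_eq_pairs (h2 : (2 : F) ≠ 0) (hQ : (QuadraticMap.polarBilin Q).Nondegenerate) :
    Cfsg.specialIsometryGroup F ⇑Q = Subgroup.closure (pairs Q) := by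
  classical
  have hdet : ∀ g, g ∈ pairs Q → g ∈ Cfsg.specialIsometryGroup F ⇑Q := by
    rintro g ⟨u, v, hu, hv, hg⟩
    rw [Cfsg.specialIsometryGroup, MonoidHom.mem_ker]
    refine Units.ext ?_
    simp [hg, reflection_det Q u hu, reflection_det Q v hv]
  refine le_antisymm ?_ ((Subgroup.closure_le _).2 hdet)
  have hrefl : ∀ g ∈ reflections Q, g * g = 1 ∧ g.1.1.det = -1 := by
    rintro g ⟨v, hv, hg⟩
    refine ⟨Subtype.ext (Units.ext ?_), by rw [hg, reflection_det Q v hv]⟩
    refine Matrix.toLin'.injective (LinearMap.ext fun x => ?_)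
    simp only [Subgroup.coe_mul, Units.val_mul, hg, Matrix.toLin'_apply, ← Matrix.mulVec_mulVec,
      reflection_mulVec, QuadraticMap.polar_sub_right, QuadraticMap.polar_smul_right,
      QuadraticMap.polar_self, OneMemClass.coe_one, Units.val_one, Matrix.one_mulVec]
    rw [smul_eq_mul, two_nsmul, show (Q v)⁻¹ * (QuadraticMap.polar (⇑Q) v x
      - (Q v)⁻¹ * QuadraticMap.polar (⇑Q) v x * (Q v + Q v))
        = -((Q v)⁻¹ * QuadraticMap.polar (⇑Q) v x) by field_simp; ring, neg_smul]
    abel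
  intro g hg
  by_cases hex : ∃ a : ι → F, Q a ≠ 0
  swap
  · push Not at hex
    have hg' : g ∈ Subgroup.closure (reflections Q) := by
      rw [closure_reflections h2 hQ]; trivial
    have hemp : reflections Q = ∅ := Set.eq_empty_iff_forall_notMem.2 fun r ⟨v, hv, _⟩ => hv (hex v)
    rw [hemp, Subgroup.closure_empty, Subgroup.mem_bot] at hg'
    rw [hg']
    exact one_mem _
  obtain ⟨a, ha⟩ := hex
  set E := Subgroup.closure (pairs Q) with hE
  have hpair : ∀ x ∈ reflections Q, ∀ y ∈ reflections Q, x * y ∈ E := by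
    rintro x ⟨u, hu, hx⟩ y ⟨v, hv, hy⟩
    exact Subgroup.subset_closure ⟨u, v, hu, hv, by rw [Subgroup.coe_mul, Units.val_mul, hx, hy]⟩
  have hall : ∀ x : Cfsg.isometryGroup F ⇑Q, x ∈ E ∨ R Q a ha * x ∈ E := by
    intro x
    have hx : x ∈ Subgroup.closure (reflections Q) := by rw [closure_reflections h2 hQ]; trivial
    have hinv : ∀ y ∈ reflections Q, y⁻¹ = y := fun y hy => inv_eq_of_mul_eq_one_right (hrefl y hy).1
    have hstep : ∀ r ∈ reflections Q, ∀ z, (z ∈ E ∨ R Q a ha * z ∈ E) →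
        (r * z ∈ E ∨ R Q a ha * (r * z) ∈ E) := by
      rintro r hr z (hz | hz)
      · exact Or.inr (by rw [← mul_assoc]; exact mul_mem (hpair _ (R_mem a ha) r hr) hz)
      · refine Or.inl ?_
        have : r * z = (r * R Q a ha) * (R Q a ha * z) := by
          rw [mul_assoc, ← mul_assoc (R Q a ha) (R Q a ha), (hrefl _ (R_mem a ha)).1, one_mul]
        rw [this]
        exact mul_mem (hpair r hr _ (R_mem a ha)) hz
    induction hx using Subgroup.closure_induction_left with
    | one => exact Or.inl (one_mem _)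
    | mul_left r hr z _ ih => exact hstep r hr z ih
    | inv_mul_cancel r hr z _ ih => rw [hinv r hr]; exact hstep r hr z ih
  rcases hall g with h | h
  · exact h
  · exfalso
    have h1 : (g.1.1).det = 1 := by
      rw [Cfsg.specialIsometryGroup, MonoidHom.mem_ker] at hg
      simpa using congrArg Units.val hg
    have h3 := (Subgroup.closure_le _).2 hdet h
    rw [Cfsg.specialIsometryGroup, MonoidHom.mem_ker] at h3
    have h4 : ((R Q a ha).1.1 * g.1.1).det = 1 := by simpa using congrArg Units.val h3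
    rw [Matrix.det_mul, (hrefl _ (R_mem a ha)).2, h1] at h4
    exact h2 (by linear_combination -h4)

end CfsgLib.Geometry.Reflections
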