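import Mathlib
import Cfsg.Prelude.Def_ClassicalGeometry
import Cfsg.Agent.Lib.Geometry.QuadBasic
import Cfsg.Agent.Lib.Geometry.Reflections
import Cfsg.Agent.Lib.Forms.WittQuad

/-!
Generation by reflections in every characteristic, and the Dickson invariant.
-/

set_option autoImplicit false
open scoped Matrix

namespace CfsgLib.Geometry.DicksonGen

open CfsgLib.Geometry CfsgLib.Geometry.QuadBasic

variable {F : Type*} [Field F] {ι : Type} [Fintype ι] [DecidableEq ι] {Q : QuadraticForm F (ι → F)}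

/-- `g - 1`. -/
noncomputable def N (g : Cfsg.isometryGroup F ⇑Q) : (ι → F) →ₗ[F] (ι → F) :=
  Matrix.toLin' g.1.1 - LinearMap.id

theorem N_apply (g : Cfsg.isometryGroup F ⇑Q) (x : ι → F) : N g x = g.1.1 *ᵥ x - x := by simp [N]

/-- The residual rank. -/
noncomputable def rk (g : Cfsg.isometryGroup F ⇑Q) : ℕ := Module.finrank F (LinearMap.range (N g))

theorem mem_ker (g : Cfsg.isometryGroup F ⇑Q) (x : ι → F) : x ∈ LinearMap.ker (N g) ↔ g.1.1 *ᵥ x = x := by
  rw [LinearMap.mem_ker, N_apply, sub_eq_zero]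

theorem polar_range (g : Cfsg.isometryGroup F ⇑Q) {a f : ι → F} (ha : a ∈ LinearMap.range (N g))
    (hf : f ∈ LinearMap.ker (N g)) : QuadraticMap.polar (⇑Q) a f = 0 := by
  obtain ⟨y, rfl⟩ := ha
  rw [mem_ker] at hf
  rw [N_apply, QuadraticMap.polar_sub_left]
  conv_lhs => arg 1; rw [← hf]
  rw [Reflections.iso_polar, sub_self]

variable (hQ : (QuadraticMap.polarBilin Q).Nondegenerate)
include hQ

/-- The image is the orthogonal of the fixed space. -/
theorem range_eq (g : Cfsg.isometryGroup F ⇑Q) :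
    LinearMap.range (N g) = LinearMap.BilinForm.orthogonal (QuadraticMap.polarBilin Q) (LinearMap.ker (N g)) := by
  refine Submodule.eq_of_le_of_finrank_eq ?_ ?_
  · intro a ha
    rw [LinearMap.BilinForm.mem_orthogonal_iff]
    intro f hf
    show QuadraticMap.polar (⇑Q) f a = 0
    rw [QuadraticMap.polar_comm]; exact polar_range g ha hf
  · rw [LinearMap.BilinForm.finrank_orthogonal hQ]
    have := (N g).finrank_range_add_finrank_ker
    omega

theorem mem_range_of_perp (g : Cfsg.isometryGroup F ⇑Q) {a : ι → F}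
    (h : ∀ f ∈ LinearMap.ker (N g), QuadraticMap.polar (⇑Q) a f = 0) : a ∈ LinearMap.range (N g) := by
  rw [range_eq hQ, LinearMap.BilinForm.mem_orthogonal_iff]
  intro f hf
  show QuadraticMap.polar (⇑Q) f a = 0
  rw [QuadraticMap.polar_comm]; exact h f hf

omit hQ in
theorem R_mul_apply (g : Cfsg.isometryGroup F ⇑Q) {v : ι → F} (hv : Q v ≠ 0) (x : ι → F) :
    (Reflections.R Q v hv * g).1.1 *ᵥ x
      = g.1.1 *ᵥ x - ((Q v)⁻¹ * QuadraticMap.polar (⇑Q) v (g.1.1 *ᵥ x)) • v := by
  rw [Subgroup.coe_mul, Units.val_mul, ← Matrix.mulVec_mulVec, Reflections.R_apply]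

omit hQ in
theorem range_le (g : Cfsg.isometryGroup F ⇑Q) {v : ι → F} (hv : Q v ≠ 0) :
    LinearMap.range (N (Reflections.R Q v hv * g)) ≤ LinearMap.range (N g) ⊔ Submodule.span F {v} := by
  rintro _ ⟨x, rfl⟩
  rw [N_apply, R_mul_apply g hv, show g.1.1 *ᵥ x - ((Q v)⁻¹ * QuadraticMap.polar (⇑Q) v (g.1.1 *ᵥ x)) • v - x
    = N g x + (-((Q v)⁻¹ * QuadraticMap.polar (⇑Q) v (g.1.1 *ᵥ x))) • v by rw [N_apply]; module]
  exact Submodule.add_mem_sup ⟨x, rfl⟩ (Submodule.smul_mem _ _ (Submodule.mem_span_singleton_self v))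

/-- A vector of the image lowers the rank. -/
theorem rk_down (g : Cfsg.isometryGroup F ⇑Q) {v : ι → F} (hv : Q v ≠ 0) (h : v ∈ LinearMap.range (N g)) :
    rk (Reflections.R Q v hv * g) + 1 = rk g := by
  obtain ⟨y, hy⟩ := h
  have hyv : g.1.1 *ᵥ y = v + y := by rw [← hy, N_apply]; abel
  have hkey : QuadraticMap.polar (⇑Q) v (g.1.1 *ᵥ y) = Q v := by
    have hiso : Q (g.1.1 *ᵥ y) = Q y := (mem_isometryGroup_iff (⇑Q) g.1).1 g.2 y
    rw [hyv] at hiso
    rw [hyv, QuadraticMap.polar_add_right, QuadraticMap.polar_self, two_nsmul]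
    have hp : QuadraticMap.polar (⇑Q) v y = Q (v + y) - Q v - Q y := rfl
    rw [hp, hiso]; ring
  have hker : LinearMap.ker (N (Reflections.R Q v hv * g)) = LinearMap.ker (N g) ⊔ Submodule.span F {y} := by
    apply le_antisymm
    · intro x hx
      rw [mem_ker, R_mul_apply g hv] at hx
      set c := (Q v)⁻¹ * QuadraticMap.polar (⇑Q) v (g.1.1 *ᵥ x)
      have : x - c • y ∈ LinearMap.ker (N g) := by
        rw [LinearMap.mem_ker, map_sub, map_smul, hy, N_apply]
        linear_combination (norm := module) hx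
      rw [show x = (x - c • y) + c • y by abel]
      exact Submodule.add_mem_sup this (Submodule.smul_mem _ _ (Submodule.mem_span_singleton_self y))
    · refine sup_le (fun f hf => ?_) ?_
      · have h0 := polar_range g (⟨y, hy⟩ : v ∈ LinearMap.range (N g)) hf
        rw [mem_ker] at hf ⊢
        rw [R_mul_apply g hv, hf, h0, mul_zero, zero_smul, sub_zero]
      · rw [Submodule.span_singleton_le_iff_mem, mem_ker, R_mul_apply g hv, hkey, inv_mul_cancel₀ hv, one_smul, hyv]
        abel
  have hyk : y ∉ LinearMap.ker (N g) := fun h => hv (by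
    rw [LinearMap.mem_ker, hy] at h; rw [h, QuadraticMap.map_zero])
  have h1 := (N g).finrank_range_add_finrank_ker
  have h2 := (N (Reflections.R Q v hv * g)).finrank_range_add_finrank_ker
  have h3 := Submodule.finrank_sup_span_singleton hyk
  rw [hker] at h2
  simp only [rk]
  omega

/-- A vector outside the image raises the rank. -/
theorem rk_up (g : Cfsg.isometryGroup F ⇑Q) {v : ι → F} (hv : Q v ≠ 0) (h : v ∉ LinearMap.range (N g)) :
    rk (Reflections.R Q v hv * g) = rk g + 1 ∧
      LinearMap.range (N (Reflections.R Q v hv * g)) = LinearMap.range (N g) ⊔ Submodule.span F {v} := by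
  obtain ⟨f0, hf0, hvf⟩ : ∃ f ∈ LinearMap.ker (N g), QuadraticMap.polar (⇑Q) v f ≠ 0 := by
    by_contra hc
    simp only [not_exists, not_and, not_not] at hc
    exact h (mem_range_of_perp hQ g hc)
  have hker : LinearMap.ker (N (Reflections.R Q v hv * g))
      ≤ LinearMap.ker (N g) ⊓ LinearMap.ker (QuadraticMap.polarBilin Q v) := by
    intro x hx
    rw [mem_ker, R_mul_apply g hv] at hx
    set c := (Q v)⁻¹ * QuadraticMap.polar (⇑Q) v (g.1.1 *ᵥ x) with hc
    have hc0 : c = 0 := by
      by_contra hne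
      refine h ⟨c⁻¹ • x, ?_⟩
      rw [map_smul, N_apply, show g.1.1 *ᵥ x - x = c • v by linear_combination (norm := module) hx, smul_smul,
        inv_mul_cancel₀ hne, one_smul]
    rw [hc0, zero_smul, sub_zero] at hx
    rw [hx] at hc
    refine ⟨(mem_ker g x).2 hx, LinearMap.mem_ker.2 ?_⟩
    show QuadraticMap.polar (⇑Q) v x = 0
    rw [hc0] at hc
    exact (mul_eq_zero.1 hc.symm).resolve_left (inv_ne_zero hv)
  have hlt : LinearMap.ker (N g) ⊓ LinearMap.ker (QuadraticMap.polarBilin Q v) < LinearMap.ker (N g) :=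
    lt_of_le_of_ne inf_le_left fun e => hvf (LinearMap.mem_ker.1 ((e.ge hf0).2))
  have h1 := (N g).finrank_range_add_finrank_ker
  have h2 := (N (Reflections.R Q v hv * g)).finrank_range_add_finrank_ker
  have h3 := Submodule.finrank_mono hker
  have h4 := Submodule.finrank_lt_finrank_of_lt hlt
  have h5 := Submodule.finrank_sup_span_singleton h
  have h6 := Submodule.finrank_mono (range_le g hv)
  simp only [rk]
  refine ⟨by omega, Submodule.eq_of_le_of_finrank_eq (range_le g hv) (by omega)⟩

theorem eq_one_of_rk (g : Cfsg.isometryGroup F ⇑Q) (h : rk g = 0) : g = 1 := by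
  refine Subtype.ext (Units.ext (Matrix.ext_of_mulVec_single fun i => ?_))
  have : LinearMap.range (N g) = ⊥ := Submodule.finrank_eq_zero.1 h
  have h1 : N g (Pi.single i 1) = 0 := (Submodule.eq_bot_iff _).1 this _ ⟨_, rfl⟩
  rw [N_apply, sub_eq_zero] at h1
  simp only [OneMemClass.coe_one, Units.val_one, Matrix.one_mulVec]
  exact h1

/-- A totally singular image has dimension at least two. -/
theorem two_le_rk (g : Cfsg.isometryGroup F ⇑Q) (h : rk g ≠ 0) (hsing : ∀ a ∈ LinearMap.range (N g), Q a = 0) :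
    2 ≤ rk g := by
  by_contra hlt
  have hne : LinearMap.range (N g) ≠ ⊥ := fun e => h (by rw [rk, e, finrank_bot])
  obtain ⟨w, hw, hw0⟩ := (LinearMap.range (N g)).exists_mem_ne_zero_of_ne_bot hne
  have hspan : Submodule.span F {w} = LinearMap.range (N g) := by
    refine Submodule.eq_of_le_of_finrank_le ((Submodule.span_singleton_le_iff_mem _ _).2 hw) ?_
    rw [finrank_span_singleton hw0]
    simp only [rk] at hlt; omega
  refine h ?_
  rw [rk, Submodule.finrank_eq_zero]
  refine (Submodule.eq_bot_iff _).2 ?_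
  rintro a ⟨y, rfl⟩
  by_contra ha
  obtain ⟨c, hc⟩ := Submodule.mem_span_singleton.1 (hspan.ge (⟨y, rfl⟩ : N g y ∈ LinearMap.range (N g)))
  have hiso : Q (g.1.1 *ᵥ y) = Q y := (mem_isometryGroup_iff (⇑Q) g.1).1 g.2 y
  have hgy : g.1.1 *ᵥ y = y + c • w := by rw [hc, N_apply]; abel
  rw [hgy, map_add_smul, hsing w hw] at hiso
  have hc0 : c ≠ 0 := fun e => ha (by rw [← hc, e, zero_smul])
  have hyw : QuadraticMap.polar (⇑Q) w y = 0 := by
    have : c * QuadraticMap.polar (⇑Q) w y = 0 := by linear_combination hiso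
    exact (mul_eq_zero.1 this).resolve_left hc0
  -- then w is orthogonal to everything
  refine hw0 (hQ.1 w fun x => ?_)
  show QuadraticMap.polar (⇑Q) w x = 0
  obtain ⟨e, he⟩ := Submodule.mem_span_singleton.1 (hspan.ge (⟨x, rfl⟩ : N g x ∈ LinearMap.range (N g)))
  have hk : x - (e / c) • y ∈ LinearMap.ker (N g) := by
    rw [LinearMap.mem_ker, map_sub, map_smul, ← hc, ← he, smul_smul, div_mul_cancel₀ _ hc0, sub_self]
  have := polar_range g hw hk
  rwa [QuadraticMap.polar_sub_right, QuadraticMap.polar_smul_right, hyw, smul_zero, sub_zero] at this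

/-- The orthogonal group is generated by reflections, but for the hyperbolic four-space over two elements. -/
theorem closure_eq_top' (hex : (∃ c : F, c ≠ 0 ∧ c ≠ 1) ∨ Fintype.card ι ≠ 4 ∨
    ∀ U : Submodule F (ι → F), (∀ x ∈ U, Q x = 0) → 2 * Module.finrank F U < Fintype.card ι) :
    Subgroup.closure (Reflections.reflections Q) = ⊤ := by
  classical
  set K := Subgroup.closure (Reflections.reflections Q)
  have hRK : ∀ v (hv : Q v ≠ 0), Reflections.R Q v hv ∈ K := fun v hv => Subgroup.subset_closure (Reflections.R_mem v hv)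
  have hback : ∀ v (hv : Q v ≠ 0) g, Reflections.R Q v hv * g ∈ K → g ∈ K := fun v hv g h => by
    simpa using K.mul_mem (K.inv_mem (hRK v hv)) h
  suffices H : ∀ r, ∀ g : Cfsg.isometryGroup F ⇑Q, rk g = r → g ∈ K from eq_top_iff.2 fun g _ => H _ g rfl
  intro r
  induction r using Nat.strong_induction_on with
  | _ r IH =>
  intro g hg
  by_cases hr0 : r = 0
  · rw [eq_one_of_rk hQ g (by omega)]; exact one_mem _
  -- anisotropic vectors in the image lower the rank
  have lower : ∀ g' : Cfsg.isometryGroup F ⇑Q, rk g' = r → (∃ a ∈ LinearMap.range (N g'), Q a ≠ 0) → g' ∈ K := by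
    rintro g' hg' ⟨a, ha, hQa⟩
    have := rk_down hQ g' hQa ha
    exact hback a hQa g' (IH _ (by omega) _ rfl)
  by_cases hA : ∃ a ∈ LinearMap.range (N g), Q a ≠ 0
  · exact lower g hg hA
  simp only [not_exists, not_and, not_not] at hA
  set W := LinearMap.range (N g) with hW
  have hWr : Module.finrank F W = r := hg
  have hr2 : 2 ≤ r := hg ▸ two_le_rk hQ g (by omega) hA
  have hWW : ∀ a ∈ W, ∀ b ∈ W, QuadraticMap.polar (⇑Q) a b = 0 := fun a ha b hb => by
    rw [QuadraticMap.polar, hA _ (W.add_mem ha hb), hA a ha, hA b hb]; ring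
  -- the auxiliary reflection and two further vectors
  obtain ⟨v, hv, w1, hw1, w2, hw2, hw10, hw20, hw12, hwv1, hwv2⟩ : ∃ v, Q v ≠ 0 ∧ ∃ w1 ∈ W, ∃ w2 ∈ W,
      w1 ≠ 0 ∧ w2 ≠ 0 ∧ w1 ≠ w2 ∧ QuadraticMap.polar (⇑Q) v w1 = 0 ∧ QuadraticMap.polar (⇑Q) v w2 = 0 := by
    have hkerW : ∀ v, ∀ k, k + 1 < r → k ≤ 1 → ∀ s : Fin k → (ι → F), ∃ w ∈ W, QuadraticMap.polar (⇑Q) v w = 0 ∧
        w ∉ Submodule.span F (Set.range s) := by
      intro v k hk hk1 s
      let L : W →ₗ[F] F := (QuadraticMap.polarBilin Q v).comp W.subtype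
      by_contra hc
      simp only [not_exists, not_and, not_not] at hc
      have hle : (LinearMap.ker L).map W.subtype ≤ Submodule.span F (Set.range s) := by
        rintro _ ⟨w, hw, rfl⟩
        exact hc w.1 w.2 (LinearMap.mem_ker.1 hw)
      have h1 := Submodule.finrank_mono hle
      have h2 := L.finrank_range_add_finrank_ker
      have h3 : Module.finrank F (LinearMap.range L) ≤ 1 := (Submodule.finrank_le _).trans (le_of_eq (Module.finrank_self F))
      have h4 : Module.finrank F (Submodule.span F (Set.range s)) ≤ k := (finrank_range_le_card s).trans (le_of_eq (Fintype.card_fin k))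
      rw [(Submodule.equivMapOfInjective _ W.injective_subtype _).finrank_eq.symm] at h1
      omega
    have hanis : ∀ U : Submodule F (ι → F), (∀ v ∈ U, Q v = 0) → 2 * Module.finrank F U ≤ Fintype.card ι := by
      intro U hU
      have hle : U ≤ LinearMap.BilinForm.orthogonal (QuadraticMap.polarBilin Q) U := fun x hx => by
        rw [LinearMap.BilinForm.mem_orthogonal_iff]
        intro y hy
        show QuadraticMap.polar (⇑Q) y x = 0
        rw [QuadraticMap.polar, hU _ (U.add_mem hy hx), hU y hy, hU x hx]; ring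
      have h1 := Submodule.finrank_mono hle
      rw [LinearMap.BilinForm.finrank_orthogonal hQ, Module.finrank_fintype_fun_eq_card] at h1
      omega
    have hWn : 2 * r ≤ Fintype.card ι := hg ▸ hanis W hA
    by_cases hc : ∃ c : F, c ≠ 0 ∧ c ≠ 1
    · obtain ⟨c, hc0, hc1⟩ := hc
      obtain ⟨v, hv⟩ : ∃ v, Q v ≠ 0 := by
        by_contra h
        simp only [not_exists, not_not] at h
        have := hanis ⊤ (fun v _ => h v)
        rw [finrank_top, Module.finrank_fintype_fun_eq_card] at this
        omega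
      obtain ⟨w, hw, hvw, hwne⟩ := hkerW v 0 (by omega) (by omega) Fin.elim0
      have hw0 : w ≠ 0 := fun e => hwne (by rw [e]; exact Submodule.zero_mem _)
      refine ⟨v, hv, w, hw, c • w, W.smul_mem _ hw, hw0, smul_ne_zero hc0 hw0, fun e => ?_, hvw, ?_⟩
      · refine hc1 (smul_left_injective F hw0 (show c • w = (1 : F) • w by rw [one_smul]; exact e.symm))
      · rw [QuadraticMap.polar_smul_right, hvw, smul_zero]
    · -- two elements
      have h4 : Fintype.card ι ≠ 4 ∨ 2 * r < Fintype.card ι :=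
        (hex.resolve_left hc).imp id fun h => hWr ▸ h W hA
      by_cases hr3 : 3 ≤ r
      · obtain ⟨v, hv⟩ : ∃ v, Q v ≠ 0 := by
          by_contra h
          simp only [not_exists, not_not] at h
          have := hanis ⊤ (fun v _ => h v)
          rw [finrank_top, Module.finrank_fintype_fun_eq_card] at this
          omega
        obtain ⟨w, hw, hvw, hwne⟩ := hkerW v 0 (by omega) (by omega) Fin.elim0
        obtain ⟨w', hw', hvw', hwne'⟩ := hkerW v 1 (by omega) le_rfl ![w]
        refine ⟨v, hv, w, hw, w', hw', fun e => hwne (by rw [e]; exact Submodule.zero_mem _),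
          fun e => hwne' (by rw [e]; exact Submodule.zero_mem _), fun e => hwne' (e ▸ Submodule.subset_span ⟨0, rfl⟩), hvw, hvw'⟩
      · -- the fixed space is not totally singular
        obtain ⟨v, hvk, hv⟩ : ∃ v ∈ LinearMap.ker (N g), Q v ≠ 0 := by
          by_contra h
          simp only [not_exists, not_and, not_not] at h
          have h1 := hanis _ h
          have h2 := (N g).finrank_range_add_finrank_ker
          rw [Module.finrank_fintype_fun_eq_card] at h2
          simp only [rk] at hg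
          omega
        have hWne : W ≠ ⊥ := fun e => by rw [e, finrank_bot] at hWr; omega
        obtain ⟨w, hw, hw0⟩ := W.exists_mem_ne_zero_of_ne_bot hWne
        obtain ⟨w', hw', hw'ne⟩ : ∃ w' ∈ W, w' ∉ Submodule.span F {w} := by
          by_contra h
          simp only [not_exists, not_and, not_not] at h
          have h1 := Submodule.finrank_mono (show W ≤ Submodule.span F {w} from h)
          rw [finrank_span_singleton hw0] at h1
          omega
        refine ⟨v, hv, w, hw, w', hw', hw0, fun e => hw'ne (by rw [e]; exact Submodule.zero_mem _),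
          fun e => hw'ne (e ▸ Submodule.mem_span_singleton_self w), ?_, ?_⟩ <;>
          rw [QuadraticMap.polar_comm] <;> exact polar_range g (by assumption) hvk
  have hvW : v ∉ W := fun h => hv (hA v h)
  obtain ⟨hup, hW'⟩ := rk_up hQ g hv hvW
  set g1 := Reflections.R Q v hv * g with hg1
  rw [← hW] at hW'
  -- the vectors v + w
  have hQa : ∀ w ∈ W, QuadraticMap.polar (⇑Q) v w = 0 → Q (v + w) = Q v := fun w hw h => by
    rw [QuadraticMap.polar, hA w hw] at h; linear_combination h
  have hane : ∀ w ∈ W, QuadraticMap.polar (⇑Q) v w = 0 → Q (v + w) ≠ 0 := fun w hw h => by rw [hQa w hw h]; exact hv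
  have hain : ∀ w ∈ W, v + w ∈ LinearMap.range (N g1) := fun w hw => by
    rw [hW', add_comm]; exact Submodule.add_mem_sup hw (Submodule.mem_span_singleton_self v)
  -- the candidates
  by_contra hgK
  have cand : ∀ w (hw : w ∈ W) (hwv : QuadraticMap.polar (⇑Q) v w = 0),
      rk (Reflections.R Q (v + w) (hane w hw hwv) * g1) = r ∧
      ∀ a ∈ LinearMap.range (N (Reflections.R Q (v + w) (hane w hw hwv) * g1)), Q a = 0 := by
    intro w hw hwv
    have hd := rk_down hQ g1 (hane w hw hwv) (hain w hw)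
    refine ⟨by omega, fun a ha => ?_⟩
    by_contra hQa'
    exact hgK (hback v hv g (hback _ (hane w hw hwv) g1 (lower _ (by omega) ⟨a, ha, hQa'⟩)))
  -- their images agree
  let ℓ : ∀ w, w ∈ W → QuadraticMap.polar (⇑Q) v w = 0 → Submodule F (ι → F) := fun w hw hwv =>
    LinearMap.range (N (Reflections.R Q (v + w) (hane w hw hwv) * g1))
  have hTle : ∀ w hw hwv, ℓ w hw hwv ≤ W ⊔ Submodule.span F {v} := fun w hw hwv => by
    refine (range_le g1 _).trans (sup_le (le_of_eq hW') ?_)
    rw [Submodule.span_singleton_le_iff_mem, add_comm]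
    exact Submodule.add_mem_sup hw (Submodule.mem_span_singleton_self v)
  have hTne : ∀ w hw hwv, w ≠ 0 → ℓ w hw hwv ≠ W := by
    intro w hw hwv hw0 e
    have hfix : ∀ f ∈ LinearMap.ker (N g), QuadraticMap.polar (⇑Q) v f = 0 := by
      intro f hf
      have hf' : f ∈ LinearMap.ker (N (Reflections.R Q (v + w) (hane w hw hwv) * g1)) := by
        have h1 : LinearMap.BilinForm.orthogonal (QuadraticMap.polarBilin Q) (LinearMap.ker (N (Reflections.R Q (v + w) (hane w hw hwv) * g1)))
            = LinearMap.BilinForm.orthogonal (QuadraticMap.polarBilin Q) (LinearMap.ker (N g)) := by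
          rw [← range_eq hQ, ← range_eq hQ]; exact e
        have hrefl : LinearMap.BilinForm.IsRefl (QuadraticMap.polarBilin Q) := fun x y h => by
          show QuadraticMap.polar (⇑Q) y x = 0
          rw [QuadraticMap.polar_comm]; exact h
        have h2 := congrArg (LinearMap.BilinForm.orthogonal (QuadraticMap.polarBilin Q)) h1
        rw [LinearMap.BilinForm.orthogonal_orthogonal hQ hrefl, LinearMap.BilinForm.orthogonal_orthogonal hQ hrefl] at h2
        rw [h2]; exact hf
      rw [mem_ker] at hf hf'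
      rw [R_mul_apply, hg1, R_mul_apply, hf] at hf'
      set z := f - ((Q v)⁻¹ * QuadraticMap.polar (⇑Q) v f) • v
      set β := (Q (v + w))⁻¹ * QuadraticMap.polar (⇑Q) (v + w) z
      set α := (Q v)⁻¹ * QuadraticMap.polar (⇑Q) v f with hα
      have h0 : (α + β) • v + β • w = 0 := by
        linear_combination (norm := module) -hf'
      have hβ : β = 0 := by
        by_contra hβ
        apply hvW
        by_cases hab : α + β = 0
        · rw [hab, zero_smul, zero_add, smul_eq_zero] at h0
          exact absurd (h0.resolve_left hβ) hw0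
        · have : v = -((α + β)⁻¹ • (β • w)) := by
            rw [eq_neg_of_add_eq_zero_right h0, smul_neg, neg_neg, smul_smul, inv_mul_cancel₀ hab, one_smul]
          rw [this]; exact W.neg_mem (W.smul_mem _ (W.smul_mem _ hw))
      rw [hβ, add_zero, zero_smul, add_zero, smul_eq_zero] at h0
      have hv0 : v ≠ 0 := fun e => hv (by rw [e, QuadraticMap.map_zero])
      exact (mul_eq_zero.1 (h0.resolve_right hv0)).resolve_left (inv_ne_zero hv)
    exact hvW (mem_range_of_perp hQ g hfix)
  have hTform : ∀ w hw hwv, w ≠ 0 → ∀ x ∈ ℓ w hw hwv, ∀ u ∈ W, ∀ t : F, x = u + t • v →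
      t * Q v + QuadraticMap.polar (⇑Q) v u = 0 := by
    intro w hw hwv hw0 x hx u hu t hxe
    by_contra hne
    have hQx := (cand w hw hwv).2 x hx
    rw [hxe, map_add_smul, hA u hu] at hQx
    have ht : t = 0 := by
      have : t * (t * Q v + QuadraticMap.polar (⇑Q) v u) = 0 := by linear_combination hQx
      exact (mul_eq_zero.1 this).resolve_right hne
    rw [ht, zero_mul, zero_add] at hne
    -- some other element of the image leaves W
    apply hTne w hw hwv hw0
    have hxW : x = u := by rw [hxe, ht, zero_smul, add_zero]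
    refine Submodule.eq_of_le_of_finrank_eq ?_ ((cand w hw hwv).1.trans hg.symm)
    intro y hy
    obtain ⟨u', hu', z, hz, rfl⟩ := Submodule.mem_sup.1 (hTle w hw hwv hy)
    obtain ⟨t', rfl⟩ := Submodule.mem_span_singleton.1 hz
    by_contra hyW
    have ht' : t' ≠ 0 := fun e => hyW (by rw [e, zero_smul, add_zero]; exact hu')
    have e1 := (cand w hw hwv).2 _ hy
    have e2 := (cand w hw hwv).2 _ (Submodule.add_mem _ hy hx)
    rw [hxW, show u' + t' • v + u = (u' + u) + t' • v by abel, map_add_smul, hA _ (W.add_mem hu' hu),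
      QuadraticMap.polar_add_right] at e2
    rw [map_add_smul, hA u' hu'] at e1
    exact hne ((mul_eq_zero.1 (show t' * QuadraticMap.polar (⇑Q) v u = 0 by linear_combination e2 - e1)).resolve_left ht')
  have hTeq : ℓ w1 hw1 hwv1 = ℓ w2 hw2 hwv2 := by
    by_contra hne
    have hS : W ⊔ Submodule.span F {v} ≤ ℓ w1 hw1 hwv1 ⊔ ℓ w2 hw2 hwv2 := by
      refine le_of_eq (Submodule.eq_of_le_of_finrank_le (sup_le (hTle _ hw1 hwv1) (hTle _ hw2 hwv2)) ?_).symm
      rw [← hW']
      have h1 : ℓ w1 hw1 hwv1 < ℓ w1 hw1 hwv1 ⊔ ℓ w2 hw2 hwv2 := lt_of_le_of_ne le_sup_left fun e => hne (by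
        symm
        exact Submodule.eq_of_le_of_finrank_eq (le_sup_right.trans (le_of_eq e.symm))
          ((cand w2 hw2 hwv2).1.trans (cand w1 hw1 hwv1).1.symm))
      have h2 := Submodule.finrank_lt_finrank_of_lt h1
      have h3 : Module.finrank F (ℓ w1 hw1 hwv1) = r := (cand w1 hw1 hwv1).1
      simp only [rk] at hup hg
      omega
    obtain ⟨x, hx, y, hy, hxy⟩ := Submodule.mem_sup.1 (hS (Submodule.mem_sup_right (Submodule.mem_span_singleton_self v)))
    obtain ⟨u, hu, z, hz, rfl⟩ := Submodule.mem_sup.1 (hTle _ hw1 hwv1 hx)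
    obtain ⟨t, rfl⟩ := Submodule.mem_span_singleton.1 hz
    have e1 := hTform w1 hw1 hwv1 hw10 _ hx u hu t rfl
    have e2 := hTform w2 hw2 hwv2 hw20 _ hy (-u) (W.neg_mem hu) (1 - t) (by linear_combination (norm := module) hxy)
    rw [QuadraticMap.polar_neg_right] at e2
    exact hv (by linear_combination e1 + e2)
  -- equal images force equal reflections
  set a1 := v + w1 with ha1
  set a2 := v + w2 with ha2
  have hperp : ∀ f ∈ LinearMap.ker (N (Reflections.R Q a1 (hane w1 hw1 hwv1) * g1)),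
      QuadraticMap.polar (⇑Q) a1 f = 0 := by
    intro f hf
    have hf2 : f ∈ LinearMap.ker (N (Reflections.R Q a2 (hane w2 hw2 hwv2) * g1)) := by
      have hrefl : LinearMap.BilinForm.IsRefl (QuadraticMap.polarBilin Q) := fun x y h => by
        show QuadraticMap.polar (⇑Q) y x = 0
        rw [QuadraticMap.polar_comm]; exact h
      have h1 : LinearMap.BilinForm.orthogonal (QuadraticMap.polarBilin Q) (LinearMap.ker (N (Reflections.R Q a1 (hane w1 hw1 hwv1) * g1)))
          = LinearMap.BilinForm.orthogonal (QuadraticMap.polarBilin Q) (LinearMap.ker (N (Reflections.R Q a2 (hane w2 hw2 hwv2) * g1))) := by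
        rw [← range_eq hQ, ← range_eq hQ]; exact hTeq
      have h2 := congrArg (LinearMap.BilinForm.orthogonal (QuadraticMap.polarBilin Q)) h1
      rw [LinearMap.BilinForm.orthogonal_orthogonal hQ hrefl, LinearMap.BilinForm.orthogonal_orthogonal hQ hrefl] at h2
      rw [← h2]; exact hf
    rw [mem_ker, Subgroup.coe_mul, Units.val_mul, ← Matrix.mulVec_mulVec] at hf hf2
    set z := g1.1.1 *ᵥ f
    rw [Reflections.R_apply] at hf hf2
    set b1 := (Q a1)⁻¹ * QuadraticMap.polar (⇑Q) a1 z with hb1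
    set b2 := (Q a2)⁻¹ * QuadraticMap.polar (⇑Q) a2 z
    have h0 : (b2 - b1) • v + (b2 • w2 - b1 • w1) = 0 := by
      rw [ha1] at hf; rw [ha2] at hf2
      linear_combination (norm := module) hf - hf2
    have hb : b1 = b2 := by
      by_contra hne
      apply hvW
      have : v = -((b2 - b1)⁻¹ • (b2 • w2 - b1 • w1)) := by
        rw [eq_neg_of_add_eq_zero_right h0, smul_neg, neg_neg, smul_smul, inv_mul_cancel₀ (sub_ne_zero.2 (Ne.symm hne)), one_smul]
      rw [this]
      exact W.neg_mem (W.smul_mem _ (W.sub_mem (W.smul_mem _ hw2) (W.smul_mem _ hw1)))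
    rw [← hb, sub_self, zero_smul, zero_add, ← smul_sub, smul_eq_zero] at h0
    have hb0 : b1 = 0 := h0.resolve_right (sub_ne_zero.2 (Ne.symm hw12))
    rw [hb0, zero_smul, sub_zero] at hf
    rw [hf] at hb1
    rw [hb0] at hb1
    exact (mul_eq_zero.1 hb1.symm).resolve_left (inv_ne_zero (hane w1 hw1 hwv1))
  exact hane w1 hw1 hwv1 ((cand w1 hw1 hwv1).2 a1 (mem_range_of_perp hQ _ hperp))

theorem closure_eq_top (hex : (∃ c : F, c ≠ 0 ∧ c ≠ 1) ∨ Fintype.card ι ≠ 4) :
    Subgroup.closure (Reflections.reflections Q) = ⊤ :=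
  closure_eq_top' hQ (hex.imp id Or.inl)

/-- The Dickson invariant. -/
theorem exists_dickson' (hex : Subgroup.closure (Reflections.reflections Q) = ⊤) :
    ∃ D : Cfsg.isometryGroup F ⇑Q →* ℤˣ, (∀ v (hv : Q v ≠ 0), D (Reflections.R Q v hv) = -1) ∧
      ∀ g, D g = (-1) ^ rk g := by
  let μ : Cfsg.isometryGroup F ⇑Q → ℤˣ := fun g => (-1) ^ rk g
  have hflip : ∀ r ∈ Reflections.reflections Q, ∀ g, μ (r * g) = -μ g := by
    rintro r ⟨v, hv, hr⟩ g
    obtain rfl : r = Reflections.R Q v hv := Subtype.ext (Units.ext hr)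
    by_cases h : v ∈ LinearMap.range (N g)
    · show (-1 : ℤˣ) ^ _ = -((-1 : ℤˣ) ^ rk g)
      rw [← rk_down hQ g hv h, pow_succ, mul_neg_one, neg_neg]
    · show (-1 : ℤˣ) ^ _ = -((-1 : ℤˣ) ^ rk g)
      rw [(rk_up hQ g hv h).1, pow_succ, mul_neg_one]
  have h1 : μ 1 = 1 := by
    show (-1 : ℤˣ) ^ _ = 1
    have : N (1 : Cfsg.isometryGroup F ⇑Q) = 0 := LinearMap.ext fun x => by simp [N_apply]
    rw [rk, this, LinearMap.range_zero, finrank_bot, pow_zero]
  have hmul : ∀ x y, μ (x * y) = μ x * μ y := by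
    intro x y
    have hx : x ∈ Subgroup.closure (Reflections.reflections Q) := by rw [hex]; trivial
    induction hx using Subgroup.closure_induction_left with
    | one => rw [one_mul, h1, one_mul]
    | mul_left r hr z _ ih => rw [mul_assoc, hflip r hr, hflip r hr, ih, neg_mul]
    | inv_mul_cancel r hr z _ ih =>
      have e : ∀ z, μ (r⁻¹ * z) = -μ z := fun z => by
        have := hflip r hr (r⁻¹ * z)
        rw [mul_inv_cancel_left] at this
        rw [this, neg_neg]
      rw [mul_assoc, e, e, ih, neg_mul]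
  refine ⟨MonoidHom.mk' μ hmul, fun v hv => ?_, fun g => rfl⟩
  show μ (Reflections.R Q v hv) = -1
  have := hflip _ (Reflections.R_mem v hv) 1
  rw [mul_one, h1] at this
  exact this

theorem exists_dickson (hex : (∃ c : F, c ≠ 0 ∧ c ≠ 1) ∨ Fintype.card ι ≠ 4) :
    ∃ D : Cfsg.isometryGroup F ⇑Q →* ℤˣ, ∀ v (hv : Q v ≠ 0), D (Reflections.R Q v hv) = -1 :=
  let ⟨D, hD, _⟩ := exists_dickson' hQ (closure_eq_top hQ hex)
  ⟨D, hD⟩

omit [DecidableEq ι] in
/-- Equal norms give conjugate vectors. -/
theorem exists_map [DecidableEq ι] {v w : ι → F} (hv : Q v ≠ 0) (h : Q w = Q v) :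
    ∃ g : Cfsg.isometryGroup F ⇑Q, g.1.1 *ᵥ v = w := by
  have hv0 : v ≠ 0 := fun e => hv (by rw [e, QuadraticMap.map_zero])
  have hw0 : w ≠ 0 := fun e => hv (by rw [← h, e, QuadraticMap.map_zero])
  let φ : Submodule.span F {v} ≃ₗ[F] Submodule.span F {w} :=
    (LinearEquiv.toSpanNonzeroSingleton F _ v hv0).symm.trans (LinearEquiv.toSpanNonzeroSingleton F _ w hw0)
  have hφ : ∀ x : Submodule.span F {v}, ∃ c : F, (x : ι → F) = c • v ∧ (φ x : ι → F) = c • w := by
    intro x
    refine ⟨(LinearEquiv.toSpanNonzeroSingleton F _ v hv0).symm x, ?_, rfl⟩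
    conv_lhs => rw [← (LinearEquiv.toSpanNonzeroSingleton F _ v hv0).apply_symm_apply x]
    rfl
  obtain ⟨g, hg, hgx⟩ := CfsgLib.Forms.WittQuad.extend Q hQ _ _ φ (fun x => by
    obtain ⟨c, h1, h2⟩ := hφ x
    rw [h1, h2, QuadraticMap.map_smul, QuadraticMap.map_smul, h])
  let G : Matrix.GeneralLinearGroup ι F := ⟨LinearMap.toMatrix' g.toLinearMap, LinearMap.toMatrix' g.symm.toLinearMap,
    by rw [← LinearMap.toMatrix'_comp, g.comp_symm, LinearMap.toMatrix'_id],
    by rw [← LinearMap.toMatrix'_comp, g.symm_comp, LinearMap.toMatrix'_id]⟩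
  refine ⟨⟨G, (mem_isometryGroup_iff _ _).2 fun x => by
    show Q (LinearMap.toMatrix' g.toLinearMap *ᵥ x) = Q x
    rw [LinearMap.toMatrix'_mulVec]; exact hg x⟩, ?_⟩
  show LinearMap.toMatrix' g.toLinearMap *ᵥ v = w
  rw [LinearMap.toMatrix'_mulVec]
  have := hgx ⟨v, Submodule.mem_span_singleton_self v⟩
  obtain ⟨c, h1, h2⟩ := hφ ⟨v, Submodule.mem_span_singleton_self v⟩
  rw [h2] at this
  have hc : c = 1 := smul_left_injective F hv0 (show c • v = (1 : F) • v by rw [one_smul]; exact h1.symm)
  rw [hc, one_smul] at this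
  exact this

end CfsgLib.Geometry.DicksonGen
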