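import Mathlib

/-!
Normal forms for the maps `t - 1`, `t` an involution of an orthogonal group in characteristic two.
-/

set_option autoImplicit false

namespace CfsgLib.Geometry.InvolutionFrame

variable {F : Type*} [Field F] {V : Type*} [AddCommGroup V] [Module F V] (Q : QuadraticForm F V)

set_option quotPrecheck false
local notation "p" => QuadraticMap.polar (⇑Q)

/-- `L = t - 1` for an involutory isometry `t` in characteristic two. -/
structure Inv (L : V →ₗ[F] V) : Prop where
  sq : ∀ x, L (L x) = 0
  sym : ∀ x y, p (L x) y = p x (L y)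
  val : ∀ x, Q (L x) = p x (L x)

/-- The Gram data of a frame. -/
structure Frame {κ : Type} [Fintype κ] (L : V →ₗ[F] V) (σ : κ → κ) (c : F) (w : κ → V) : Prop where
  mem : ∀ i, w i ∈ LinearMap.range L
  norm : ∀ i, Q (w i) = c
  form : ∀ x, L x = ∑ i, p (w i) x • w (σ i)

variable {Q}

theorem vec_add_self [CharP F 2] (v : V) : v + v = 0 := by
  rw [← two_smul F v, CharTwo.two_eq_zero, zero_smul]

theorem Inv.range_perp {L : V →ₗ[F] V} (h : Inv Q L) {a b : V} (ha : a ∈ LinearMap.range L) (hb : b ∈ LinearMap.range L) :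
    p a b = 0 := by
  obtain ⟨x, rfl⟩ := ha; obtain ⟨y, rfl⟩ := hb
  rw [h.sym, h.sq, QuadraticMap.polar_zero_right]

theorem Inv.kill {L : V →ₗ[F] V} (h : Inv Q L) {a : V} (ha : a ∈ LinearMap.range L) : L a = 0 := by
  obtain ⟨x, rfl⟩ := ha; exact h.sq x

theorem polar_self_zero [CharP F 2] (v : V) : p v v = 0 := by
  rw [QuadraticMap.polar_self, two_smul, CharTwo.add_self_eq_zero]

/-- Splitting off a vector of norm one. -/
theorem Inv.sub_one [CharP F 2] {L : V →ₗ[F] V} (h : Inv Q L) {w : V} (hw : w ∈ LinearMap.range L) (hw1 : Q w = 1)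
    (L' : V →ₗ[F] V) (hL' : L' = L + (QuadraticMap.polarBilin Q w).smulRight w) :
    Inv Q L' ∧ LinearMap.range L' ≤ LinearMap.range L ∧
      LinearMap.range L ≤ LinearMap.range L' ⊔ Submodule.span F {w} ∧
      w ∉ LinearMap.range L' ∧ ∀ x, L' x = L x + p w x • w := by
  have e : ∀ x, L' x = L x + p w x • w := fun x => by simp [hL']
  have hwk : ∀ x, p w (L x) = 0 := fun x => h.range_perp hw ⟨x, rfl⟩
  refine ⟨⟨fun x => ?_, fun x y => ?_, fun x => ?_⟩, ?_, ?_, ?_, e⟩
  · rw [e, e, map_add, map_smul, h.sq, h.kill hw, QuadraticMap.polar_add_right, QuadraticMap.polar_smul_right, hwk,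
      polar_self_zero]
    simp
  · rw [e, e, QuadraticMap.polar_add_left, QuadraticMap.polar_add_right, h.sym, QuadraticMap.polar_smul_left,
      QuadraticMap.polar_smul_right, smul_eq_mul, smul_eq_mul, QuadraticMap.polar_comm (⇑Q) x w]
    ring
  · have hsum : ∀ a b : V, Q (a + b) = Q a + Q b + p a b := fun a b => by
      simp only [QuadraticMap.polar]; ring
    rw [e, hsum, QuadraticMap.map_smul, hw1, h.val,
      QuadraticMap.polar_smul_right, QuadraticMap.polar_comm (⇑Q) (L x) w, hwk, QuadraticMap.polar_add_right,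
      QuadraticMap.polar_smul_right, QuadraticMap.polar_comm (⇑Q) x w, smul_eq_mul, smul_eq_mul]
    ring
  · rintro _ ⟨x, rfl⟩
    rw [e]; exact add_mem ⟨x, rfl⟩ (Submodule.smul_mem _ _ hw)
  · rintro _ ⟨x, rfl⟩
    rw [show L x = L' x + (-p w x) • w by rw [e]; module]
    exact Submodule.add_mem_sup ⟨x, rfl⟩ (Submodule.smul_mem _ _ (Submodule.mem_span_singleton_self w))
  · rintro ⟨x, hx⟩
    rw [e] at hx
    obtain ⟨y, hy⟩ := hw
    have h1 : p y (L x + p w x • w) = p y w := by rw [hx]
    rw [QuadraticMap.polar_add_right, QuadraticMap.polar_smul_right, ← h.sym, hy] at h1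
    have h2 : p y w = 1 := by rw [← hw1, ← hy, h.val]
    rw [h2, smul_eq_mul, mul_one, CharTwo.add_self_eq_zero] at h1
    exact zero_ne_one h1

/-- Splitting off a totally singular plane. -/
theorem Inv.sub_two [CharP F 2] {L : V →ₗ[F] V} (h : Inv Q L) (ha : ∀ x, p x (L x) = 0) {y z : V}
    (hyz : p y (L z) = 1) (L' : V →ₗ[F] V)
    (hL' : L' = L + (QuadraticMap.polarBilin Q (L y)).smulRight (L z) + (QuadraticMap.polarBilin Q (L z)).smulRight (L y)) :
    Inv Q L' ∧ (∀ x, p x (L' x) = 0) ∧ LinearMap.range L' ≤ LinearMap.range L ∧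
      (∀ x, L' x = L x + p (L y) x • L z + p (L z) x • L y) ∧
      LinearMap.ker L ⊔ Submodule.span F (Set.range ![y, z]) ≤ LinearMap.ker L' := by
  set u := L y with hu
  set v := L z with hv
  have e : ∀ x, L' x = L x + p u x • v + p v x • u := fun x => by simp [hL']
  have hr : ∀ a b, p (L a) (L b) = 0 := fun a b => h.range_perp ⟨a, rfl⟩ ⟨b, rfl⟩
  have hk : ∀ a, L (L a) = 0 := h.sq
  have hQ0 : ∀ a, Q (L a) = 0 := fun a => by rw [h.val, ha]
  have hal : ∀ x, p x (L' x) = 0 := fun x => by
    rw [e, QuadraticMap.polar_add_right, QuadraticMap.polar_add_right, ha, QuadraticMap.polar_smul_right,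
      QuadraticMap.polar_smul_right, smul_eq_mul, smul_eq_mul, QuadraticMap.polar_comm (⇑Q) x v,
      QuadraticMap.polar_comm (⇑Q) x u, zero_add, mul_comm, CharTwo.add_self_eq_zero]
  refine ⟨⟨fun x => ?_, fun a b => ?_, fun x => ?_⟩, hal, ?_, e, ?_⟩
  · rw [e, e, map_add, map_add, map_smul, map_smul, hu, hv, hk, hk, hk]
    simp only [QuadraticMap.polar_add_right, QuadraticMap.polar_smul_right, hr, smul_eq_mul, mul_zero, add_zero,
      zero_smul, smul_zero]
  · rw [e, e, QuadraticMap.polar_add_left, QuadraticMap.polar_add_left, QuadraticMap.polar_add_right,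
      QuadraticMap.polar_add_right, h.sym, QuadraticMap.polar_smul_left, QuadraticMap.polar_smul_left,
      QuadraticMap.polar_smul_right, QuadraticMap.polar_smul_right, smul_eq_mul, smul_eq_mul, smul_eq_mul, smul_eq_mul,
      QuadraticMap.polar_comm (⇑Q) a u, QuadraticMap.polar_comm (⇑Q) a v]
    ring
  · rw [hal]
    have : L' x = L (x + p u x • z + p v x • y) := by rw [e, map_add, map_add, map_smul, map_smul]
    rw [this, hQ0]
  · rintro _ ⟨x, rfl⟩
    rw [e]
    exact add_mem (add_mem ⟨x, rfl⟩ (Submodule.smul_mem _ _ ⟨z, rfl⟩)) (Submodule.smul_mem _ _ ⟨y, rfl⟩)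
  · refine sup_le (fun x hx => ?_) (Submodule.span_le.2 ?_)
    · rw [LinearMap.mem_ker] at hx
      rw [LinearMap.mem_ker, e, hx, hu, hv, h.sym, h.sym, hx, QuadraticMap.polar_zero_right,
        QuadraticMap.polar_zero_right]
      simp
    · have huy : p u y = 0 := by rw [QuadraticMap.polar_comm]; exact ha y
      have hvz : p v z = 0 := by rw [QuadraticMap.polar_comm]; exact ha z
      have hvy : p v y = 1 := by rw [QuadraticMap.polar_comm]; exact hyz
      have huz : p u z = 1 := by rw [hu, h.sym]; exact hyz
      rintro _ ⟨i, rfl⟩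
      fin_cases i
      · show L' y = 0
        rw [e, huy, hvy, ← hu, zero_smul, one_smul, add_zero, vec_add_self (F := F)]
      · show L' z = 0
        rw [e, huz, hvz, ← hv, zero_smul, one_smul, add_zero, vec_add_self (F := F)]

variable [FiniteDimensional F V]

/-- The non-alternating normal form. -/
theorem Inv.frame_one [Finite F] [CharP F 2] : ∀ (s : ℕ) {L : V →ₗ[F] V}, Inv Q L →
    (∀ a : V, (∀ x, p a x = 0) → a = 0) →
    Module.finrank F (LinearMap.range L) = s → (s = 0 ∨ ∃ x, p x (L x) ≠ 0) →
    ∃ w : Fin s → V, Frame Q L id 1 w := by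
  intro s
  induction s with
  | zero =>
    intro L _ _ hs _
    have hb : LinearMap.range L = ⊥ := Submodule.finrank_eq_zero.1 hs
    refine ⟨Fin.elim0, fun i => i.elim0, fun i => i.elim0, fun x => ?_⟩
    simp [LinearMap.range_eq_bot.1 hb]
  | succ s ih =>
    intro L h hnd hs hc
    obtain ⟨x0, hx0⟩ := hc.resolve_left (Nat.succ_ne_zero s)
    have hsq : ∀ d : F, ∃ b : F, b * b = d := by
      have hinj : Function.Injective (fun x : F => x * x) := fun a b (hab : a * a = b * b) => by
        rcases mul_self_eq_mul_self_iff.1 hab with e | e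
        · exact e
        · rwa [CharTwo.neg_eq] at e
      exact (Finite.injective_iff_surjective.1 hinj)
    obtain ⟨b, hb⟩ := hsq (Q (L x0))⁻¹
    have hQ0 : Q (L x0) ≠ 0 := by rw [h.val]; exact hx0
    set w0 := b • L x0 with hw0
    have hw0m : w0 ∈ LinearMap.range L := Submodule.smul_mem _ _ ⟨x0, rfl⟩
    have hw0Q : Q w0 = 1 := by rw [hw0, QuadraticMap.map_smul, hb, smul_eq_mul, inv_mul_cancel₀ hQ0]
    -- choose so that the rest is again non-alternating
    obtain ⟨w, hwm, hwQ, hnext⟩ : ∃ w ∈ LinearMap.range L, Q w = 1 ∧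
        (s = 0 ∨ ∃ x, p x (L x) + p w x * p w x ≠ 0) := by
      by_cases hs0 : s = 0
      · exact ⟨w0, hw0m, hw0Q, Or.inl hs0⟩
      by_cases hgood : ∃ x, p x (L x) + p w0 x * p w0 x ≠ 0
      · exact ⟨w0, hw0m, hw0Q, Or.inr hgood⟩
      obtain ⟨a, ha, hna⟩ : ∃ a ∈ LinearMap.range L, a ∉ Submodule.span F {w0} := by
        by_contra hc'
        simp only [not_exists, not_and, not_not] at hc'
        have h1 := Submodule.finrank_mono (show LinearMap.range L ≤ Submodule.span F {w0} from hc')
        have h2 : Module.finrank F (Submodule.span F ({w0} : Set V)) ≤ 1 :=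
          (finrank_span_le_card _).trans (by simp)
        omega
      obtain ⟨c, hcc⟩ := hsq (Q a)
      set u := a + c • w0 with hu
      have hum : u ∈ LinearMap.range L := add_mem ha (Submodule.smul_mem _ _ hw0m)
      have hpu : p a w0 = 0 := h.range_perp ha hw0m
      have huQ : Q u = 0 := by
        have : Q u = Q a + Q (c • w0) + p a (c • w0) := by simp only [hu, QuadraticMap.polar]; ring
        rw [this, QuadraticMap.map_smul, hw0Q, QuadraticMap.polar_smul_right, hpu, hcc, smul_eq_mul, smul_eq_mul,
          mul_one, mul_zero, add_zero, CharTwo.add_self_eq_zero]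
      have hu0 : u ≠ 0 := fun e => hna (by
        rw [show a = (-c) • w0 from by
          rw [neg_smul]; exact eq_neg_of_add_eq_zero_left e]
        exact Submodule.smul_mem _ _ (Submodule.mem_span_singleton_self _))
      refine ⟨w0 + u, add_mem hw0m hum, ?_, Or.inr ?_⟩
      · have : Q (w0 + u) = Q w0 + Q u + p w0 u := by simp only [QuadraticMap.polar]; ring
        rw [this, hw0Q, huQ, h.range_perp hw0m hum, add_zero, add_zero]
      · by_contra hc'
        simp only [not_exists, not_not] at hc' hgood
        refine hu0 (hnd u fun x => ?_)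
        have h1 := hgood x
        have h2 := hc' x
        rw [QuadraticMap.polar_add_left] at h2
        have : p u x * p u x = 0 := by
          linear_combination h2 - h1 - CharTwo.add_self_eq_zero (p w0 x * p u x)
        exact mul_self_eq_zero.1 this
    obtain ⟨hI, hle, hge, hnot, e⟩ := h.sub_one hwm hwQ _ rfl
    set L' := L + (QuadraticMap.polarBilin Q w).smulRight w
    have hs' : Module.finrank F (LinearMap.range L') = s := by
      have h1 : LinearMap.range L = LinearMap.range L' ⊔ Submodule.span F {w} :=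
        le_antisymm hge (sup_le hle ((Submodule.span_singleton_le_iff_mem _ _).2 hwm))
      have h2 := Submodule.finrank_sup_span_singleton hnot
      rw [← h1, hs] at h2
      omega
    have hc2 : s = 0 ∨ ∃ x, p x (L' x) ≠ 0 := hnext.imp id fun ⟨x, hx⟩ => ⟨x, by
      rw [e, QuadraticMap.polar_add_right, QuadraticMap.polar_smul_right, QuadraticMap.polar_comm (⇑Q) x w, smul_eq_mul]
      exact hx⟩
    obtain ⟨w', hw'⟩ := ih hI hnd hs' hc2
    refine ⟨Fin.cons w w', fun i => ?_, fun i => ?_, fun x => ?_⟩
    · induction i using Fin.cases with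
      | zero => simpa using hwm
      | succ j => simpa using hle (hw'.mem j)
    · induction i using Fin.cases with
      | zero => simpa using hwQ
      | succ j => simpa using hw'.norm j
    · have h1 := hw'.form x
      rw [e] at h1
      rw [Fin.sum_univ_succ]
      simp only [id, Fin.cons_zero, Fin.cons_succ] at h1 ⊢
      rw [← h1, add_comm (L x), ← add_assoc, vec_add_self (F := F), zero_add]

/-- The alternating normal form. -/
theorem Inv.frame_two [CharP F 2] : ∀ (s : ℕ) {L : V →ₗ[F] V}, Inv Q L → (∀ x, p x (L x) = 0) →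
    (∀ a : V, (∀ x, p a x = 0) → a = 0) → Module.finrank F (LinearMap.range L) = s →
    ∃ k, 2 * k = s ∧ ∃ w : Fin k ⊕ Fin k → V, Frame Q L Sum.swap 0 w := by
  intro s
  induction s using Nat.strong_induction_on with
  | _ s ih =>
    intro L h ha hnd hs
    by_cases hs0 : s = 0
    · refine ⟨0, by omega, fun i => i.elim Fin.elim0 Fin.elim0, fun i => ?_, fun i => ?_, fun x => ?_⟩
      · rcases i with i | i <;> exact i.elim0
      · rcases i with i | i <;> exact i.elim0
      · have hb : LinearMap.range L = ⊥ := Submodule.finrank_eq_zero.1 (hs.trans hs0)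
        simp [LinearMap.range_eq_bot.1 hb]
    obtain ⟨y, hy⟩ : ∃ y, L y ≠ 0 := by
      by_contra hc
      simp only [not_exists, not_not] at hc
      rw [show L = 0 from LinearMap.ext hc, LinearMap.range_zero, finrank_bot] at hs
      exact hs0 hs.symm
    obtain ⟨z0, hz0⟩ : ∃ z, p y (L z) ≠ 0 := by
      by_contra hc
      simp only [not_exists, not_not] at hc
      exact hy (hnd _ fun z => by rw [h.sym]; exact hc z)
    set z := (p y (L z0))⁻¹ • z0 with hz
    have hyz : p y (L z) = 1 := by
      rw [hz, map_smul, QuadraticMap.polar_smul_right, smul_eq_mul, inv_mul_cancel₀ hz0]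
    obtain ⟨hI, hal, hle, e, hker⟩ := h.sub_two ha hyz _ rfl
    set L' := L + (QuadraticMap.polarBilin Q (L y)).smulRight (L z) + (QuadraticMap.polarBilin Q (L z)).smulRight (L y)
    have hge : LinearMap.range L ≤ LinearMap.range L' ⊔ Submodule.span F (Set.range ![L y, L z]) := by
      rintro _ ⟨x, rfl⟩
      rw [show L x = L' x + ((-p (L z) x) • L y + (-p (L y) x) • L z) by rw [e]; module]
      exact Submodule.add_mem_sup ⟨x, rfl⟩ (add_mem (Submodule.smul_mem _ _ (Submodule.subset_span ⟨0, rfl⟩))
        (Submodule.smul_mem _ _ (Submodule.subset_span ⟨1, rfl⟩)))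
    have hs' : Module.finrank F (LinearMap.range L') + 2 = s := by
      have h1 := (Submodule.finrank_mono hge).trans (Submodule.finrank_add_le_finrank_add_finrank _ _)
      have h2 : Module.finrank F (Submodule.span F (Set.range ![L y, L z])) ≤ 2 :=
        (finrank_range_le_card ![L y, L z]).trans (le_of_eq (Fintype.card_fin 2))
      have h3 := Submodule.finrank_mono hker
      have h4 := L.finrank_range_add_finrank_ker
      have h5 := L'.finrank_range_add_finrank_ker
      have h6 : Disjoint (LinearMap.ker L) (Submodule.span F (Set.range ![y, z])) := by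
        rw [Submodule.disjoint_def]
        intro a ha' hsp
        rw [Matrix.range_cons, Matrix.range_cons, Matrix.range_empty, Set.union_empty, Set.singleton_union,
          Submodule.mem_span_pair] at hsp
        obtain ⟨r1, r2, rfl⟩ := hsp
        rw [LinearMap.mem_ker, map_add, map_smul, map_smul] at ha'
        have hzy : p z (L y) = 1 := by rw [← h.sym, QuadraticMap.polar_comm]; exact hyz
        have e1 : p y (r1 • L y + r2 • L z) = 0 := by rw [ha', QuadraticMap.polar_zero_right]
        have e2 : p z (r1 • L y + r2 • L z) = 0 := by rw [ha', QuadraticMap.polar_zero_right]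
        simp only [QuadraticMap.polar_add_right, QuadraticMap.polar_smul_right, ha, hyz, hzy, smul_eq_mul, mul_zero,
          mul_one, zero_add, add_zero] at e1 e2
        rw [e1, e2, zero_smul, zero_smul, add_zero]
      have h7 : Module.finrank F (Submodule.span F (Set.range ![y, z])) = 2 := by
        have hli : LinearIndependent F ![y, z] := by
          rw [LinearIndependent.pair_iff]
          intro r1 r2 hr
          have hzy : p z (L y) = 1 := by rw [← h.sym, QuadraticMap.polar_comm]; exact hyz
          have ha' := congrArg L hr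
          rw [map_add, map_smul, map_smul, map_zero] at ha'
          have e1 : p y (r1 • L y + r2 • L z) = 0 := by rw [ha', QuadraticMap.polar_zero_right]
          have e2 : p z (r1 • L y + r2 • L z) = 0 := by rw [ha', QuadraticMap.polar_zero_right]
          simp only [QuadraticMap.polar_add_right, QuadraticMap.polar_smul_right, ha, hyz, hzy, smul_eq_mul, mul_zero,
            mul_one, zero_add, add_zero] at e1 e2
          exact ⟨e2, e1⟩
        rw [finrank_span_eq_card hli, Fintype.card_fin]
      have h8 := Submodule.finrank_sup_add_finrank_inf_eq (LinearMap.ker L) (Submodule.span F (Set.range ![y, z]))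
      rw [h6.eq_bot, finrank_bot] at h8
      omega
    obtain ⟨k, hk, w', hw'⟩ := ih _ (by omega) hI hal hnd rfl
    refine ⟨k + 1, by omega, Sum.elim (Fin.cons (L y) (w' ∘ Sum.inl)) (Fin.cons (L z) (w' ∘ Sum.inr)),
      fun i => ?_, fun i => ?_, fun x => ?_⟩
    · rcases i with i | i <;> induction i using Fin.cases with
      | zero => simp
      | succ j => simpa using hle (hw'.mem _)
    · rcases i with i | i <;> induction i using Fin.cases with
      | zero => simp [h.val, ha]
      | succ j => simpa using hw'.norm _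
    · have h1 := hw'.form x
      rw [e, Fintype.sum_sum_type] at h1
      rw [Fintype.sum_sum_type, Fin.sum_univ_succ, Fin.sum_univ_succ]
      simp only [Sum.elim_inl, Sum.elim_inr, Sum.swap_inl, Sum.swap_inr, Fin.cons_zero, Fin.cons_succ,
        Function.comp_apply] at h1 ⊢
      rw [show p (L y) x • L z + ∑ i, p (w' (Sum.inl i)) x • w' (Sum.inr i)
          + (p (L z) x • L y + ∑ i, p (w' (Sum.inr i)) x • w' (Sum.inl i))
        = p (L y) x • L z + p (L z) x • L y + (∑ i, p (w' (Sum.inl i)) x • w' (Sum.inr i)
          + ∑ i, p (w' (Sum.inr i)) x • w' (Sum.inl i)) by abel, ← h1]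
      rw [show p (L y) x • L z + p (L z) x • L y + (L x + p (L y) x • L z + p (L z) x • L y)
        = L x + ((p (L y) x • L z + p (L y) x • L z) + (p (L z) x • L y + p (L z) x • L y)) by abel,
        vec_add_self (F := F), vec_add_self (F := F), add_zero, add_zero]

end CfsgLib.Geometry.InvolutionFrame
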