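import Mathlib
import Cfsg.Agent.Lib.Geometry.QuadBasic

/-!
If a product of reflections is the identity, the product of the norms is a square.
-/

set_option autoImplicit false
open scoped Matrix

namespace CfsgLib.Geometry.SpinorKey

variable {F : Type*} [Field F]

section Exterior

variable {M : Type*} [AddCommGroup M] [Module F M]

/-- Deleting one coordinate. -/
theorem map_kill_eq (b : M) (d : Module.Dual F M) (x : ExteriorAlgebra F M) :
    ExteriorAlgebra.map (LinearMap.id - d.smulRight b) x
      = CliffordAlgebra.contractLeft (Q := (0 : QuadraticForm F M)) d (ExteriorAlgebra.ι F b * x)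
        + (1 - d b) • x := by
  induction x using CliffordAlgebra.left_induction with
  | algebraMap r =>
    rw [AlgHom.commutes]
    change _ = CliffordAlgebra.contractLeft (Q := (0 : QuadraticForm F M)) d
      (CliffordAlgebra.ι (0 : QuadraticForm F M) b * algebraMap F _ r) + _
    rw [CliffordAlgebra.contractLeft_ι_mul, CliffordAlgebra.contractLeft_algebraMap, mul_zero,
      sub_zero, ← add_smul, add_sub_cancel, one_smul]
  | add x y hx hy =>
    rw [map_add, hx, hy, mul_add, map_add, smul_add]
    abel
  | ι_mul x a hx =>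
    rw [map_mul, hx]
    change ExteriorAlgebra.map _ (ExteriorAlgebra.ι F a) * _ = _
    rw [ExteriorAlgebra.map_apply_ι]
    simp only [LinearMap.sub_apply, LinearMap.id_apply, LinearMap.smulRight_apply, map_sub, map_smul]
    have hcl : ∀ (v : M) (z : ExteriorAlgebra F M),
        CliffordAlgebra.contractLeft (Q := (0 : QuadraticForm F M)) d (ExteriorAlgebra.ι F v * z)
          = d v • z - ExteriorAlgebra.ι F v *
            CliffordAlgebra.contractLeft (Q := (0 : QuadraticForm F M)) d z :=
      fun v z => CliffordAlgebra.contractLeft_ι_mul (d := d) v z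
    change _ = CliffordAlgebra.contractLeft (Q := (0 : QuadraticForm F M)) d
      (ExteriorAlgebra.ι F b * (ExteriorAlgebra.ι F a * x)) + (1 - d b) • (ExteriorAlgebra.ι F a * x)
    set C := CliffordAlgebra.contractLeft (Q := (0 : QuadraticForm F M)) d x with hC
    have hanti : ExteriorAlgebra.ι F a * ExteriorAlgebra.ι F b
        = -(ExteriorAlgebra.ι F b * ExteriorAlgebra.ι F a) :=
      eq_neg_of_add_eq_zero_left (ExteriorAlgebra.ι_add_mul_swap a b)
    have hab : ∀ z, ExteriorAlgebra.ι F a * (ExteriorAlgebra.ι F b * z)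
        = -(ExteriorAlgebra.ι F b * (ExteriorAlgebra.ι F a * z)) := fun z => by
      rw [← mul_assoc, hanti, neg_mul, mul_assoc]
    have hbb : ∀ z : ExteriorAlgebra F M, ExteriorAlgebra.ι F b * (ExteriorAlgebra.ι F b * z) = 0 := fun z => by
      rw [← mul_assoc, ExteriorAlgebra.ι_sq_zero, zero_mul]
    simp only [hcl, ← hC, sub_mul, mul_sub, mul_add, smul_mul_assoc, mul_smul_comm, smul_sub, smul_add,
      smul_neg, hab, hbb, smul_zero]
    module

/-- An element killed by all contractions is a scalar. -/
theorem scalar_of_contract_zero [FiniteDimensional F M] (x : ExteriorAlgebra F M)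
    (h : ∀ d : Module.Dual F M, CliffordAlgebra.contractLeft (Q := (0 : QuadraticForm F M)) d x = 0) :
    ∃ c : F, x = algebraMap F _ c := by
  classical
  let b := Module.finBasis F M
  have key : ∀ s : Finset (Fin (Module.finrank F M)), ∃ f : M →ₗ[F] M,
      (∀ i, f (b i) = if i ∈ s then 0 else b i) ∧ ExteriorAlgebra.map f x = x := by
    intro s
    induction s using Finset.induction_on with
    | empty => exact ⟨LinearMap.id, fun i => by simp, by rw [ExteriorAlgebra.map_id]; rfl⟩
    | insert j s hj ih =>
      obtain ⟨f, hf, hfx⟩ := ih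
      refine ⟨(LinearMap.id - (b.coord j).smulRight (b j)) ∘ₗ f, fun i => ?_, ?_⟩
      · rw [LinearMap.comp_apply, hf]
        by_cases his : i ∈ s
        · simp [his]
        · by_cases hij : i = j
          · subst hij
            simp [hj]
          · simp [his, hij, eq_comm]
      · rw [← ExteriorAlgebra.map_comp_map, AlgHom.comp_apply, hfx, map_kill_eq]
        change CliffordAlgebra.contractLeft (Q := (0 : QuadraticForm F M)) (b.coord j)
          (CliffordAlgebra.ι (0 : QuadraticForm F M) (b j) * x) + _ = _
        rw [CliffordAlgebra.contractLeft_ι_mul, h, mul_zero, sub_zero]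
        simp
  obtain ⟨f, hf, hfx⟩ := key Finset.univ
  have hf0 : f = 0 := b.ext fun i => by simp [hf]
  refine ⟨ExteriorAlgebra.algebraMapInv x, ?_⟩
  have hm : (ExteriorAlgebra.map (0 : M →ₗ[F] M))
      = (Algebra.ofId F (ExteriorAlgebra F M)).comp ExteriorAlgebra.algebraMapInv := by
    refine ExteriorAlgebra.hom_ext (LinearMap.ext fun m => ?_)
    simp [ExteriorAlgebra.map_apply_ι, ExteriorAlgebra.algebraMapInv]
  rw [hf0, hm] at hfx
  exact hfx.symm

end Exterior

section Clifford

variable {V : Type*} [AddCommGroup V] [Module F V] (Q : QuadraticForm F V)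

/-- Reflection, as a function. -/
def refl (a w : V) : V := w - ((Q a)⁻¹ * QuadraticMap.polar (⇑Q) a w) • a

theorem ι_refl {a : V} (ha : Q a ≠ 0) (w : V) :
    CliffordAlgebra.ι Q a * CliffordAlgebra.ι Q w
      = -(CliffordAlgebra.ι Q (refl Q a w) * CliffordAlgebra.ι Q a) := by
  have h := CliffordAlgebra.ι_mul_ι_add_swap (Q := Q) a w
  have e : ((Q a)⁻¹ * QuadraticMap.polar (⇑Q) a w) • algebraMap F (CliffordAlgebra Q) (Q a)
      = algebraMap F (CliffordAlgebra Q) (QuadraticMap.polar (⇑Q) a w) := by
    rw [Algebra.algebraMap_eq_smul_one, Algebra.algebraMap_eq_smul_one, smul_smul]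
    congr 1
    field_simp
  rw [refl, map_sub, map_smul, sub_mul, smul_mul_assoc, CliffordAlgebra.ι_sq_scalar, e, ← h]
  abel

/-- Product of reflections. -/
def reflProd : List V → V → V
  | [], w => w
  | a :: l, w => refl Q a (reflProd l w)

/-- Product in the Clifford algebra. -/
noncomputable def cliffProd : List V → CliffordAlgebra Q
  | [] => 1
  | a :: l => CliffordAlgebra.ι Q a * cliffProd l

theorem cliffProd_ι : ∀ (l : List V), (∀ a ∈ l, Q a ≠ 0) → ∀ w,
    CliffordAlgebra.involute (cliffProd Q l) * CliffordAlgebra.ι Q w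
      = CliffordAlgebra.ι Q (reflProd Q l w) * cliffProd Q l
  | [], _, w => by simp [cliffProd, reflProd]
  | a :: l, h, w => by
    have ih := cliffProd_ι l (fun x hx => h x (List.mem_cons_of_mem _ hx)) w
    rw [cliffProd, map_mul, CliffordAlgebra.involute_ι, mul_assoc, ih, ← mul_assoc, neg_mul,
      ι_refl Q (h a (List.mem_cons_self ..)), neg_neg, mul_assoc, reflProd]

theorem reverse_cliffProd : ∀ l : List V,
    CliffordAlgebra.reverse (cliffProd Q l) * cliffProd Q l
      = algebraMap F (CliffordAlgebra Q) (l.map Q).prod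
  | [] => by simp [cliffProd]
  | a :: l => by
    rw [cliffProd, CliffordAlgebra.reverse.map_mul, CliffordAlgebra.reverse_ι, mul_assoc,
      ← mul_assoc (CliffordAlgebra.ι Q a), CliffordAlgebra.ι_sq_scalar, Algebra.left_comm,
      reverse_cliffProd l, ← map_mul, List.map_cons, List.prod_cons]

/-- Twisted commutator with a vector is a contraction. -/
theorem twist_eq (v : V) (x : CliffordAlgebra Q) :
    CliffordAlgebra.ι Q v * x - CliffordAlgebra.involute x * CliffordAlgebra.ι Q v
      = CliffordAlgebra.contractLeft (Q := Q) (QuadraticMap.polarBilin Q v) x := by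
  induction x using CliffordAlgebra.left_induction with
  | algebraMap r => rw [AlgHom.commutes, CliffordAlgebra.contractLeft_algebraMap, Algebra.commutes, sub_self]
  | add x y hx hy => rw [map_add, map_add, ← hx, ← hy, mul_add, add_mul]; abel
  | ι_mul x a hx =>
    rw [CliffordAlgebra.contractLeft_ι_mul, ← hx, map_mul, CliffordAlgebra.involute_ι,
      QuadraticMap.polarBilin_apply_apply]
    have h := CliffordAlgebra.ι_mul_ι_add_swap (Q := Q) v a
    rw [Algebra.smul_def, ← h, add_mul, mul_sub, neg_mul, neg_mul, mul_assoc, mul_assoc, mul_assoc]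
    abel

theorem isSquare_of_reflProd [FiniteDimensional F V] (h2 : (2 : F) ≠ 0)
    (hQ : (QuadraticMap.polarBilin Q).Nondegenerate) (l : List V) (hl : ∀ a ∈ l, Q a ≠ 0)
    (hid : ∀ w, reflProd Q l w = w) : IsSquare (l.map Q).prod := by
  haveI : Invertible (2 : F) := invertibleOfNonzero h2
  set X := cliffProd Q l with hX
  have hzero : ∀ d : Module.Dual F V, CliffordAlgebra.contractLeft (Q := Q) d X = 0 := by
    intro d
    have hsurj : Function.Surjective (QuadraticMap.polarBilin Q) :=
      (LinearMap.injective_iff_surjective_of_finrank_eq_finrank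
        (Subspace.dual_finrank_eq (K := F) (V := V)).symm).1 (LinearMap.ker_eq_bot.1
          (LinearMap.separatingLeft_iff_ker_eq_bot.1 hQ.1))
    obtain ⟨v, rfl⟩ := hsurj d
    rw [← twist_eq, hX, cliffProd_ι Q l hl, hid, sub_self]
  obtain ⟨c, hc⟩ := scalar_of_contract_zero (CliffordAlgebra.equivExterior Q X) (fun d => by
    change CliffordAlgebra.contractLeft (Q := (0 : QuadraticForm F V)) d
      (CliffordAlgebra.changeForm CliffordAlgebra.changeForm.associated_neg_proof X) = 0
    rw [← CliffordAlgebra.changeForm_contractLeft, hzero, map_zero])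
  have hXc : X = algebraMap F _ c := by
    apply (CliffordAlgebra.equivExterior Q).injective
    rw [hc]
    exact (CliffordAlgebra.changeForm_algebraMap CliffordAlgebra.changeForm.associated_neg_proof c).symm
  refine ⟨c, ?_⟩
  have h := reverse_cliffProd Q l
  rw [← hX, hXc, CliffordAlgebra.reverse.commutes, ← map_mul] at h
  exact ((algebraMap F (CliffordAlgebra Q)).injective h).symm

end Clifford

end CfsgLib.Geometry.SpinorKey
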