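import Mathlib
import Cfsg.Prelude.Def_ClassicalGeometry
import Cfsg.Agent.Lib.Geometry.Reflections
import Cfsg.Agent.Lib.Geometry.SpinorKey
import Cfsg.Agent.Lib.Forms.Represent

/-!
The spinor norm over finite fields of odd order and the derived group of the orthogonal group.
-/

set_option autoImplicit false
open scoped Matrix commutatorElement

namespace CfsgLib.Geometry.Spinor

open CfsgLib.Geometry.QuadBasic CfsgLib.Geometry.Reflections CfsgLib.Geometry.SpinorKey

variable {F : Type*} [Field F] {ι : Type} [Fintype ι] [DecidableEq ι] (Q : QuadraticForm F (ι → F))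

theorem refl_refl {a : ι → F} (ha : Q a ≠ 0) (w : ι → F) : SpinorKey.refl Q a (SpinorKey.refl Q a w) = w := by
  simp only [SpinorKey.refl, QuadraticMap.polar_sub_right, QuadraticMap.polar_smul_right, smul_eq_mul,
    QuadraticMap.polar_self, two_nsmul]
  rw [show (Q a)⁻¹ * (QuadraticMap.polar (⇑Q) a w
      - (Q a)⁻¹ * QuadraticMap.polar (⇑Q) a w * (Q a + Q a))
        = -((Q a)⁻¹ * QuadraticMap.polar (⇑Q) a w) by field_simp; ring, neg_smul]
  abel

theorem reflProd_append : ∀ (l m : List (ι → F)) (w : ι → F),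
    reflProd Q (l ++ m) w = reflProd Q l (reflProd Q m w)
  | [], _, _ => rfl
  | a :: l, m, w => by rw [List.cons_append, reflProd, reflProd, reflProd_append l m w]

theorem reflProd_reverse : ∀ (l : List (ι → F)), (∀ a ∈ l, Q a ≠ 0) → ∀ w,
    reflProd Q l.reverse (reflProd Q l w) = w
  | [], _, _ => rfl
  | a :: l, h, w => by
    rw [List.reverse_cons, reflProd_append, reflProd, reflProd, reflProd,
      refl_refl Q (h a (List.mem_cons_self ..)),
      reflProd_reverse l (fun x hx => h x (List.mem_cons_of_mem _ hx))]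

theorem refl_eq_R (a : ι → F) (ha : Q a ≠ 0) (w : ι → F) :
    (R Q a ha).1.1 *ᵥ w = SpinorKey.refl Q a w := Reflections.R_apply a ha w

/-- `g` is the product of the reflections in the list. -/
def IsProd (g : Cfsg.isometryGroup F ⇑Q) (l : List (ι → F)) : Prop :=
  (∀ a ∈ l, Q a ≠ 0) ∧ ∀ w, g.1.1 *ᵥ w = reflProd Q l w

theorem exists_isProd (h2 : (2 : F) ≠ 0) (hQ : (QuadraticMap.polarBilin Q).Nondegenerate)
    (g : Cfsg.isometryGroup F ⇑Q) : ∃ l, IsProd Q g l := by
  have hg : g ∈ Subgroup.closure (reflections Q) := by rw [closure_reflections h2 hQ]; trivial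
  have hstep : ∀ r ∈ reflections Q, ∀ z, (∃ l, IsProd Q z l) → ∃ l, IsProd Q (r * z) l := by
    rintro r ⟨a, ha, hr⟩ z ⟨l, hl, hz⟩
    refine ⟨a :: l, by simpa [ha] using hl, fun w => ?_⟩
    rw [Subgroup.coe_mul, Units.val_mul, ← Matrix.mulVec_mulVec, hz, hr, reflection_mulVec]
    rfl
  induction hg using Subgroup.closure_induction_left with
  | one => exact ⟨[], by simp, fun w => by simp [reflProd]⟩
  | mul_left r hr z _ ih => exact hstep r hr z ih
  | inv_mul_cancel r hr z _ ih =>
    obtain ⟨a, ha, hr'⟩ := hr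
    have hrr : r⁻¹ = r := by
      refine inv_eq_of_mul_eq_one_right (Subtype.ext (Units.ext ?_))
      refine Matrix.toLin'.injective (LinearMap.ext fun x => ?_)
      simp only [Subgroup.coe_mul, Units.val_mul, hr', Matrix.toLin'_apply, ← Matrix.mulVec_mulVec,
        reflection_mulVec, OneMemClass.coe_one, Units.val_one, Matrix.one_mulVec]
      exact refl_refl Q ha x
    rw [hrr]
    exact hstep r ⟨a, ha, hr'⟩ z ih

variable [Fintype F] [DecidableEq F]

theorem prod_ne_zero {l : List (ι → F)} (hl : ∀ a ∈ l, Q a ≠ 0) : (l.map Q).prod ≠ 0 :=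
  List.prod_ne_zero (by simpa using hl)

theorem char_unique (h2 : (2 : F) ≠ 0) (hQ : (QuadraticMap.polarBilin Q).Nondegenerate)
    {g : Cfsg.isometryGroup F ⇑Q} {l m : List (ι → F)} (hl : IsProd Q g l) (hm : IsProd Q g m) :
    quadraticChar F (l.map Q).prod = quadraticChar F (m.map Q).prod := by
  have hsq : IsSquare ((l.reverse ++ m).map Q).prod := by
    refine isSquare_of_reflProd Q h2 hQ _ (fun a ha => ?_) fun w => ?_
    · rcases List.mem_append.1 ha with h | h
      · exact hl.1 a (List.mem_reverse.1 h)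
      · exact hm.1 a h
    · rw [reflProd_append, ← hm.2, hl.2, reflProd_reverse Q l hl.1]
  rw [List.map_append, List.prod_append, List.map_reverse, List.prod_reverse] at hsq
  have h1 := (quadraticChar_one_iff_isSquare
    (mul_ne_zero (prod_ne_zero Q hl.1) (prod_ne_zero Q hm.1))).2 hsq
  rw [map_mul] at h1
  rcases quadraticChar_dichotomy (prod_ne_zero Q hl.1) with e | e <;> rw [e] at h1 ⊢ <;> linarith

/-- The spinor norm, as a hom to `ℤ`. -/
noncomputable def thetaZ (h2 : (2 : F) ≠ 0) (hQ : (QuadraticMap.polarBilin Q).Nondegenerate) :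
    Cfsg.isometryGroup F ⇑Q →* ℤ where
  toFun g := quadraticChar F ((exists_isProd Q h2 hQ g).choose.map Q).prod
  map_one' := by
    rw [char_unique Q h2 hQ (exists_isProd Q h2 hQ 1).choose_spec
      (m := []) ⟨by simp, fun w => by simp [reflProd]⟩]
    simp
  map_mul' g h := by
    obtain ⟨hg1, hg2⟩ := (exists_isProd Q h2 hQ g).choose_spec
    obtain ⟨hh1, hh2⟩ := (exists_isProd Q h2 hQ h).choose_spec
    rw [char_unique Q h2 hQ (exists_isProd Q h2 hQ (g * h)).choose_spec
      (m := (exists_isProd Q h2 hQ g).choose ++ (exists_isProd Q h2 hQ h).choose)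
      ⟨fun a ha => (List.mem_append.1 ha).elim (hg1 a) (hh1 a), fun w => by
        rw [Subgroup.coe_mul, Units.val_mul, ← Matrix.mulVec_mulVec, reflProd_append, ← hh2, ← hg2]⟩]
    rw [List.map_append, List.prod_append, map_mul]

/-- The spinor norm. -/
noncomputable def theta (h2 : (2 : F) ≠ 0) (hQ : (QuadraticMap.polarBilin Q).Nondegenerate) :
    Cfsg.isometryGroup F ⇑Q →* ℤˣ :=
  (thetaZ Q h2 hQ).toHomUnits

variable {Q}
variable (h2 : (2 : F) ≠ 0) (hQ : (QuadraticMap.polarBilin Q).Nondegenerate)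

theorem theta_of_isProd {g : Cfsg.isometryGroup F ⇑Q} {l : List (ι → F)} (hl : IsProd Q g l) :
    (theta Q h2 hQ g : ℤ) = quadraticChar F (l.map Q).prod :=
  char_unique Q h2 hQ (exists_isProd Q h2 hQ g).choose_spec hl

theorem isProd_R {v : ι → F} (hv : Q v ≠ 0) : IsProd Q (R Q v hv) [v] :=
  ⟨by simpa using hv, fun w => refl_eq_R Q v hv w⟩

theorem theta_R {v : ι → F} (hv : Q v ≠ 0) :
    (theta Q h2 hQ (R Q v hv) : ℤ) = quadraticChar F (Q v) := by
  rw [theta_of_isProd h2 hQ (isProd_R hv)]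
  simp

omit [Fintype F] [DecidableEq F] in
theorem det_R {v : ι → F} (hv : Q v ≠ 0) : (R Q v hv).1.1.det = -1 := reflection_det Q v hv

omit [Fintype F] [DecidableEq F] in
theorem R_conj (g : Cfsg.isometryGroup F ⇑Q) {v w : ι → F} (hv : Q v ≠ 0) (hw : Q w ≠ 0)
    (h : g.1.1 *ᵥ v = w) : g * R Q v hv * g⁻¹ = R Q w hw := by
  refine Subtype.ext (Units.ext (Matrix.toLin'.injective (LinearMap.ext fun x => ?_)))
  simp only [Subgroup.coe_mul, Units.val_mul, Matrix.toLin'_apply, ← Matrix.mulVec_mulVec, Reflections.R_apply,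
    Matrix.mulVec_sub, Matrix.mulVec_smul]
  have hg : g.1.1 *ᵥ ((g⁻¹).1.1 *ᵥ x) = x := by
    rw [Matrix.mulVec_mulVec, ← Units.val_mul, ← Subgroup.coe_mul, mul_inv_cancel, OneMemClass.coe_one,
      Units.val_one, Matrix.one_mulVec]
  have hQv : Q w = Q v := by rw [← h]; exact (mem_isometryGroup_iff (⇑Q) g.1).1 g.2 v
  have hp := iso_polar g v ((g⁻¹).1.1 *ᵥ x)
  rw [h, hg] at hp
  rw [hg, h, hQv, hp]

include h2 in
omit [Fintype F] [DecidableEq F] in
/-- Reflections in vectors of the same norm agree modulo the derived group. -/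
theorem R_congr_norm {v w : ι → F} (hv : Q v ≠ 0) (hw : Q w ≠ 0) (h : Q w = Q v) :
    QuotientGroup.mk' (Cfsg.Omega F ⇑Q) (R Q w hw) = QuotientGroup.mk' (Cfsg.Omega F ⇑Q) (R Q v hv) := by
  obtain ⟨r, -, hr, -⟩ := step h2 hv h
  rw [← R_conj r hw hv hr]
  refine (QuotientGroup.eq.2 ?_)
  have : (R Q w hw)⁻¹ * (r * R Q w hw * r⁻¹) = ⁅(R Q w hw)⁻¹, r⁆ := by
    rw [commutatorElement_def, inv_inv]; group
  rw [this]
  exact Subgroup.commutator_mem_commutator (Subgroup.mem_top _) (Subgroup.mem_top _)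

omit [Fintype F] [DecidableEq F] in
theorem R_smul {v : ι → F} (c : F) (hv : Q v ≠ 0) (hcv : Q (c • v) ≠ 0) : R Q (c • v) hcv = R Q v hv := by
  have hc : c ≠ 0 := by rintro rfl; simp at hcv
  refine Subtype.ext (Units.ext (Matrix.toLin'.injective (LinearMap.ext fun x => ?_)))
  simp only [Matrix.toLin'_apply, Reflections.R_apply, QuadraticMap.map_smul, QuadraticMap.polar_smul_left,
    smul_eq_mul, smul_smul]
  congr 2
  field_simp

include h2 in
theorem R_congr_class {v w : ι → F} (hv : Q v ≠ 0) (hw : Q w ≠ 0)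
    (h : quadraticChar F (Q w) = quadraticChar F (Q v)) :
    QuotientGroup.mk' (Cfsg.Omega F ⇑Q) (R Q w hw) = QuotientGroup.mk' (Cfsg.Omega F ⇑Q) (R Q v hv) := by
  obtain ⟨c, hc⟩ : IsSquare (Q w * Q v) := by
    refine (quadraticChar_one_iff_isSquare (mul_ne_zero hw hv)).1 ?_
    rw [map_mul, h, ← pow_two, quadraticChar_sq_one hv]
  have hcv : Q ((c / Q v) • v) = Q w := by
    rw [QuadraticMap.map_smul, smul_eq_mul]
    field_simp
    linear_combination -hc
  rw [R_congr_norm h2 (by rw [hcv]; exact hw) hw hcv.symm, R_smul _ hv]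

omit [DecidableEq F] in
include h2 hQ in
theorem exists_norm [Nontrivial ι] (c : F) : ∃ v : ι → F, Q v = c := by
  classical
  haveI : Invertible (2 : F) := invertibleOfNonzero h2
  have hsymm : LinearMap.IsSymm (QuadraticMap.polarBilin Q) :=
    ⟨fun x y => by simp [QuadraticMap.polar_comm]⟩
  obtain ⟨b, hb⟩ := LinearMap.BilinForm.exists_orthogonal_basis (B := QuadraticMap.polarBilin Q) hsymm
  have hne : ∀ i, Q (b i) ≠ 0 := fun i h => by
    refine hb.not_isOrtho_basis_self_of_separatingLeft hQ.1 i ?_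
    change QuadraticMap.polar (⇑Q) (b i) (b i) = 0
    rw [QuadraticMap.polar_self, h, smul_zero]
  have hrk : 2 ≤ Module.finrank F (ι → F) := by
    rw [Module.finrank_fintype_fun_eq_card]
    exact Fintype.one_lt_card
  obtain ⟨x, y, hxy⟩ := CfsgLib.Forms.Represent.exists_add_eq h2 (hne ⟨0, by omega⟩) (hne ⟨1, by omega⟩) c
  refine ⟨x • b ⟨0, by omega⟩ + y • b ⟨1, by omega⟩, ?_⟩
  rw [map_add_smul, QuadraticMap.map_smul, QuadraticMap.polar_smul_right, QuadraticMap.polar_comm,
    show QuadraticMap.polar (⇑Q) (b ⟨0, by omega⟩) (b ⟨1, by omega⟩) = 0 from hb (by simp [Fin.ext_iff]),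
    smul_zero, mul_zero, add_zero, smul_eq_mul]
  linear_combination hxy

/-- The determinant, as a sign. -/
noncomputable def detSign (h2 : (2 : F) ≠ 0) (hQ : (QuadraticMap.polarBilin Q).Nondegenerate) :
    Cfsg.isometryGroup F ⇑Q →* ℤˣ :=
  MonoidHom.mk' (fun g => if g.1.1.det = 1 then 1 else -1) fun g h => by
    have hd : ∀ x : Cfsg.isometryGroup F ⇑Q, x.1.1.det = 1 ∨ x.1.1.det = -1 := fun x =>
      mul_self_eq_one_iff.1 (det_sq_of_isometry Q hQ _ ((mem_isometryGroup_iff (⇑Q) x.1).1 x.2))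
    have hne : (-1 : F) ≠ 1 := fun e => h2 (by linear_combination -e)
    simp only [Subgroup.coe_mul, Units.val_mul, Matrix.det_mul]
    rcases hd g with a | a <;> rcases hd h with b | b <;> simp [a, b, hne]

omit [Fintype F] in
theorem detSign_R {v : ι → F} (hv : Q v ≠ 0) : detSign h2 hQ (R Q v hv) = -1 := by
  have hne : (-1 : F) ≠ 1 := fun e => h2 (by linear_combination -e)
  simp [detSign, det_R hv, hne]

omit [Fintype F] in
theorem detSign_eq_one {g : Cfsg.isometryGroup F ⇑Q} : detSign h2 hQ g = 1 ↔ g.1.1.det = 1 := by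
  change (if g.1.1.det = 1 then (1 : ℤˣ) else -1) = 1 ↔ _
  by_cases h : g.1.1.det = 1 <;> simp [h]

theorem omega_le_ker : Cfsg.Omega F ⇑Q ≤ ((detSign h2 hQ).prod (theta Q h2 hQ)).ker :=
  Abelianization.commutator_subset_ker _

variable [Nontrivial ι]

theorem ker_eq_omega : ((detSign h2 hQ).prod (theta Q h2 hQ)).ker = Cfsg.Omega F ⇑Q := by
  refine le_antisymm ?_ (omega_le_ker h2 hQ)
  obtain ⟨ν, hν⟩ := quadraticChar_exists_neg_one (F := F) (fun h => h2 (by
    haveI : CharP F 2 := ringChar.of_eq h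
    exact CharTwo.two_eq_zero))
  have hν0 : ν ≠ 0 := by rintro rfl; simp at hν
  obtain ⟨a, ha⟩ := exists_norm h2 hQ (1 : F)
  obtain ⟨b, hb⟩ := exists_norm h2 hQ ν
  have ha0 : Q a ≠ 0 := by rw [ha]; exact one_ne_zero
  have hb0 : Q b ≠ 0 := by rw [hb]; exact hν0
  set π := QuotientGroup.mk' (Cfsg.Omega F ⇑Q) with hπ
  have hcomm : ∀ x y, π x * π y = π y * π x := fun x y => by
    rw [← map_mul, ← map_mul]
    refine QuotientGroup.eq.2 ?_
    have : (x * y)⁻¹ * (y * x) = ⁅y⁻¹, x⁻¹⁆ := by rw [commutatorElement_def]; group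
    rw [this]
    exact Subgroup.commutator_mem_commutator (Subgroup.mem_top _) (Subgroup.mem_top _)
  have hsq : ∀ (v : ι → F) (hv : Q v ≠ 0), π (R Q v hv) * π (R Q v hv) = 1 := fun v hv => by
    rw [← map_mul, ← map_one π]
    congr 1
    refine Subtype.ext (Units.ext (Matrix.toLin'.injective (LinearMap.ext fun x => ?_)))
    simp only [Subgroup.coe_mul, Units.val_mul, Matrix.toLin'_apply, ← Matrix.mulVec_mulVec, refl_eq_R,
      OneMemClass.coe_one, Units.val_one, Matrix.one_mulVec]
    exact refl_refl Q hv x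
  set A := π (R Q a ha0) with hA
  set B := π (R Q b hb0) with hB
  have hcls : ∀ (v : ι → F) (hv : Q v ≠ 0), π (R Q v hv) = A ∨ π (R Q v hv) = B := fun v hv => by
    rcases quadraticChar_dichotomy hv with e | e
    · exact Or.inl (R_congr_class h2 ha0 hv (by rw [e, ha, MulChar.map_one]))
    · exact Or.inr (R_congr_class h2 hb0 hv (by rw [e, hb, hν]))
  intro g hg
  rw [MonoidHom.mem_ker, MonoidHom.prod_apply, Prod.mk_eq_one] at hg
  have hgc : g ∈ Subgroup.closure (reflections Q) := by rw [closure_reflections h2 hQ]; trivial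
  -- coordinates in the abelian quotient
  have key : ∃ i j : ℕ, π g = A ^ i * B ^ j ∧ detSign h2 hQ g = (-1) ^ (i + j) ∧
      theta Q h2 hQ g = (-1) ^ j := by
    have hstep : ∀ r ∈ reflections Q, ∀ z, (∃ i j : ℕ, π z = A ^ i * B ^ j ∧
        detSign h2 hQ z = (-1) ^ (i + j) ∧ theta Q h2 hQ z = (-1) ^ j) →
        ∃ i j : ℕ, π (r * z) = A ^ i * B ^ j ∧
        detSign h2 hQ (r * z) = (-1) ^ (i + j) ∧ theta Q h2 hQ (r * z) = (-1) ^ j := by
      rintro r ⟨v, hv, hr⟩ z ⟨i, j, hz, hzd, hzt⟩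
      obtain rfl : r = R Q v hv := Subtype.ext (Units.ext hr)
      have hdv := detSign_R h2 hQ hv
      rcases quadraticChar_dichotomy hv with e | e
      · refine ⟨i + 1, j, ?_, ?_, ?_⟩
        · rw [map_mul, hz, show π (R Q v hv) = A from
            R_congr_class h2 ha0 hv (by rw [e, ha, MulChar.map_one]), ← mul_assoc, ← pow_succ']
        · rw [map_mul, hzd, hdv, ← pow_succ', show i + 1 + j = i + j + 1 by omega]
        · rw [map_mul, hzt, show theta Q h2 hQ (R Q v hv) = 1 from Units.ext (by rw [theta_R, e]; rfl),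
            one_mul]
      · refine ⟨i, j + 1, ?_, ?_, ?_⟩
        · rw [map_mul, hz, show π (R Q v hv) = B from
            R_congr_class h2 hb0 hv (by rw [e, hb, hν]), ← mul_assoc,
            show B * A ^ i = A ^ i * B from ((show Commute B A from hcomm _ _).pow_right i).eq,
            mul_assoc, ← pow_succ']
        · rw [map_mul, hzd, hdv, ← pow_succ', add_assoc]
        · rw [map_mul, hzt, show theta Q h2 hQ (R Q v hv) = -1 from Units.ext (by rw [theta_R, e]; rfl),
            ← pow_succ']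
    clear hg
    induction hgc using Subgroup.closure_induction_left with
    | one => exact ⟨0, 0, by simp, by simp, by simp⟩
    | mul_left r hr z _ ih => exact hstep r hr z ih
    | inv_mul_cancel r hr z _ ih =>
      obtain ⟨v, hv, hr'⟩ := hr
      obtain rfl : r = R Q v hv := Subtype.ext (Units.ext hr')
      have hinv : (R Q v hv)⁻¹ = R Q v hv := by
        refine inv_eq_of_mul_eq_one_right (Subtype.ext (Units.ext (Matrix.toLin'.injective
          (LinearMap.ext fun x => ?_))))
        simp only [Subgroup.coe_mul, Units.val_mul, Matrix.toLin'_apply, ← Matrix.mulVec_mulVec,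
          refl_eq_R, OneMemClass.coe_one, Units.val_one, Matrix.one_mulVec]
        exact refl_refl Q hv x
      rw [hinv]
      exact hstep _ (R_mem v hv) z ih
  obtain ⟨i, j, hij, hd, ht⟩ := key
  rw [hg.2] at ht
  rw [hg.1] at hd
  have hj : Even j := by
    rcases Nat.even_or_odd j with h | h
    · exact h
    · rw [h.neg_one_pow] at ht; exact absurd ht (by decide)
  have hi : Even i := by
    rcases Nat.even_or_odd i with h | h
    · exact h
    · rw [(h.add_even hj).neg_one_pow] at hd; exact absurd hd (by decide)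
  obtain ⟨i', rfl⟩ := hi
  obtain ⟨j', rfl⟩ := hj
  have h1 : π g = 1 := by
    rw [hij, ← two_mul, ← two_mul, pow_mul, pow_mul, pow_two, pow_two, hA, hB, hsq, hsq, one_pow, one_pow,
      one_mul]
  exact (QuotientGroup.eq_one_iff g).1 h1

theorem mem_omega_iff {g : Cfsg.isometryGroup F ⇑Q} :
    g ∈ Cfsg.Omega F ⇑Q ↔ g.1.1.det = 1 ∧ theta Q h2 hQ g = 1 := by
  rw [← ker_eq_omega h2 hQ, MonoidHom.mem_ker, MonoidHom.prod_apply, Prod.mk_eq_one, detSign_eq_one]

include h2 hQ in
theorem index_omega : (Cfsg.Omega F ⇑Q).index = 4 := by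
  rw [← ker_eq_omega h2 hQ, Subgroup.index_ker]
  have htop : ((detSign h2 hQ).prod (theta Q h2 hQ)).range = ⊤ := by
    obtain ⟨ν, hν⟩ := quadraticChar_exists_neg_one (F := F) (fun h => h2 (by
      haveI : CharP F 2 := ringChar.of_eq h
      exact CharTwo.two_eq_zero))
    have hν0 : ν ≠ 0 := by rintro rfl; simp at hν
    obtain ⟨a, ha⟩ := exists_norm h2 hQ (1 : F)
    obtain ⟨b, hb⟩ := exists_norm h2 hQ ν
    have ha0 : Q a ≠ 0 := by rw [ha]; exact one_ne_zero
    have hb0 : Q b ≠ 0 := by rw [hb]; exact hν0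
    have e1 : ((detSign h2 hQ).prod (theta Q h2 hQ)) (R Q a ha0) = (-1, 1) := by
      rw [MonoidHom.prod_apply, detSign_R]
      exact Prod.ext rfl (Units.ext (by rw [theta_R, ha, MulChar.map_one]; rfl))
    have e2 : ((detSign h2 hQ).prod (theta Q h2 hQ)) (R Q b hb0) = (-1, -1) := by
      rw [MonoidHom.prod_apply, detSign_R]
      exact Prod.ext rfl (Units.ext (by rw [theta_R, hb, hν]; rfl))
    refine eq_top_iff.2 fun x _ => ?_
    rcases x with ⟨x, y⟩
    rcases Int.units_eq_one_or x with rfl | rfl <;> rcases Int.units_eq_one_or y with rfl | rfl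
    · exact one_mem _
    · exact ⟨R Q a ha0 * R Q b hb0, by rw [map_mul, e1, e2]; rfl⟩
    · exact ⟨_, e1⟩
    · exact ⟨_, e2⟩
  rw [htop, Subgroup.card_top, Nat.card_prod, Nat.card_eq_fintype_card, Fintype.card_units_int]

end CfsgLib.Geometry.Spinor
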