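import Mathlib
import Cfsg.Prelude.Def_ClassicalGeometry
import Cfsg.Agent.Lib.Geometry.DicksonGen
import Cfsg.Agent.Lib.Geometry.Spinor

/-!
The index of the commutator subgroup of an orthogonal group and the unique subgroup of index two.
-/

set_option autoImplicit false
open scoped Matrix commutatorElement

namespace CfsgLib.Geometry.OmegaIndex

open CfsgLib.Geometry CfsgLib.Geometry.QuadBasic

variable {F : Type*} [Field F] {ι : Type} [Fintype ι] [DecidableEq ι] {Q : QuadraticForm F (ι → F)}
variable (hQ : (QuadraticMap.polarBilin Q).Nondegenerate)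
include hQ

theorem exists_aniso [Nonempty ι] : ∃ v, Q v ≠ 0 := by
  by_contra h
  simp only [not_exists, not_not] at h
  obtain ⟨i⟩ := ‹Nonempty ι›
  have h1 : (Pi.single i (1 : F) : ι → F) = 0 := hQ.1 _ fun x => by
    show QuadraticMap.polar (⇑Q) (Pi.single i 1) x = 0
    simp [QuadraticMap.polar, h]
  simpa using congrFun h1 i

/-- In characteristic two the commutator subgroup has index two. -/
theorem index_omega_two [Finite F] [CharP F 2] [Nonempty ι] (hex : (∃ c : F, c ≠ 0 ∧ c ≠ 1) ∨ Fintype.card ι ≠ 4) :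
    (Cfsg.Omega F ⇑Q).index = 2 := by
  classical
  obtain ⟨v, hv⟩ := exists_aniso hQ
  obtain ⟨D, hD⟩ := DicksonGen.exists_dickson hQ hex
  set π := QuotientGroup.mk' (Cfsg.Omega F ⇑Q) with hπ
  have hcongr : ∀ w (hw : Q w ≠ 0), π (Reflections.R Q w hw) = π (Reflections.R Q v hv) := by
    intro w hw
    have hbij : Function.Bijective (fun x : F => x * x) := by
      refine Finite.injective_iff_bijective.1 fun x y (h : x * x = y * y) => ?_
      rcases mul_self_eq_mul_self_iff.1 h with e | e
      · exact e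
      · rwa [CharTwo.neg_eq] at e
    obtain ⟨c, hc⟩ := hbij.2 (Q w / Q v)
    have hcv : Q (c • v) = Q w := by
      rw [QuadraticMap.map_smul, smul_eq_mul]; show (c * c) * Q v = Q w
      rw [show c * c = Q w / Q v from hc, div_mul_cancel₀ _ hv]
    obtain ⟨g, hg⟩ := DicksonGen.exists_map hQ (v := c • v) (w := w) (by rw [hcv]; exact hw) hcv.symm
    have e := Spinor.R_conj g (by rw [hcv]; exact hw) hw hg
    rw [← e, Spinor.R_smul c hv, map_mul, map_mul, map_inv]
    have hcomm : π g * π (Reflections.R Q v hv) = π (Reflections.R Q v hv) * π g := by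
      rw [← map_mul, ← map_mul]
      refine QuotientGroup.eq.2 ?_
      have hh : ∀ a b : Cfsg.isometryGroup F ⇑Q, (a * b)⁻¹ * (b * a) = ⁅b⁻¹, a⁻¹⁆ := fun a b => by
        rw [commutatorElement_def, inv_inv, inv_inv]; group
      rw [hh]
      exact Subgroup.commutator_mem_commutator (Subgroup.mem_top _) (Subgroup.mem_top _)
    rw [hcomm, mul_inv_cancel_right]
  have hsq : Reflections.R Q v hv * Reflections.R Q v hv = 1 := by
    refine Subtype.ext (Units.ext (Matrix.toLin'.injective (LinearMap.ext fun x => ?_)))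
    simp only [Subgroup.coe_mul, Units.val_mul, Matrix.toLin'_apply, ← Matrix.mulVec_mulVec, Reflections.R_apply,
      OneMemClass.coe_one, Units.val_one, Matrix.one_mulVec, QuadraticMap.polar_sub_right,
      QuadraticMap.polar_smul_right, QuadraticMap.polar_self, smul_eq_mul]
    match_scalars <;> field_simp <;> ring
  set r := π (Reflections.R Q v hv) with hr
  have hr2 : r * r = 1 := by rw [hr, ← map_mul, hsq, map_one]
  have hle : ∀ x, x ∈ Subgroup.zpowers r := by
    intro x
    obtain ⟨g, rfl⟩ := QuotientGroup.mk'_surjective (Cfsg.Omega F ⇑Q) x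
    have hg : g ∈ Subgroup.closure (Reflections.reflections Q) := by
      rw [DicksonGen.closure_eq_top hQ hex]; trivial
    show g ∈ (Subgroup.zpowers r).comap π
    refine (Subgroup.closure_le _).2 ?_ hg
    rintro s ⟨w, hw, hs⟩
    obtain rfl : s = Reflections.R Q w hw := Subtype.ext (Units.ext hs)
    show π (Reflections.R Q w hw) ∈ Subgroup.zpowers r
    rw [hcongr w hw]; exact Subgroup.mem_zpowers r
  have h2 : Nat.card (_ ⧸ Cfsg.Omega F ⇑Q) ≤ 2 := by
    rw [← orderOf_eq_card_of_forall_mem_zpowers hle]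
    exact Nat.le_of_dvd two_pos (orderOf_dvd_of_pow_eq_one (by rw [pow_two, hr2]))
  have h1 : r ≠ 1 := fun e => by
    have hker : Cfsg.Omega F ⇑Q ≤ D.ker := Abelianization.commutator_subset_ker D
    have := hker ((QuotientGroup.eq_one_iff _).1 e)
    rw [MonoidHom.mem_ker, hD] at this
    exact absurd this (by decide)
  haveI : Nontrivial (_ ⧸ Cfsg.Omega F ⇑Q) := ⟨⟨r, 1, h1⟩⟩
  have h3 : 1 < Nat.card (_ ⧸ Cfsg.Omega F ⇑Q) := Finite.one_lt_card
  rw [Subgroup.index_eq_card]
  omega

omit hQ in
theorem mem_special {g : Cfsg.isometryGroup F ⇑Q} : g ∈ Cfsg.specialIsometryGroup F ⇑Q ↔ g.1.1.det = 1 := by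
  show Matrix.GeneralLinearGroup.det g.1 = 1 ↔ _
  rw [Units.ext_iff]; rfl

/-- The group of determinant one has a unique subgroup of index two. -/
theorem unique_index_two [Fintype F] [DecidableEq F] [Nontrivial ι] (hex : (∃ c : F, c ≠ 0 ∧ c ≠ 1) ∨ Fintype.card ι ≠ 4) :
    ∃! H : Subgroup (Cfsg.specialIsometryGroup F ⇑Q), H.index = 2 := by
  classical
  set O := Cfsg.isometryGroup F ⇑Q
  set SO := Cfsg.specialIsometryGroup F ⇑Q
  have hnSO : ∀ (g x : O), x ∈ SO → g * x * g⁻¹ ∈ SO := fun g x hx => (MonoidHom.normal_ker _).conj_mem x hx g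
  have hΩ : Cfsg.Omega F ⇑Q ≤ SO := Abelianization.commutator_subset_ker _
  -- squares
  set Sq : Subgroup O := Subgroup.closure {y | ∃ x ∈ SO, x * x = y}
  haveI hSn : Sq.Normal := ⟨fun n hn g => by
    induction hn using Subgroup.closure_induction with
    | mem y hy =>
      obtain ⟨x, hx, rfl⟩ := hy
      exact Subgroup.subset_closure ⟨g * x * g⁻¹, hnSO g x hx, by group⟩
    | one => simp
    | mul a b _ _ ha hb => rw [show g * (a * b) * g⁻¹ = (g * a * g⁻¹) * (g * b * g⁻¹) by group]; exact mul_mem ha hb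
    | inv a _ ha => rw [show g * a⁻¹ * g⁻¹ = (g * a * g⁻¹)⁻¹ by group]; exact inv_mem ha⟩
  have hΩS : Cfsg.Omega F ⇑Q ≤ Sq := by
    set π := QuotientGroup.mk' Sq
    have hinv : ∀ v (hv : Q v ≠ 0), Reflections.R Q v hv * Reflections.R Q v hv = 1 := fun v hv => by
      refine Subtype.ext (Units.ext (Matrix.toLin'.injective (LinearMap.ext fun x => ?_)))
      simp only [Subgroup.coe_mul, Units.val_mul, Matrix.toLin'_apply, ← Matrix.mulVec_mulVec, Reflections.R_apply,
        OneMemClass.coe_one, Units.val_one, Matrix.one_mulVec, QuadraticMap.polar_sub_right,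
        QuadraticMap.polar_smul_right, QuadraticMap.polar_self, smul_eq_mul]
      match_scalars <;> field_simp <;> ring
    have hcomm : ∀ v (hv : Q v ≠ 0) w (hw : Q w ≠ 0),
        π (Reflections.R Q v hv) * π (Reflections.R Q w hw) = π (Reflections.R Q w hw) * π (Reflections.R Q v hv) := by
      intro v hv w hw
      rw [← map_mul, ← map_mul]
      refine QuotientGroup.eq.2 ?_
      have e : (Reflections.R Q v hv * Reflections.R Q w hw)⁻¹
          = Reflections.R Q w hw * Reflections.R Q v hv := by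
        rw [mul_inv_rev, inv_eq_of_mul_eq_one_right (hinv v hv), inv_eq_of_mul_eq_one_right (hinv w hw)]
      rw [e]
      refine Subgroup.subset_closure ⟨_, mem_special.2 ?_, rfl⟩
      rw [Subgroup.coe_mul, Units.val_mul, Matrix.det_mul]
      show (Cfsg.reflectionMatrix (⇑Q) w).det * (Cfsg.reflectionMatrix (⇑Q) v).det = 1
      rw [reflection_det Q w hw, reflection_det Q v hv]; ring
    have hgen : Subgroup.closure (π '' Reflections.reflections Q) = ⊤ := by
      rw [← MonoidHom.map_closure, DicksonGen.closure_eq_top hQ hex, ← MonoidHom.range_eq_map,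
        MonoidHom.range_eq_top.2 (QuotientGroup.mk'_surjective Sq)]
    have hab : ∀ x y : O ⧸ Sq, x * y = y * x := by
      have hcen : Subgroup.closure (π '' Reflections.reflections Q) ≤ Subgroup.center (O ⧸ Sq) := by
        rw [Subgroup.closure_le]
        rintro _ ⟨s, ⟨v, hv, hs⟩, rfl⟩
        obtain rfl : s = Reflections.R Q v hv := Subtype.ext (Units.ext hs)
        refine Subgroup.mem_center_iff.2 fun y => ?_
        have hy : y ∈ Subgroup.closure (π '' Reflections.reflections Q) := by rw [hgen]; trivial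
        suffices Subgroup.closure (π '' Reflections.reflections Q) ≤ Subgroup.centralizer {π (Reflections.R Q v hv)} from
          (Subgroup.mem_centralizer_iff.1 (this hy) _ rfl).symm
        rw [Subgroup.closure_le]
        rintro _ ⟨s, ⟨w, hw, hs⟩, rfl⟩
        obtain rfl : s = Reflections.R Q w hw := Subtype.ext (Units.ext hs)
        exact Subgroup.mem_centralizer_iff.2 fun z hz => by rw [Set.mem_singleton_iff.1 hz]; exact hcomm v hv w hw
      intro x y
      exact (Subgroup.mem_center_iff.1 (hcen (by rw [hgen]; trivial)) x).symm ▸ rfl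
    show ⁅(⊤ : Subgroup O), ⊤⁆ ≤ Sq
    rw [Subgroup.commutator_le]
    intro a _ b _
    rw [← QuotientGroup.eq_one_iff]
    show π ⁅a, b⁆ = 1
    rw [map_commutatorElement, commutatorElement_def, hab (π a) (π b)]
    group
  -- the index
  have hidx : ((Cfsg.Omega F ⇑Q).subgroupOf SO).index = 2 := by
    show (Cfsg.Omega F ⇑Q).relIndex SO = 2
    have hmul := Subgroup.relIndex_mul_index hΩ
    by_cases h2 : (2 : F) = 0
    · haveI : CharP F 2 := CharTwo.of_one_ne_zero_of_two_eq_zero one_ne_zero h2
      have hSO : SO = ⊤ := eq_top_iff.2 fun g _ => mem_special.2 (by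
        rcases mul_self_eq_one_iff.1 (det_sq_of_isometry Q hQ _ ((mem_isometryGroup_iff (⇑Q) g.1).1 g.2)) with e | e
        · exact e
        · rw [e, CharTwo.neg_eq])
      rw [hSO, Subgroup.relIndex_top_right]; exact index_omega_two hQ hex
    · have hSO : SO.index = 2 := by
        obtain ⟨v, hv⟩ := exists_aniso hQ
        rw [Subgroup.index_eq_two_iff]
        refine ⟨Reflections.R Q v hv, fun g => ?_⟩
        have hne : (-1 : F) ≠ 1 := fun e => h2 (by linear_combination -e)
        rw [mem_special, mem_special, Subgroup.coe_mul, Units.val_mul, Matrix.det_mul, Spinor.det_R hv]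
        rcases mul_self_eq_one_iff.1 (det_sq_of_isometry Q hQ _ ((mem_isometryGroup_iff (⇑Q) g.1).1 g.2)) with e | e <;>
          simp [e, hne, Xor']
      rw [hSO, Spinor.index_omega h2 hQ] at hmul
      omega
  refine ⟨(Cfsg.Omega F ⇑Q).subgroupOf SO, hidx, fun H hH => ?_⟩
  have hle : (Cfsg.Omega F ⇑Q).subgroupOf SO ≤ H := by
    intro x hx
    have h1 : Sq ≤ H.map SO.subtype := by
      rw [Subgroup.closure_le]
      rintro _ ⟨y, hy, rfl⟩
      exact ⟨⟨y, hy⟩ * ⟨y, hy⟩, Subgroup.mul_self_mem_of_index_two hH _, rfl⟩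
    obtain ⟨z, hz, hzx⟩ := h1 (hΩS (Subgroup.mem_subgroupOf.1 hx))
    rwa [← Subtype.ext hzx]
  refine (le_antisymm hle ?_).symm
  rw [← Subgroup.relIndex_eq_one]
  have := Subgroup.relIndex_mul_index hle
  rw [hH, hidx] at this
  omega

end CfsgLib.Geometry.OmegaIndex
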