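import Mathlib
import Cfsg.Agent.Lib.Geometry.Spinor
import Cfsg.Agent.Lib.Orth.Models

/-!
When does `-1` lie in the derived group of an orthogonal group.
-/

set_option autoImplicit false
open scoped Matrix

namespace CfsgLib.Geometry.Spinor

open CfsgLib.Geometry.QuadBasic CfsgLib.Geometry.Reflections CfsgLib.Geometry.SpinorKey

variable {F : Type*} [Field F] {ι : Type} [Fintype ι] [DecidableEq ι] {Q : QuadraticForm F (ι → F)}

theorem nondeg_polarBilin (h : CfsgLib.Orth.Hyperbolic.Nondeg Q) :
    (QuadraticMap.polarBilin Q).Nondegenerate := by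
  constructor
  · intro x hx
    by_contra h0
    obtain ⟨y, hy⟩ := h x h0
    exact hy (hx y)
  · intro y hy
    by_contra h0
    obtain ⟨x, hx⟩ := h y h0
    exact hx (by rw [QuadraticMap.polar_comm]; exact hy x)

theorem reflProd_add : ∀ (l : List (ι → F)) (x y : ι → F),
    reflProd Q l (x + y) = reflProd Q l x + reflProd Q l y
  | [], _, _ => rfl
  | a :: l, x, y => by
    rw [reflProd, reflProd, reflProd, reflProd_add l x y]
    simp only [SpinorKey.refl, QuadraticMap.polar_add_right, mul_add, add_smul]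
    abel

theorem reflProd_smul : ∀ (l : List (ι → F)) (c : F) (x : ι → F),
    reflProd Q l (c • x) = c • reflProd Q l x
  | [], _, _ => rfl
  | a :: l, c, x => by
    rw [reflProd, reflProd, reflProd_smul l c x]
    simp only [SpinorKey.refl, QuadraticMap.polar_smul_right, smul_eq_mul, smul_sub, smul_smul]
    congr 2
    ring

theorem reflProd_fix : ∀ (l : List (ι → F)) (x : ι → F),
    (∀ a ∈ l, QuadraticMap.polar (⇑Q) a x = 0) → reflProd Q l x = x
  | [], _, _ => rfl
  | a :: l, x, h => by
    rw [reflProd, reflProd_fix l x (fun b hb => h b (List.mem_cons_of_mem _ hb)), SpinorKey.refl,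
      h a (List.mem_cons_self ..), mul_zero, zero_smul, sub_zero]

theorem reflProd_mem : ∀ (l : List (ι → F)), l.Nodup → (∀ a ∈ l, Q a ≠ 0) →
    (∀ a ∈ l, ∀ b ∈ l, a ≠ b → QuadraticMap.polar (⇑Q) a b = 0) → ∀ x ∈ l, reflProd Q l x = -x
  | [], _, _, _, x, hx => absurd hx List.not_mem_nil
  | a :: l, hnd, hne, hort, x, hx => by
    have hnd' := List.nodup_cons.1 hnd
    rw [reflProd]
    rcases List.mem_cons.1 hx with rfl | hxl
    · rw [reflProd_fix l x (fun b hb => hort b (List.mem_cons_of_mem _ hb) x hx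
        (fun e => hnd'.1 (e ▸ hb))), SpinorKey.refl, QuadraticMap.polar_self, two_nsmul]
      have hx0 := hne x hx
      rw [mul_add, inv_mul_cancel₀ hx0, add_smul, one_smul]
      abel
    · rw [reflProd_mem l hnd'.2 (fun b hb => hne b (List.mem_cons_of_mem _ hb))
        (fun b hb c hc => hort b (List.mem_cons_of_mem _ hb) c (List.mem_cons_of_mem _ hc)) x hxl,
        SpinorKey.refl, QuadraticMap.polar_neg_right, hort a (List.mem_cons_self ..) x hx
        (fun e => hnd'.1 (e ▸ hxl)), neg_zero, mul_zero, zero_smul, sub_zero]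

variable [Fintype F] [DecidableEq F]
variable (h2 : (2 : F) ≠ 0) (hQ : (QuadraticMap.polarBilin Q).Nondegenerate)

/-- The spinor norm of `-1` from an orthogonal family. -/
theorem theta_neg_one (b : ι → ι → F) (hne : ∀ i, Q (b i) ≠ 0)
    (hort : ∀ i j, i ≠ j → QuadraticMap.polar (⇑Q) (b i) (b j) = 0)
    (g : Cfsg.isometryGroup F ⇑Q) (hg : g.1.1 = -1) :
    (theta Q h2 hQ g : ℤ) = quadraticChar F (∏ i, Q (b i)) := by
  have hinj : Function.Injective b := by
    intro i j hij
    by_contra hne'
    have h := hort i j hne'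
    rw [← hij, QuadraticMap.polar_self, two_nsmul, ← two_mul] at h
    exact mul_ne_zero h2 (hne i) h
  have hli : LinearIndependent F b := by
    refine LinearMap.linearIndependent_of_isOrthoᵢ (B := QuadraticMap.polarBilin Q) (fun i j h => hort i j h)
      fun i h => ?_
    have h' : QuadraticMap.polar (⇑Q) (b i) (b i) = 0 := h
    rw [QuadraticMap.polar_self, two_nsmul, ← two_mul] at h'
    exact mul_ne_zero h2 (hne i) h'
  have hspan : Submodule.span F (Set.range b) = ⊤ := hli.span_eq_top_of_card_eq_finrank' (by simp)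
  set l := (Finset.univ.toList : List ι).map b with hl
  have hmem : ∀ a, a ∈ l ↔ ∃ i, b i = a := fun a => by simp [hl]
  have hp : IsProd Q g l := by
    refine ⟨fun a ha => by obtain ⟨i, rfl⟩ := (hmem a).1 ha; exact hne i, fun w => ?_⟩
    rw [hg, Matrix.neg_mulVec, Matrix.one_mulVec]
    have hw : w ∈ Submodule.span F (Set.range b) := by rw [hspan]; trivial
    induction hw using Submodule.span_induction with
    | mem x hx =>
      obtain ⟨i, rfl⟩ := hx
      refine (reflProd_mem l ((Finset.nodup_toList _).map hinj) ?_ ?_ _ ((hmem _).2 ⟨i, rfl⟩)).symm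
      · intro a ha; obtain ⟨j, rfl⟩ := (hmem a).1 ha; exact hne j
      · intro a ha c hc hac
        obtain ⟨j, rfl⟩ := (hmem a).1 ha
        obtain ⟨k, rfl⟩ := (hmem c).1 hc
        exact hort j k fun e => hac (by rw [e])
    | zero =>
      rw [neg_zero]
      exact (reflProd_fix l 0 fun a _ => QuadraticMap.polar_zero_right Q a).symm
    | add x y _ _ hx hy => rw [neg_add, hx, hy, reflProd_add]
    | smul c x _ hx => rw [← smul_neg, hx, reflProd_smul]
  rw [theta_of_isProd h2 hQ hp, hl, List.map_map, Finset.prod_map_toList]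
  rfl

include h2 in
theorem neg_one_mem_omega_iff [Nontrivial ι] (heven : Even (Fintype.card ι)) (b : ι → ι → F) (hne : ∀ i, Q (b i) ≠ 0)
    (hort : ∀ i j, i ≠ j → QuadraticMap.polar (⇑Q) (b i) (b j) = 0) :
    (∃ g : Cfsg.isometryGroup F ⇑Q, g ∈ Cfsg.Omega F ⇑Q ∧ g.1.1 = -1)
      ↔ quadraticChar F (∏ i, Q (b i)) = 1 := by
  have h2' := h2
  have hQ' : (QuadraticMap.polarBilin Q).Nondegenerate := by
    have hli : LinearIndependent F b := by
      refine LinearMap.linearIndependent_of_isOrthoᵢ (B := QuadraticMap.polarBilin Q) (fun i j h => hort i j h)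
        fun i h => ?_
      have h' : QuadraticMap.polar (⇑Q) (b i) (b i) = 0 := h
      rw [QuadraticMap.polar_self, two_nsmul, ← two_mul] at h'
      exact mul_ne_zero h2 (hne i) h'
    let B := Module.Basis.mk hli (ge_of_eq (hli.span_eq_top_of_card_eq_finrank' (by simp)))
    refine LinearMap.IsOrthoᵢ.nondegenerate_of_not_isOrtho_basis_self B ?_ ?_
    · intro i j h
      simpa [B] using hort i j h
    · intro i h
      have h' : QuadraticMap.polar (⇑Q) (b i) (b i) = 0 := by simpa [B] using h
      rw [QuadraticMap.polar_self, two_nsmul, ← two_mul] at h'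
      exact mul_ne_zero h2 (hne i) h'
  constructor
  · rintro ⟨g, hg, hg1⟩
    rw [← theta_neg_one h2' hQ' b hne hort g hg1, ((mem_omega_iff h2' hQ').1 hg).2]
    rfl
  · intro h
    have hu : IsUnit (-1 : Matrix ι ι F) := isUnit_one.neg
    refine ⟨⟨hu.unit, (mem_isometryGroup_iff _ _).2 fun v => ?_⟩, ?_, hu.unit_spec⟩
    · rw [hu.unit_spec, Matrix.neg_mulVec, Matrix.one_mulVec, QuadraticMap.map_neg]
    · refine (mem_omega_iff h2' hQ').2 ⟨?_, Units.ext ?_⟩
      · rw [hu.unit_spec, Matrix.det_neg, Matrix.det_one, mul_one, heven.neg_one_pow]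
      · rw [theta_neg_one h2' hQ' b hne hort _ hu.unit_spec, h]
        rfl

theorem char_neg_one_pow (m : ℕ) (hodd : Odd (Fintype.card F)) :
    quadraticChar F ((-1 : F) ^ m) = 1 ↔ Fintype.card F ^ m % 4 = 1 := by
  have hchar : ringChar F ≠ 2 := fun h => by
    haveI : CharP F 2 := ringChar.of_eq h
    exact Nat.not_even_iff_odd.2 hodd (by
      rw [Nat.even_iff]; exact FiniteField.even_card_of_char_two h)
  have hq : Fintype.card F % 4 = 1 ∨ Fintype.card F % 4 = 3 := by
    rcases hodd with ⟨k, hk⟩; omega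
  rw [map_pow, Nat.pow_mod]
  rcases hq with hq | hq
  · rw [hq, one_pow, (quadraticChar_one_iff_isSquare (neg_ne_zero.2 one_ne_zero)).2
      (FiniteField.isSquare_neg_one_iff.2 (by omega)), one_pow]
    simp
  · rw [hq, quadraticChar_neg_one_iff_not_isSquare.2 (fun h => (FiniteField.isSquare_neg_one_iff.1 h) hq)]
    rcases Nat.even_or_odd m with hm | hm
    · rw [hm.neg_one_pow]
      obtain ⟨k, rfl⟩ := hm
      rw [← two_mul, pow_mul, Nat.pow_mod, show (3 : ℕ) ^ 2 % 4 = 1 from rfl, one_pow]
      simp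
    · rw [hm.neg_one_pow]
      obtain ⟨k, rfl⟩ := hm
      rw [pow_succ, pow_mul, Nat.mul_mod, Nat.pow_mod, show (3 : ℕ) ^ 2 % 4 = 1 from rfl, one_pow]
      simp

end CfsgLib.Geometry.Spinor
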