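import Mathlib
import Cfsg.Prelude.Def_ClassicalGeometry
import Cfsg.Agent.Lib.Geometry.OmegaIndex
import Cfsg.Agent.Lib.Geometry.SpinorNegOne

/-!
Membership tests for the derived group of an orthogonal group and adjustment of isometries inside a subgroup.
-/

set_option autoImplicit false
open scoped Matrix

namespace CfsgLib.Geometry.OmegaTools

open CfsgLib.Geometry CfsgLib.Geometry.QuadBasic

variable {F : Type*} [Field F] {ι : Type} [Fintype ι] [DecidableEq ι] {Q : QuadraticForm F (ι → F)}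

/-- In characteristic two a reflection outside corrects membership. -/
theorem adjust_two [Finite F] [CharP F 2] [Nonempty ι] (hQ : (QuadraticMap.polarBilin Q).Nondegenerate)
    (hex : (∃ c : F, c ≠ 0 ∧ c ≠ 1) ∨ Fintype.card ι ≠ 4) (g : Cfsg.isometryGroup F ⇑Q) {a : ι → F} (ha : Q a ≠ 0) :
    g ∈ Cfsg.Omega F ⇑Q ∨ Reflections.R Q a ha * g ∈ Cfsg.Omega F ⇑Q := by
  by_cases hg : g ∈ Cfsg.Omega F ⇑Q
  · exact Or.inl hg
  refine Or.inr ?_
  rw [Subgroup.mul_mem_iff_of_index_two (OmegaIndex.index_omega_two hQ hex)]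
  refine iff_of_false (fun hm => ?_) hg
  obtain ⟨D, hD⟩ := DicksonGen.exists_dickson hQ hex
  have h1 : Reflections.R Q a ha ∈ D.ker := Abelianization.commutator_subset_ker D hm
  rw [MonoidHom.mem_ker, hD] at h1
  exact absurd h1 (by decide)

/-- In odd characteristic two elements of a subgroup realising both invariants correct membership. -/
theorem adjust_odd [Fintype F] [DecidableEq F] [Nontrivial ι] (h2 : (2 : F) ≠ 0)
    (hQ : (QuadraticMap.polarBilin Q).Nondegenerate) (P : Subgroup (Cfsg.isometryGroup F ⇑Q))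
    {x y : Cfsg.isometryGroup F ⇑Q} (hx : x ∈ P) (hy : y ∈ P) (hxd : x.1.1.det = -1) (hyd : y.1.1.det = 1)
    (hyt : Spinor.theta Q h2 hQ y = -1) (g : Cfsg.isometryGroup F ⇑Q) :
    ∃ p ∈ P, p * g ∈ Cfsg.Omega F ⇑Q := by
  have hd : ∀ z : Cfsg.isometryGroup F ⇑Q, z.1.1.det = 1 ∨ z.1.1.det = -1 := fun z =>
    mul_self_eq_one_iff.1 (det_sq_of_isometry Q hQ _ ((mem_isometryGroup_iff (⇑Q) z.1).1 z.2))
  obtain ⟨p, hp, hpd⟩ : ∃ p ∈ P, (p * g).1.1.det = 1 := by
    rcases hd g with e | e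
    · exact ⟨1, one_mem _, by rw [one_mul]; exact e⟩
    · exact ⟨x, hx, by rw [Subgroup.coe_mul, Units.val_mul, Matrix.det_mul, hxd, e]; ring⟩
  rcases Int.units_eq_one_or (Spinor.theta Q h2 hQ (p * g)) with e | e
  · exact ⟨p, hp, (Spinor.mem_omega_iff h2 hQ).2 ⟨hpd, e⟩⟩
  · refine ⟨y * p, mul_mem hy hp, (Spinor.mem_omega_iff h2 hQ).2 ⟨?_, ?_⟩⟩
    · rw [mul_assoc, Subgroup.coe_mul, Units.val_mul, Matrix.det_mul, hyd, hpd, one_mul]
    · rw [mul_assoc, map_mul, hyt, e]; rfl

/-- Two reflections with norms in different classes. -/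
theorem pair_theta [Fintype F] [DecidableEq F] (h2 : (2 : F) ≠ 0) (hQ : (QuadraticMap.polarBilin Q).Nondegenerate)
    {a b : ι → F} (ha : Q a ≠ 0) (hb : Q b ≠ 0) (h : quadraticChar F (Q a * Q b) = -1) :
    (Reflections.R Q a ha * Reflections.R Q b hb).1.1.det = 1 ∧
      Spinor.theta Q h2 hQ (Reflections.R Q a ha * Reflections.R Q b hb) = -1 := by
  refine ⟨?_, Units.ext ?_⟩
  · rw [Subgroup.coe_mul, Units.val_mul, Matrix.det_mul, Spinor.det_R ha, Spinor.det_R hb]; ring
  · rw [map_mul, Units.val_mul, Spinor.theta_R, Spinor.theta_R, ← map_mul, h]; rfl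

/-- A product of reflections given as matrices. -/
theorem isProd_of_matrix (g : Cfsg.isometryGroup F ⇑Q) (l : List (ι → F)) (hl : ∀ v ∈ l, Q v ≠ 0)
    (hg : g.1.1 = (l.map (fun v => Cfsg.reflectionMatrix (⇑Q) v)).prod) : Spinor.IsProd Q g l := by
  refine ⟨hl, fun w => ?_⟩
  rw [hg]; clear hg hl
  induction l with
  | nil => simp [SpinorKey.reflProd]
  | cons a l ih =>
    rw [List.map_cons, List.prod_cons, ← Matrix.mulVec_mulVec, ih, reflection_mulVec]
    rfl

theorem det_of_isProd {g : Cfsg.isometryGroup F ⇑Q} {l : List (ι → F)} (h : Spinor.IsProd Q g l) :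
    g.1.1.det = (-1) ^ l.length := by
  induction l generalizing g with
  | nil =>
    have : g.1.1 = 1 := Matrix.toLin'.injective (LinearMap.ext fun w => by
      simpa [SpinorKey.reflProd] using h.2 w)
    simp [this]
  | cons a l ih =>
    have ha : Q a ≠ 0 := h.1 a (List.mem_cons_self ..)
    have hg' : Spinor.IsProd Q (Reflections.R Q a ha * g) l := by
      refine ⟨fun b hb => h.1 b (List.mem_cons_of_mem _ hb), fun w => ?_⟩
      rw [Subgroup.coe_mul, Units.val_mul, ← Matrix.mulVec_mulVec, h.2, Spinor.refl_eq_R]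
      exact Spinor.refl_refl Q ha _
    have e := ih hg'
    rw [Subgroup.coe_mul, Units.val_mul, Matrix.det_mul, Spinor.det_R ha] at e
    rw [List.length_cons, pow_succ]
    linear_combination -e

/-- An involution negating part of an orthogonal family and fixing its orthogonal. -/
theorem isProd_partial_neg {κ : Type*} (b : κ → ι → F) (S : Finset κ) (h2 : (2 : F) ≠ 0)
    (hne : ∀ i ∈ S, Q (b i) ≠ 0)
    (hort : ∀ i ∈ S, ∀ j ∈ S, i ≠ j → QuadraticMap.polar (⇑Q) (b i) (b j) = 0)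
    (g : Cfsg.isometryGroup F ⇑Q) (hneg : ∀ i ∈ S, g.1.1 *ᵥ b i = -b i)
    (hfix : ∀ x, (∀ i ∈ S, QuadraticMap.polar (⇑Q) (b i) x = 0) → g.1.1 *ᵥ x = x) :
    Spinor.IsProd Q g (S.toList.map b) := by
  classical
  have hmem : ∀ a, a ∈ S.toList.map b ↔ ∃ i ∈ S, b i = a := fun a => by simp
  refine ⟨fun a ha => by obtain ⟨i, hi, rfl⟩ := (hmem a).1 ha; exact hne i hi, fun w => ?_⟩
  have hinj : ∀ i ∈ S, ∀ j ∈ S, b i = b j → i = j := fun i hi j hj e => by
    by_contra hij
    have h := hort i hi j hj hij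
    rw [← e, QuadraticMap.polar_self, two_nsmul, ← two_mul] at h
    exact mul_ne_zero h2 (hne i hi) h
  -- split off the span of the family
  set c : κ → F := fun i => (2 * Q (b i))⁻¹ * QuadraticMap.polar (⇑Q) (b i) w
  set w0 := w - ∑ i ∈ S, c i • b i with hw0
  have h0 : ∀ i ∈ S, QuadraticMap.polar (⇑Q) (b i) w0 = 0 := by
    intro i hi
    show QuadraticMap.polarBilin Q (b i) w0 = 0
    rw [hw0, map_sub, map_sum, Finset.sum_eq_single i (fun j hj hji => by
      rw [map_smul, QuadraticMap.polarBilin_apply_apply, hort i hi j hj (Ne.symm hji), smul_zero]) (fun h => absurd hi h),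
      map_smul, QuadraticMap.polarBilin_apply_apply, QuadraticMap.polarBilin_apply_apply, QuadraticMap.polar_self, two_nsmul, smul_eq_mul]
    have := hne i hi
    simp only [c]; field_simp; ring
  have hsum : ∀ s ⊆ S, SpinorKey.reflProd Q (S.toList.map b) (∑ i ∈ s, c i • b i) = g.1.1 *ᵥ (∑ i ∈ s, c i • b i) := by
    intro s hs
    induction s using Finset.induction_on with
    | empty =>
      rw [Finset.sum_empty, Matrix.mulVec_zero]
      exact Spinor.reflProd_fix _ 0 fun a _ => QuadraticMap.polar_zero_right Q a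
    | insert a s has ih =>
      have haS : a ∈ S := hs (Finset.mem_insert_self a s)
      rw [Finset.sum_insert has, Spinor.reflProd_add, ih (fun x hx => hs (Finset.mem_insert_of_mem hx)),
        Spinor.reflProd_smul, Matrix.mulVec_add, Matrix.mulVec_smul, hneg a haS,
        Spinor.reflProd_mem _ ((S.nodup_toList).map_on fun i hi j hj e => hinj i (Finset.mem_toList.1 hi) j (Finset.mem_toList.1 hj) e)
          (fun x hx => by obtain ⟨i, hi, rfl⟩ := (hmem x).1 hx; exact hne i hi)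
          (fun x hx y hy hxy => by
            obtain ⟨i, hi, rfl⟩ := (hmem x).1 hx
            obtain ⟨j, hj, rfl⟩ := (hmem y).1 hy
            exact hort i hi j hj fun e => hxy (by rw [e]))
          _ ((hmem _).2 ⟨a, haS, rfl⟩)]
  conv_lhs => rw [show w = w0 + ∑ i ∈ S, c i • b i by rw [hw0]; abel]
  conv_rhs => rw [show w = w0 + ∑ i ∈ S, c i • b i by rw [hw0]; abel]
  rw [Spinor.reflProd_add, hsum S subset_rfl, Matrix.mulVec_add, hfix w0 h0,
    Spinor.reflProd_fix _ w0 fun a ha => by obtain ⟨i, hi, rfl⟩ := (hmem a).1 ha; exact h0 i hi]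

/-- A product of reflections lies in the derived group exactly when it is even of square norm. -/
theorem mem_omega_of_isProd [Fintype F] [DecidableEq F] [Nontrivial ι] (h2 : (2 : F) ≠ 0)
    (hQ : (QuadraticMap.polarBilin Q).Nondegenerate) {g : Cfsg.isometryGroup F ⇑Q} {l : List (ι → F)}
    (h : Spinor.IsProd Q g l) :
    g ∈ Cfsg.Omega F ⇑Q ↔ Even l.length ∧ IsSquare (l.map Q).prod := by
  have hne : (-1 : F) ≠ 1 := fun e => h2 (by linear_combination -e)
  rw [Spinor.mem_omega_iff h2 hQ, det_of_isProd h, neg_one_pow_eq_one_iff_even hne, Units.ext_iff,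
    Spinor.theta_of_isProd h2 hQ h, Units.val_one]
  refine and_congr_right fun _ => ?_
  exact quadraticChar_one_iff_isSquare (Spinor.prod_ne_zero Q h.1)

/-- A nondegenerate subspace of dimension at least two takes every value. -/
theorem exists_norm_mem [Finite F] (h2 : (2 : F) ≠ 0) (C : Submodule F (ι → F))
    (hC : C ⊓ LinearMap.BilinForm.orthogonal (QuadraticMap.polarBilin Q) C = ⊥)
    (hd : 2 ≤ Module.finrank F C) (c : F) : ∃ v ∈ C, Q v = c := by
  classical
  have hnd : ∀ z ∈ C, z ≠ 0 → ∃ w ∈ C, QuadraticMap.polar (⇑Q) z w ≠ 0 := by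
    intro z hz hz0
    by_contra h
    simp only [not_exists, not_and, not_not] at h
    refine hz0 ((Submodule.eq_bot_iff _).1 hC z ⟨hz, LinearMap.BilinForm.mem_orthogonal_iff.2 fun y hy => ?_⟩)
    show QuadraticMap.polar (⇑Q) y z = 0
    rw [QuadraticMap.polar_comm]; exact h y hy
  by_cases hiso : ∃ z ∈ C, z ≠ 0 ∧ Q z = 0
  · obtain ⟨z, hz, hz0, hQz⟩ := hiso
    obtain ⟨w, hw, hzw⟩ := hnd z hz hz0
    refine ⟨w + ((c - Q w) / QuadraticMap.polar (⇑Q) w z) • z, C.add_mem hw (C.smul_mem _ hz), ?_⟩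
    rw [map_add_smul, hQz]
    rw [QuadraticMap.polar_comm] at hzw
    simp only [QuadraticMap.polar_comm (⇑Q) z w]
    field_simp
    ring
  · simp only [not_exists, not_and] at hiso
    have hne : C ≠ ⊥ := fun e => by rw [e, finrank_bot] at hd; omega
    obtain ⟨x, hx, hx0⟩ := Submodule.exists_mem_ne_zero_of_ne_bot hne
    have hQx := hiso x hx hx0
    let φ : C →ₗ[F] F := (QuadraticMap.polarBilin Q x).comp C.subtype
    have h1 := φ.finrank_range_add_finrank_ker
    have h3 : Module.finrank F (LinearMap.range φ) ≤ 1 := (Submodule.finrank_le _).trans (le_of_eq (Module.finrank_self F))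
    have h4 : LinearMap.ker φ ≠ ⊥ := fun e => by rw [e, finrank_bot] at h1; omega
    obtain ⟨y, hy, hy0⟩ := Submodule.exists_mem_ne_zero_of_ne_bot h4
    have hxy : QuadraticMap.polar (⇑Q) x y.1 = 0 := LinearMap.mem_ker.1 hy
    have hQy := hiso y.1 y.2 fun e => hy0 (Subtype.ext e)
    obtain ⟨s, t, hst⟩ := CfsgLib.Forms.Represent.exists_add_eq h2 hQx hQy c
    refine ⟨s • x + t • y.1, C.add_mem (C.smul_mem _ hx) (C.smul_mem _ y.2), ?_⟩
    rw [map_add_smul, QuadraticMap.map_smul, QuadraticMap.polar_smul_right, QuadraticMap.polar_comm, hxy, smul_eq_mul, smul_zero]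
    linear_combination hst

/-- Isometric subspaces are conjugate under the full group. -/
theorem exists_map_sub (hQ : (QuadraticMap.polarBilin Q).Nondegenerate) (U W : Submodule F (ι → F)) (e : U ≃ₗ[F] W)
    (he : ∀ u : U, Q (e u : ι → F) = Q (u : ι → F)) :
    ∃ g : Cfsg.isometryGroup F ⇑Q, U.map (Matrix.mulVecLin g.1.1) = W := by
  obtain ⟨g, hg, hgx⟩ := CfsgLib.Forms.WittQuad.extend Q hQ U W e he
  let G : Matrix.GeneralLinearGroup ι F := ⟨LinearMap.toMatrix' g.toLinearMap, LinearMap.toMatrix' g.symm.toLinearMap,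
    by rw [← LinearMap.toMatrix'_comp, g.comp_symm, LinearMap.toMatrix'_id],
    by rw [← LinearMap.toMatrix'_comp, g.symm_comp, LinearMap.toMatrix'_id]⟩
  refine ⟨⟨G, (mem_isometryGroup_iff _ _).2 fun x => by
    show Q (LinearMap.toMatrix' g.toLinearMap *ᵥ x) = Q x
    rw [LinearMap.toMatrix'_mulVec]; exact hg x⟩, ?_⟩
  refine le_antisymm ?_ fun w hw => ⟨(e.symm ⟨w, hw⟩).1, (e.symm ⟨w, hw⟩).2, ?_⟩
  · rintro _ ⟨u, hu, rfl⟩
    show LinearMap.toMatrix' g.toLinearMap *ᵥ u ∈ W
    rw [LinearMap.toMatrix'_mulVec, LinearEquiv.coe_coe, hgx ⟨u, hu⟩]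
    exact (e ⟨u, hu⟩).2
  · show LinearMap.toMatrix' g.toLinearMap *ᵥ (e.symm ⟨w, hw⟩).1 = w
    rw [LinearMap.toMatrix'_mulVec, LinearEquiv.coe_coe, hgx, LinearEquiv.apply_symm_apply]

/-- Isometries keeping a subspace. -/
def keep (Q : QuadraticForm F (ι → F)) (W : Submodule F (ι → F)) : Subgroup (Cfsg.isometryGroup F ⇑Q) where
  carrier := {g | W.map (Matrix.mulVecLin g.1.1) = W}
  mul_mem' {a b} ha hb := by
    show W.map (Matrix.mulVecLin (a * b).1.1) = W
    rw [Subgroup.coe_mul, Units.val_mul, Matrix.mulVecLin_mul, Submodule.map_comp, hb, ha]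
  one_mem' := by simp [Matrix.mulVecLin_one]
  inv_mem' {a} ha := by
    show W.map (Matrix.mulVecLin (a⁻¹).1.1) = W
    conv_lhs => rw [← ha]
    rw [← Submodule.map_comp, ← Matrix.mulVecLin_mul, ← Units.val_mul, ← Subgroup.coe_mul, inv_mul_cancel]
    simp [Matrix.mulVecLin_one]

theorem mem_keep_of (g : Cfsg.isometryGroup F ⇑Q) (W : Submodule F (ι → F)) (h : ∀ x ∈ W, g.1.1 *ᵥ x ∈ W) :
    g ∈ keep Q W := by
  refine Submodule.eq_of_le_of_finrank_eq ?_ ?_
  · rintro _ ⟨x, hx, rfl⟩; exact h x hx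
  · refine ((Submodule.equivMapOfInjective _ (fun x y hxy => ?_) W).finrank_eq).symm
    have e : ∀ z, (g⁻¹).1.1 *ᵥ (g.1.1 *ᵥ z) = z := fun z => by
      rw [Matrix.mulVec_mulVec, ← Units.val_mul, ← Subgroup.coe_mul, inv_mul_cancel]; simp
    rw [← e x, ← e y]
    exact congrArg _ hxy

theorem R_keep {a : ι → F} (ha : Q a ≠ 0) (W : Submodule F (ι → F))
    (h : a ∈ W ∨ ∀ x ∈ W, QuadraticMap.polar (⇑Q) a x = 0) : Reflections.R Q a ha ∈ keep Q W := by
  refine mem_keep_of _ W fun x hx => ?_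
  rw [Reflections.R_apply]
  rcases h with h | h
  · exact W.sub_mem hx (W.smul_mem _ h)
  · rw [h x hx, mul_zero, zero_smul, sub_zero]; exact hx

theorem map_eq_of_keep {U W : Submodule F (ι → F)} {g p : Cfsg.isometryGroup F ⇑Q}
    (hg : U.map (Matrix.mulVecLin g.1.1) = W) (hp : p ∈ keep Q W) : U.map (Matrix.mulVecLin (p * g).1.1) = W := by
  rw [Subgroup.coe_mul, Units.val_mul, Matrix.mulVecLin_mul, Submodule.map_comp, hg]; exact hp

/-- The involution negating `k` hyperbolic pairs. -/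
theorem neg_pairs_iff [Fintype F] [DecidableEq F] [Nontrivial ι] (hodd : Odd (Fintype.card F))
    (hQ : (QuadraticMap.polarBilin Q).Nondegenerate) (k : ℕ) (e f : Fin k → ι → F)
    (he : ∀ j, Q (e j) = 0) (hf : ∀ j, Q (f j) = 0)
    (hef : ∀ j l, QuadraticMap.polar (⇑Q) (e j) (f l) = if j = l then 1 else 0)
    (hee : ∀ j l, j ≠ l → QuadraticMap.polar (⇑Q) (e j) (e l) = 0)
    (hff : ∀ j l, j ≠ l → QuadraticMap.polar (⇑Q) (f j) (f l) = 0)
    (D : Matrix ι ι F) (hD : D * D = 1) (hiso : ∀ x, Q (D *ᵥ x) = Q x)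
    (hDe : ∀ j, D *ᵥ e j = -e j) (hDf : ∀ j, D *ᵥ f j = -f j)
    (hfix : ∀ x, (∀ j, QuadraticMap.polar (⇑Q) (e j) x = 0 ∧ QuadraticMap.polar (⇑Q) (f j) x = 0) → D *ᵥ x = x) :
    (∃ g : Cfsg.isometryGroup F ⇑Q, g ∈ Cfsg.Omega F ⇑Q ∧ g.1.1 = D) ↔ Fintype.card F ^ k % 4 = 1 := by
  have h2 : (2 : F) ≠ 0 := fun h => by
    haveI : CharP F 2 := CharTwo.of_one_ne_zero_of_two_eq_zero one_ne_zero h
    exact Nat.not_even_iff_odd.2 hodd (Nat.even_iff.2 (FiniteField.even_card_of_char_two (ringChar.eq F 2)))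
  let g0 : Cfsg.isometryGroup F ⇑Q := ⟨⟨D, D, hD, hD⟩, (mem_isometryGroup_iff _ _).2 hiso⟩
  let b : Fin k ⊕ Fin k → ι → F := fun s => Sum.elim (fun j => e j + (1 : F) • f j) (fun j => e j + (-1 : F) • f j) s
  have hQb : ∀ (t : F) j, Q (e j + t • f j) = t := fun t j => by
    rw [map_add_smul, he, hf, QuadraticMap.polar_comm, hef, if_pos rfl]; ring
  have hQb' : ∀ s, Q (b s) = Sum.elim (fun _ => (1 : F)) (fun _ => -1) s := fun s => by
    rcases s with j | j <;> exact hQb _ j
  have hfe : ∀ j l, QuadraticMap.polar (⇑Q) (f j) (e l) = if j = l then 1 else 0 := fun j l => by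
    rw [QuadraticMap.polar_comm, hef]; simp [eq_comm]
  have hse : ∀ j l, QuadraticMap.polar (⇑Q) (e j) (e l) = 0 := fun j l => by
    by_cases h : j = l
    · rw [h, QuadraticMap.polar_self, he, smul_zero]
    · exact hee j l h
  have hsf : ∀ j l, QuadraticMap.polar (⇑Q) (f j) (f l) = 0 := fun j l => by
    by_cases h : j = l
    · rw [h, QuadraticMap.polar_self, hf, smul_zero]
    · exact hff j l h
  have hp : Spinor.IsProd Q g0 ((Finset.univ : Finset (Fin k ⊕ Fin k)).toList.map b) := by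
    refine isProd_partial_neg b Finset.univ h2 (fun s _ => ?_) (fun s _ t _ hst => ?_) g0 (fun s _ => ?_) fun x hx => ?_
    · rw [hQb']; rcases s with j | j <;> simp
    · rcases s with j | j <;> rcases t with l | l <;>
        simp only [b, Sum.elim_inl, Sum.elim_inr, QuadraticMap.polar_add_left, QuadraticMap.polar_add_right,
          QuadraticMap.polar_smul_left, QuadraticMap.polar_smul_right, hef, hfe, hse, hsf, smul_eq_mul] <;>
        by_cases hjl : j = l <;> simp_all
    · show D *ᵥ b s = -b s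
      rcases s with j | j <;>
        simp only [b, Sum.elim_inl, Sum.elim_inr, Matrix.mulVec_add, Matrix.mulVec_smul, hDe, hDf] <;> module
    · refine hfix x fun j => ?_
      have h1 := hx (Sum.inl j) (Finset.mem_univ _)
      have h2' := hx (Sum.inr j) (Finset.mem_univ _)
      simp only [b, Sum.elim_inl, Sum.elim_inr, QuadraticMap.polar_add_left, QuadraticMap.polar_smul_left, smul_eq_mul] at h1 h2'
      have e1 : 2 * QuadraticMap.polar (⇑Q) (e j) x = 0 := by linear_combination h1 + h2'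
      have e2 : 2 * QuadraticMap.polar (⇑Q) (f j) x = 0 := by linear_combination h1 - h2'
      exact ⟨(mul_eq_zero.1 e1).resolve_left h2, (mul_eq_zero.1 e2).resolve_left h2⟩
  have key : g0 ∈ Cfsg.Omega F ⇑Q ↔ Fintype.card F ^ k % 4 = 1 := by
    rw [mem_omega_of_isProd h2 hQ hp, List.length_map, Finset.length_toList, Finset.card_univ, Fintype.card_sum,
      Fintype.card_fin, List.map_map, Finset.prod_map_toList, ← Spinor.char_neg_one_pow (F := F) k hodd,
      quadraticChar_one_iff_isSquare (pow_ne_zero k (neg_ne_zero.2 one_ne_zero))]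
    simp only [Function.comp_apply, hQb', Fintype.prod_sum_type, Sum.elim_inl, Sum.elim_inr, Finset.prod_const_one,
      one_mul, Finset.prod_const, Finset.card_univ, Fintype.card_fin]
    exact and_iff_right ⟨k, rfl⟩
  constructor
  · rintro ⟨g, hg, hgD⟩
    have : g = g0 := Subtype.ext (Units.ext hgD)
    exact key.1 (this ▸ hg)
  · exact fun h => ⟨g0, key.2 h, rfl⟩

end CfsgLib.Geometry.OmegaTools
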