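import Mathlib
import Cfsg.Prelude.Def_ClassicalGeometry
import Cfsg.Agent.Lib.Geometry.DicksonGen
import Cfsg.Agent.Lib.Geometry.OmegaIndex
import Cfsg.Agent.Lib.Geometry.OmegaTools

/-!
The parity of the residual rank, and the isometries of residual rank one.
-/

set_option autoImplicit false
open scoped Matrix

namespace CfsgLib.Geometry.RankParity

open CfsgLib.Geometry CfsgLib.Geometry.QuadBasic

variable {F : Type*} [Field F] {ι : Type} [Fintype ι] [DecidableEq ι] {Q : QuadraticForm F (ι → F)}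

theorem rk_eq_rank (g : Cfsg.isometryGroup F ⇑Q) : DicksonGen.rk g = (g.1.1 - 1).rank := by
  have e : DicksonGen.N g = (g.1.1 - 1).mulVecLin := LinearMap.ext fun x => by
    rw [DicksonGen.N_apply, Matrix.mulVecLin_apply, Matrix.sub_mulVec, Matrix.one_mulVec]
  rw [DicksonGen.rk, e]; rfl

theorem R_mul_self (v : ι → F) (hv : Q v ≠ 0) : Reflections.R Q v hv * Reflections.R Q v hv = 1 := by
  refine Subtype.ext (Units.ext (Matrix.toLin'.injective (LinearMap.ext fun x => ?_)))
  simp only [Subgroup.coe_mul, Units.val_mul, Matrix.toLin'_apply, ← Matrix.mulVec_mulVec, Reflections.R_apply,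
    OneMemClass.coe_one, Units.val_one, Matrix.one_mulVec, QuadraticMap.polar_sub_right,
    QuadraticMap.polar_smul_right, QuadraticMap.polar_self, smul_eq_mul]
  match_scalars <;> field_simp <;> ring

theorem R_inv (v : ι → F) (hv : Q v ≠ 0) : (Reflections.R Q v hv)⁻¹ = Reflections.R Q v hv :=
  inv_eq_of_mul_eq_one_right (R_mul_self v hv)

variable (hQ : (QuadraticMap.polarBilin Q).Nondegenerate)
include hQ

theorem dickson_eq (hex : (∃ c : F, c ≠ 0 ∧ c ≠ 1) ∨ Fintype.card ι ≠ 4)
    (D : Cfsg.isometryGroup F ⇑Q →* ℤˣ) (hD : ∀ v (hv : Q v ≠ 0), D (Reflections.R Q v hv) = -1)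
    (g : Cfsg.isometryGroup F ⇑Q) : D g = (-1) ^ DicksonGen.rk g := by
  have key : ∀ v (hv : Q v ≠ 0) (y : Cfsg.isometryGroup F ⇑Q), D y = (-1) ^ DicksonGen.rk y →
      D (Reflections.R Q v hv * y) = (-1) ^ DicksonGen.rk (Reflections.R Q v hv * y) := by
    intro v hv y ih
    rw [map_mul, hD, ih]
    by_cases h : v ∈ LinearMap.range (DicksonGen.N y)
    · rw [← DicksonGen.rk_down hQ y hv h, pow_succ, mul_neg_one, neg_one_mul, neg_neg]
    · rw [(DicksonGen.rk_up hQ y hv h).1, pow_succ, mul_neg_one, neg_one_mul]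
  have hg : g ∈ Subgroup.closure (Reflections.reflections Q) := by
    rw [DicksonGen.closure_eq_top hQ hex]; trivial
  induction hg using Subgroup.closure_induction_left with
  | one =>
    have : DicksonGen.rk (1 : Cfsg.isometryGroup F ⇑Q) = 0 := by
      rw [rk_eq_rank, show ((1 : Cfsg.isometryGroup F ⇑Q).1.1 - 1) = 0 from sub_self _, Matrix.rank_zero]
    rw [map_one, this, pow_zero]
  | mul_left x hx y _ ih =>
    obtain ⟨v, hv, hr⟩ := hx
    obtain rfl : x = Reflections.R Q v hv := Subtype.ext (Units.ext hr)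
    exact key v hv y ih
  | inv_mul_cancel x hx y _ ih =>
    obtain ⟨v, hv, hr⟩ := hx
    obtain rfl : x = Reflections.R Q v hv := Subtype.ext (Units.ext hr)
    rw [R_inv]
    exact key v hv y ih

theorem mem_omega_iff_rank [Finite F] [CharP F 2] [Nonempty ι] (hex : (∃ c : F, c ≠ 0 ∧ c ≠ 1) ∨ Fintype.card ι ≠ 4)
    (g : Cfsg.isometryGroup F ⇑Q) : g ∈ Cfsg.Omega F ⇑Q ↔ Even (g.1.1 - 1).rank := by
  classical
  haveI : Fintype F := Fintype.ofFinite F
  obtain ⟨D, hD⟩ := DicksonGen.exists_dickson hQ hex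
  rw [← rk_eq_rank, ← neg_one_pow_eq_one_iff_even (R := ℤˣ) (by decide), ← dickson_eq hQ hex D hD g]
  refine ⟨fun hg => (Abelianization.commutator_subset_ker D hg : g ∈ D.ker), fun hg => ?_⟩
  obtain ⟨a, ha⟩ := OmegaIndex.exists_aniso hQ
  rcases OmegaTools.adjust_two hQ hex g ha with h1 | h1
  · exact h1
  · have h2 : D (Reflections.R Q a ha * g) = 1 := Abelianization.commutator_subset_ker D h1
    rw [map_mul, hD, hg] at h2
    exact absurd h2 (by decide)

/-- An isometry of residual rank one is a reflection. -/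
theorem rank_one_iff (g : Cfsg.isometryGroup F ⇑Q) :
    (g.1.1 - 1).rank = 1 ↔ ∃ v, ∃ hv : Q v ≠ 0, g = Reflections.R Q v hv := by
  rw [← rk_eq_rank]
  constructor
  · intro h
    obtain ⟨v, hv, hQv⟩ : ∃ v ∈ LinearMap.range (DicksonGen.N g), Q v ≠ 0 := by
      by_contra hc
      simp only [not_exists, not_and, not_not] at hc
      have := DicksonGen.two_le_rk hQ g (by omega) hc
      omega
    refine ⟨v, hQv, ?_⟩
    have h0 := DicksonGen.rk_down hQ g hQv hv
    have h1 := DicksonGen.eq_one_of_rk hQ _ (show DicksonGen.rk (Reflections.R Q v hQv * g) = 0 by omega)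
    rw [← inv_eq_of_mul_eq_one_right h1, R_inv]
  · rintro ⟨v, hv, rfl⟩
    have h0 : DicksonGen.rk (1 : Cfsg.isometryGroup F ⇑Q) = 0 := by
      rw [rk_eq_rank, show ((1 : Cfsg.isometryGroup F ⇑Q).1.1 - 1) = 0 from sub_self _, Matrix.rank_zero]
    have hnot : v ∉ LinearMap.range (DicksonGen.N (1 : Cfsg.isometryGroup F ⇑Q)) := by
      intro h
      rw [Submodule.finrank_eq_zero.1 h0, Submodule.mem_bot] at h
      exact hv (by rw [h, QuadraticMap.map_zero])
    have := (DicksonGen.rk_up hQ 1 hv hnot).1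
    rwa [mul_one, h0] at this

end CfsgLib.Geometry.RankParity
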