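import Mathlib
import Cfsg.Prelude.Def_ClassicalGeometry
import Cfsg.Agent.Lib.Geometry.InvolutionFrame
import Cfsg.Agent.Lib.Geometry.RankParity
import Cfsg.Agent.Lib.Geometry.Spinor

/-!
Conjugacy of involutions in orthogonal groups in characteristic two.
-/

set_option autoImplicit false
open scoped Matrix

namespace CfsgLib.Geometry.InvolutionTwo

open CfsgLib.Geometry CfsgLib.Geometry.QuadBasic CfsgLib.Geometry.InvolutionFrame

variable {F : Type*} [Field F] {ι : Type} [Fintype ι] [DecidableEq ι] {Q : QuadraticForm F (ι → F)}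

/-- The involution is of alternating type. -/
def Alt (t : Cfsg.isometryGroup F ⇑Q) : Prop := ∀ x, QuadraticMap.polar (⇑Q) x (DicksonGen.N t x) = 0

theorem inv_of_sq [CharP F 2] {t : Cfsg.isometryGroup F ⇑Q} (ht : t * t = 1) : Inv Q (DicksonGen.N t) := by
  have hg : ∀ x, t.1.1 *ᵥ (t.1.1 *ᵥ x) = x := fun x => by
    rw [Matrix.mulVec_mulVec, ← Units.val_mul, ← Subgroup.coe_mul, ht]; simp
  have h2 : ∀ v : ι → F, v + v = 0 := fun v => vec_add_self (F := F) v
  refine ⟨fun x => ?_, fun x y => ?_, fun x => ?_⟩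
  · rw [DicksonGen.N_apply, DicksonGen.N_apply, Matrix.mulVec_sub, hg]
    linear_combination (norm := module) h2 x - h2 (t.1.1 *ᵥ x)
  · rw [DicksonGen.N_apply, DicksonGen.N_apply, QuadraticMap.polar_sub_left, QuadraticMap.polar_sub_right]
    have := Reflections.iso_polar t (t.1.1 *ᵥ x) y
    rw [hg] at this
    rw [this]
  · have h := (mem_isometryGroup_iff (⇑Q) t.1).1 t.2 x
    rw [DicksonGen.N_apply]
    set d := t.1.1 *ᵥ x - x with hd
    have e : t.1.1 *ᵥ x = x + d := by rw [hd]; abel
    rw [e] at h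
    simp only [QuadraticMap.polar]
    linear_combination h - CharTwo.add_self_eq_zero (Q (x + d)) + CharTwo.add_self_eq_zero (Q d) + CharTwo.add_self_eq_zero (Q x)

theorem eq_of_N {t s : Cfsg.isometryGroup F ⇑Q} (h : ∀ x, DicksonGen.N t x = DicksonGen.N s x) : t = s := by
  refine Subtype.ext (Units.ext (Matrix.toLin'.injective (LinearMap.ext fun x => ?_)))
  simpa [DicksonGen.N_apply] using h x

variable (hQ : (QuadraticMap.polarBilin Q).Nondegenerate)
include hQ

theorem two_rk_le [CharP F 2] {t : Cfsg.isometryGroup F ⇑Q} (ht : t * t = 1) : 2 * DicksonGen.rk t ≤ Fintype.card ι := by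
  have h := inv_of_sq ht
  have hle : LinearMap.range (DicksonGen.N t) ≤ LinearMap.ker (DicksonGen.N t) := fun a ha =>
    LinearMap.mem_ker.2 (h.kill ha)
  have h1 := Submodule.finrank_mono hle
  have h2 := (DicksonGen.N t).finrank_range_add_finrank_ker
  rw [Module.finrank_fintype_fun_eq_card] at h2
  simp only [DicksonGen.rk]
  omega

/-- Frames with the same data give conjugate involutions. -/
theorem conj_of_frames {κ : Type} [Fintype κ] {σ : κ → κ} {c : F} {t s : Cfsg.isometryGroup F ⇑Q}
    (hit : Inv Q (DicksonGen.N t)) (his : Inv Q (DicksonGen.N s))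
    {w w' : κ → ι → F} (hw : Frame Q (DicksonGen.N t) σ c w) (hw' : Frame Q (DicksonGen.N s) σ c w')
    (hct : DicksonGen.rk t = Fintype.card κ) (hcs : DicksonGen.rk s = Fintype.card κ) : IsConj t s := by
  classical
  have hli : ∀ {r : Cfsg.isometryGroup F ⇑Q} {u : κ → ι → F}, Frame Q (DicksonGen.N r) σ c u →
      DicksonGen.rk r = Fintype.card κ → LinearIndependent F u := by
    intro r u hu hr
    refine linearIndependent_iff_card_le_finrank_span.2 ?_
    rw [← hr]
    refine Submodule.finrank_mono ?_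
    rintro _ ⟨x, rfl⟩
    rw [hu.form]
    exact Submodule.sum_mem _ fun i _ => Submodule.smul_mem _ _ (Submodule.subset_span ⟨_, rfl⟩)
  have hQsum : ∀ {r : Cfsg.isometryGroup F ⇑Q} {u : κ → ι → F}, Inv Q (DicksonGen.N r) →
      Frame Q (DicksonGen.N r) σ c u → ∀ a : κ → F, Q (∑ i, a i • u i) = ∑ i, a i * a i * c := by
    intro r u hr hu a
    suffices H : ∀ T : Finset κ, Q (∑ i ∈ T, a i • u i) = ∑ i ∈ T, a i * a i * c ∧
        (∑ i ∈ T, a i • u i) ∈ LinearMap.range (DicksonGen.N r) from (H Finset.univ).1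
    intro T
    induction T using Finset.induction_on with
    | empty => simp
    | @insert j T hj ih =>
      refine ⟨?_, ?_⟩
      · rw [Finset.sum_insert hj, Finset.sum_insert hj]
        have : Q (a j • u j + ∑ i ∈ T, a i • u i) = Q (a j • u j) + Q (∑ i ∈ T, a i • u i)
            + QuadraticMap.polar (⇑Q) (a j • u j) (∑ i ∈ T, a i • u i) := by simp only [QuadraticMap.polar]; ring
        rw [this, QuadraticMap.map_smul, hu.norm, ih.1, hr.range_perp (Submodule.smul_mem _ _ (hu.mem j)) ih.2,
          smul_eq_mul, add_zero]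
      · rw [Finset.sum_insert hj]
        exact add_mem (Submodule.smul_mem _ _ (hu.mem j)) ih.2
  let b := Module.Basis.span (hli hw hct)
  let b' := Module.Basis.span (hli hw' hcs)
  let φ := b.equiv b' (Equiv.refl κ)
  have hφ : ∀ i, (φ (b i) : ι → F) = w' i := fun i => by
    rw [Module.Basis.equiv_apply, Equiv.refl_apply]
    exact congrArg _ rfl |>.trans (by simp [b', Module.Basis.span_apply])
  have hiso : ∀ x, Q (φ x : ι → F) = Q (x : ι → F) := by
    intro x
    obtain ⟨a, rfl⟩ : ∃ a : κ → F, x = ∑ i, a i • b i := ⟨fun i => b.repr x i, (b.sum_repr x).symm⟩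
    have hb : ∀ i, ((b i : Submodule.span F (Set.range w)) : ι → F) = w i := fun i => by
      simp [b, Module.Basis.span_apply]
    simp only [map_sum, map_smul, Submodule.coe_sum, Submodule.coe_smul, hφ, hb]
    rw [hQsum hit hw, hQsum his hw']
  obtain ⟨g, hg, hgx⟩ := CfsgLib.Forms.WittQuad.extend Q hQ _ _ φ hiso
  let G : Matrix.GeneralLinearGroup ι F := ⟨LinearMap.toMatrix' g.toLinearMap, LinearMap.toMatrix' g.symm.toLinearMap,
    by rw [← LinearMap.toMatrix'_comp, g.comp_symm, LinearMap.toMatrix'_id],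
    by rw [← LinearMap.toMatrix'_comp, g.symm_comp, LinearMap.toMatrix'_id]⟩
  let h : Cfsg.isometryGroup F ⇑Q := ⟨G, (mem_isometryGroup_iff _ _).2 fun x => by
    show Q (LinearMap.toMatrix' g.toLinearMap *ᵥ x) = Q x
    rw [LinearMap.toMatrix'_mulVec]; exact hg x⟩
  refine isConj_iff.2 ⟨h, ?_⟩
  rw [mul_inv_eq_iff_eq_mul]
  refine Subtype.ext (Units.ext (Matrix.toLin'.injective (LinearMap.ext fun x => ?_)))
  have hgi : ∀ i, g (w i) = w' i := fun i => by
    have := hgx (b i)
    rw [hφ] at this
    simpa [b, Module.Basis.span_apply] using this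
  have hh : ∀ y, h.1.1 *ᵥ y = g y := fun y => by
    show LinearMap.toMatrix' g.toLinearMap *ᵥ y = g y
    rw [LinearMap.toMatrix'_mulVec]; rfl
  have hpol : ∀ y z, QuadraticMap.polar (⇑Q) (g y) (g z) = QuadraticMap.polar (⇑Q) y z := fun y z => by
    simp only [QuadraticMap.polar, ← map_add, hg]
  simp only [Subgroup.coe_mul, Units.val_mul, Matrix.toLin'_apply, ← Matrix.mulVec_mulVec, hh]
  have et : t.1.1 *ᵥ x = DicksonGen.N t x + x := by rw [DicksonGen.N_apply]; abel
  have es : s.1.1 *ᵥ g x = DicksonGen.N s (g x) + g x := by rw [DicksonGen.N_apply]; abel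
  rw [et, es, map_add, hw.form, hw'.form, map_sum]
  congr 1
  refine Finset.sum_congr rfl fun i _ => ?_
  rw [map_smul, hgi, ← hgi i, hpol]

/-- Classification. -/
theorem isConj_iff' [Finite F] [CharP F 2] {t s : Cfsg.isometryGroup F ⇑Q} (ht : t * t = 1) (hs : s * s = 1)
    (hr : DicksonGen.rk t = DicksonGen.rk s) (ha : Alt t ↔ Alt s) : IsConj t s := by
  have hnd : ∀ a : ι → F, (∀ x, QuadraticMap.polar (⇑Q) a x = 0) → a = 0 := fun a h => hQ.1 a h
  by_cases h : Alt t
  · obtain ⟨k, hk, w, hw⟩ := (inv_of_sq ht).frame_two _ h hnd rfl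
    obtain ⟨k', hk', w', hw'⟩ := (inv_of_sq hs).frame_two _ (ha.1 h) hnd rfl
    simp only [DicksonGen.rk] at hr
    obtain rfl : k' = k := by omega
    exact conj_of_frames hQ (inv_of_sq ht) (inv_of_sq hs) hw hw' (by simp [DicksonGen.rk]; omega)
      (by simp [DicksonGen.rk]; omega)
  · have hx : ∀ {r : Cfsg.isometryGroup F ⇑Q}, ¬ Alt r → ∃ x, QuadraticMap.polar (⇑Q) x (DicksonGen.N r x) ≠ 0 :=
      fun hr => not_forall.1 hr
    obtain ⟨w, hw⟩ := (inv_of_sq ht).frame_one _ hnd rfl (Or.inr (hx h))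
    obtain ⟨w', hw'⟩ := (inv_of_sq hs).frame_one (DicksonGen.rk t) hnd hr.symm (Or.inr (hx (mt ha.2 h)))
    exact conj_of_frames hQ (inv_of_sq ht) (inv_of_sq hs) hw hw' (by simp [DicksonGen.rk])
      (by rw [← hr]; simp [DicksonGen.rk])

theorem even_of_alt [CharP F 2] {t : Cfsg.isometryGroup F ⇑Q} (ht : t * t = 1) (h : Alt t) : Even (DicksonGen.rk t) := by
  obtain ⟨k, hk, -⟩ := (inv_of_sq ht).frame_two _ h (fun a h => hQ.1 a h) rfl
  exact ⟨k, by simp only [DicksonGen.rk]; omega⟩

/-- A fixed anisotropic vector, unless the type is the exceptional one. -/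
theorem exists_fixed [CharP F 2] {t : Cfsg.isometryGroup F ⇑Q} (ht : t * t = 1)
    (h : ¬ (Alt t ∧ 2 * DicksonGen.rk t = Fintype.card ι ∧ ∀ x ∈ LinearMap.ker (DicksonGen.N t), Q x = 0)) :
    ∃ v, Q v ≠ 0 ∧ t.1.1 *ᵥ v = v := by
  by_contra hc
  simp only [not_exists, not_and] at hc
  have hk : ∀ x ∈ LinearMap.ker (DicksonGen.N t), Q x = 0 := fun x hx => by
    by_contra hne
    exact hc x hne ((DicksonGen.mem_ker t x).1 hx)
  have hi := inv_of_sq ht
  refine h ⟨fun x => ?_, ?_, hk⟩
  · rw [← hi.val]; exact hk _ (LinearMap.mem_ker.2 (hi.sq x))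
  · have hle : LinearMap.ker (DicksonGen.N t) ≤
        LinearMap.BilinForm.orthogonal (QuadraticMap.polarBilin Q) (LinearMap.ker (DicksonGen.N t)) := fun a ha => by
      rw [LinearMap.BilinForm.mem_orthogonal_iff]
      intro b hb
      show QuadraticMap.polar (⇑Q) b a = 0
      rw [QuadraticMap.polar, hk _ (add_mem hb ha), hk b hb, hk a ha]; ring
    rw [← DicksonGen.range_eq hQ] at hle
    have h1 := Submodule.finrank_mono hle
    have h2 := (DicksonGen.N t).finrank_range_add_finrank_ker
    have h3 := two_rk_le hQ ht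
    rw [Module.finrank_fintype_fun_eq_card] at h2
    simp only [DicksonGen.rk] at h3 ⊢
    omega

/-- An involution from an orthogonal family. -/
theorem exists_of_family [CharP F 2] {κ : Type} [Fintype κ] (σ : κ → κ) (hσ : Function.Involutive σ) (c : F)
    (w : κ → ι → F) (hli : LinearIndependent F w) (hperp : ∀ i j, QuadraticMap.polar (⇑Q) (w i) (w j) = 0)
    (hnorm : ∀ i, Q (w i) = c) (hval : ∀ a : κ → F, ∑ i, a i * a (σ i) = c * ∑ i, a i * a i) :
    ∃ t : Cfsg.isometryGroup F ⇑Q, t * t = 1 ∧ DicksonGen.rk t = Fintype.card κ ∧ (Alt t ↔ c = 0 ∨ IsEmpty κ) := by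
  classical
  let L : (ι → F) →ₗ[F] (ι → F) := ∑ i, (QuadraticMap.polarBilin Q (w i)).smulRight (w (σ i))
  have hL : ∀ x, L x = ∑ i, QuadraticMap.polar (⇑Q) (w i) x • w (σ i) := fun x => by simp [L]
  have hzero : ∀ (a : κ → F) (j : κ), QuadraticMap.polar (⇑Q) (w j) (∑ i, a i • w (σ i)) = 0 := fun a j => by
    show QuadraticMap.polarBilin Q (w j) _ = 0
    simp only [map_sum, map_smul, QuadraticMap.polarBilin_apply_apply, hperp, smul_zero, Finset.sum_const_zero]
  have hsq : ∀ x, L (L x) = 0 := fun x => by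
    rw [hL, Finset.sum_eq_zero]
    intro j _
    rw [hL, hzero, zero_smul]
  have hQL : ∀ a : κ → F, Q (∑ i, a i • w (σ i)) = c * ∑ i, a i * a i := by
    intro a
    suffices H : ∀ T : Finset κ, Q (∑ i ∈ T, a i • w (σ i)) = c * ∑ i ∈ T, a i * a i from H _
    intro T
    induction T using Finset.induction_on with
    | empty => simp
    | @insert j T hj ih =>
      rw [Finset.sum_insert hj, Finset.sum_insert hj]
      have h1 : QuadraticMap.polar (⇑Q) (a j • w (σ j)) (∑ i ∈ T, a i • w (σ i)) = 0 := by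
        show QuadraticMap.polarBilin Q _ _ = 0
        simp only [map_sum, map_smul, LinearMap.smul_apply, QuadraticMap.polarBilin_apply_apply, hperp, smul_zero, Finset.sum_const_zero]
      have : Q (a j • w (σ j) + ∑ i ∈ T, a i • w (σ i)) = Q (a j • w (σ j)) + Q (∑ i ∈ T, a i • w (σ i))
          + QuadraticMap.polar (⇑Q) (a j • w (σ j)) (∑ i ∈ T, a i • w (σ i)) := by simp only [QuadraticMap.polar]; ring
      rw [this, h1, QuadraticMap.map_smul, hnorm, ih, smul_eq_mul]
      ring
  have hpx : ∀ x, QuadraticMap.polar (⇑Q) x (L x) = c * ∑ i, QuadraticMap.polar (⇑Q) (w i) x * QuadraticMap.polar (⇑Q) (w i) x := by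
    intro x
    rw [hL, ← hval fun i => QuadraticMap.polar (⇑Q) (w i) x]
    show QuadraticMap.polarBilin Q x _ = _
    simp only [map_sum, map_smul, QuadraticMap.polarBilin_apply_apply, smul_eq_mul, QuadraticMap.polar_comm (⇑Q) x]
  have hiso : ∀ x, Q (x + L x) = Q x := fun x => by
    have : Q (x + L x) = Q x + Q (L x) + QuadraticMap.polar (⇑Q) x (L x) := by simp only [QuadraticMap.polar]; ring
    rw [this, hpx, hL, hQL, add_assoc, CharTwo.add_self_eq_zero, add_zero]
  have hinv : (1 + LinearMap.toMatrix' L) * (1 + LinearMap.toMatrix' L) = 1 := by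
    refine Matrix.toLin'.injective (LinearMap.ext fun x => ?_)
    simp only [Matrix.toLin'_apply, ← Matrix.mulVec_mulVec, Matrix.add_mulVec, Matrix.one_mulVec,
      LinearMap.toMatrix'_mulVec, map_add, hsq, add_zero]
    rw [add_assoc, vec_add_self (F := F), add_zero]
  let G : Matrix.GeneralLinearGroup ι F := ⟨1 + LinearMap.toMatrix' L, 1 + LinearMap.toMatrix' L, hinv, hinv⟩
  let t : Cfsg.isometryGroup F ⇑Q := ⟨G, (mem_isometryGroup_iff _ _).2 fun x => by
    show Q ((1 + LinearMap.toMatrix' L) *ᵥ x) = Q x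
    rw [Matrix.add_mulVec, Matrix.one_mulVec, LinearMap.toMatrix'_mulVec, hiso]⟩
  have hN : DicksonGen.N t = L := LinearMap.ext fun x => by
    rw [DicksonGen.N_apply]
    show (1 + LinearMap.toMatrix' L) *ᵥ x - x = L x
    rw [Matrix.add_mulVec, Matrix.one_mulVec, LinearMap.toMatrix'_mulVec, add_sub_cancel_left]
  have hker : LinearMap.ker L = LinearMap.BilinForm.orthogonal (QuadraticMap.polarBilin Q) (Submodule.span F (Set.range w)) := by
    ext x
    rw [LinearMap.mem_ker, LinearMap.BilinForm.mem_orthogonal_iff]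
    constructor
    · intro hx n hn
      have h0 := Fintype.linearIndependent_iff.1 (hli.comp σ hσ.injective)
        (fun i => QuadraticMap.polar (⇑Q) (w i) x) (by rw [← hx, hL]; rfl)
      induction hn using Submodule.span_induction with
      | mem y hy => obtain ⟨i, rfl⟩ := hy; exact h0 i
      | zero => show QuadraticMap.polar (⇑Q) 0 x = 0; simp
      | add y z _ _ hy hz =>
        show QuadraticMap.polar (⇑Q) (y + z) x = 0
        rw [QuadraticMap.polar_add_left, show QuadraticMap.polar (⇑Q) y x = 0 from hy,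
          show QuadraticMap.polar (⇑Q) z x = 0 from hz, add_zero]
      | smul r y _ hy =>
        show QuadraticMap.polar (⇑Q) (r • y) x = 0
        rw [QuadraticMap.polar_smul_left, show QuadraticMap.polar (⇑Q) y x = 0 from hy, smul_zero]
    · intro hx
      rw [hL, Finset.sum_eq_zero]
      intro i _
      rw [show QuadraticMap.polar (⇑Q) (w i) x = 0 from hx _ (Submodule.subset_span ⟨i, rfl⟩), zero_smul]
  have hrk : DicksonGen.rk t = Fintype.card κ := by
    have h1 := L.finrank_range_add_finrank_ker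
    have h2 : Module.finrank F (Submodule.span F (Set.range w)) = Fintype.card κ := finrank_span_eq_card hli
    have h3 := Submodule.finrank_le (Submodule.span F (Set.range w))
    rw [hker, LinearMap.BilinForm.finrank_orthogonal hQ] at h1
    rw [DicksonGen.rk, hN]
    omega
  refine ⟨t, Subtype.ext (Units.ext hinv), hrk, ⟨fun h => ?_, fun h x => ?_⟩⟩
  · by_contra hc
    simp only [not_or, not_isEmpty_iff] at hc
    obtain ⟨hc0, ⟨j⟩⟩ := hc
    apply hc0
    -- the form is a square of a linear one on the range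
    let φ : (ι → F) →ₗ[F] (κ → F) := LinearMap.pi fun i => QuadraticMap.polarBilin Q (w i)
    have hsurj : LinearMap.range φ = ⊤ := by
      refine Submodule.eq_top_of_finrank_eq ?_
      have hk : LinearMap.ker φ = LinearMap.ker L := by
        rw [hker]; ext x
        rw [LinearMap.mem_ker, LinearMap.BilinForm.mem_orthogonal_iff]
        refine ⟨fun hx n hn => ?_, fun hx => funext fun i => hx _ (Submodule.subset_span ⟨i, rfl⟩)⟩
        induction hn using Submodule.span_induction with
        | mem y hy => obtain ⟨i, rfl⟩ := hy; exact congrFun hx i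
        | zero => show QuadraticMap.polar (⇑Q) 0 x = 0; simp
        | add y z _ _ hy hz =>
          show QuadraticMap.polar (⇑Q) (y + z) x = 0
          rw [QuadraticMap.polar_add_left, show QuadraticMap.polar (⇑Q) y x = 0 from hy,
            show QuadraticMap.polar (⇑Q) z x = 0 from hz, add_zero]
        | smul r y _ hy =>
          show QuadraticMap.polar (⇑Q) (r • y) x = 0
          rw [QuadraticMap.polar_smul_left, show QuadraticMap.polar (⇑Q) y x = 0 from hy, smul_zero]
      have h1 := φ.finrank_range_add_finrank_ker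
      have h2 := L.finrank_range_add_finrank_ker
      rw [hk] at h1
      rw [DicksonGen.rk, hN] at hrk
      rw [Module.finrank_fintype_fun_eq_card]
      omega
    obtain ⟨x, hx⟩ := LinearMap.range_eq_top.1 hsurj (Pi.single j 1)
    have h0 := h x
    have hxi : ∀ i, QuadraticMap.polar (⇑Q) (w i) x = if i = j then 1 else 0 := fun i => by
      have := congrFun hx i
      simpa [φ, Pi.single_apply] using this
    rw [hN, hpx] at h0
    simpa [hxi] using h0
  · rw [hN, hpx]
    rcases h with h | h
    · rw [h, zero_mul]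
    · simp

end CfsgLib.Geometry.InvolutionTwo
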