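import Mathlib
import Cfsg.Prelude.Def_ClassicalGeometry
import Cfsg.Agent.Lib.Geometry.OmegaTools

/-!
The two families of maximal totally singular subspaces and the sign of an isometry.
-/

set_option autoImplicit false
open scoped Matrix

namespace CfsgLib.Geometry.SingularClass

open CfsgLib.Geometry CfsgLib.Geometry.QuadBasic

variable {F : Type*} [Field F] {ι : Type} [Fintype ι] [DecidableEq ι] {Q : QuadraticForm F (ι → F)}

/-- The image of a subspace. -/
noncomputable def im (g : Cfsg.isometryGroup F ⇑Q) (U : Submodule F (ι → F)) : Submodule F (ι → F) :=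
  U.map (Matrix.mulVecLin g.1.1)

theorem im_mul (g h : Cfsg.isometryGroup F ⇑Q) (U : Submodule F (ι → F)) : im (g * h) U = im g (im h U) := by
  rw [im, im, im, Subgroup.coe_mul, Units.val_mul, Matrix.mulVecLin_mul, Submodule.map_comp]

theorem im_one (U : Submodule F (ι → F)) : im (1 : Cfsg.isometryGroup F ⇑Q) U = U := by simp [im]

theorem finrank_im (g : Cfsg.isometryGroup F ⇑Q) (U : Submodule F (ι → F)) :
    Module.finrank F (im g U) = Module.finrank F U := by
  refine ((Submodule.equivMapOfInjective _ (fun x y hxy => ?_) U).finrank_eq).symm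
  have e : ∀ z, (g⁻¹).1.1 *ᵥ (g.1.1 *ᵥ z) = z := fun z => by
    rw [Matrix.mulVec_mulVec, ← Units.val_mul, ← Subgroup.coe_mul, inv_mul_cancel]; simp
  rw [← e x, ← e y]
  exact congrArg _ hxy

theorem singular_im (g : Cfsg.isometryGroup F ⇑Q) {U : Submodule F (ι → F)} (h : ∀ x ∈ U, Q x = 0) :
    ∀ x ∈ im g U, Q x = 0 := by
  rintro _ ⟨x, hx, rfl⟩
  show Q (g.1.1 *ᵥ x) = 0
  rw [(mem_isometryGroup_iff (⇑Q) g.1).1 g.2, h x hx]

variable (hQ : (QuadraticMap.polarBilin Q).Nondegenerate)
include hQ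

/-- A reflection changes the intersection with a maximal totally singular subspace by one. -/
theorem flip (U W : Submodule F (ι → F)) (hU : 2 * Module.finrank F U = Fintype.card ι)
    (hW : 2 * Module.finrank F W = Fintype.card ι) (hU0 : ∀ x ∈ U, Q x = 0) (hW0 : ∀ x ∈ W, Q x = 0)
    {v : ι → F} (hv : Q v ≠ 0) :
    Module.finrank F ↥(U ⊓ im (Reflections.R Q v hv) W) = Module.finrank F ↥(U ⊓ W) + 1 ∨
    Module.finrank F ↥(U ⊓ W) = Module.finrank F ↥(U ⊓ im (Reflections.R Q v hv) W) + 1 := by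
  set B := QuadraticMap.polarBilin Q with hB
  set W' := im (Reflections.R Q v hv) W with hW'
  have hpp : ∀ (A : Submodule F (ι → F)), (∀ x ∈ A, Q x = 0) → ∀ x ∈ A, ∀ y ∈ A, QuadraticMap.polar (⇑Q) x y = 0 :=
    fun A hA x hx y hy => by rw [QuadraticMap.polar, hA _ (A.add_mem hx hy), hA x hx, hA y hy]; ring
  set W0 := W ⊓ LinearMap.ker (B v) with hW0d
  -- v is not orthogonal to W
  obtain ⟨w, hw, hvw⟩ : ∃ w ∈ W, QuadraticMap.polar (⇑Q) v w ≠ 0 := by
    by_contra hc
    simp only [not_exists, not_and, not_not] at hc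
    have hle : W ≤ LinearMap.BilinForm.orthogonal B W := fun x hx => by
      rw [LinearMap.BilinForm.mem_orthogonal_iff]; intro y hy; exact hpp W hW0 y hy x hx
    have heq : W = LinearMap.BilinForm.orthogonal B W := by
      refine Submodule.eq_of_le_of_finrank_le hle ?_
      rw [LinearMap.BilinForm.finrank_orthogonal hQ, Module.finrank_fintype_fun_eq_card]; omega
    have hm : v ∈ W := by
      rw [heq, LinearMap.BilinForm.mem_orthogonal_iff]
      intro y hy
      show QuadraticMap.polar (⇑Q) y v = 0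
      rw [QuadraticMap.polar_comm]; exact hc y hy
    exact hv (hW0 v hm)
  have hwn : w ∉ W0 := fun h => hvw (LinearMap.mem_ker.1 h.2)
  -- the common hyperplane
  have hsplitW : ∀ x ∈ W, ∃ x0 ∈ W0, ∃ c : F, x = x0 + c • w := fun x hx =>
    ⟨x - (QuadraticMap.polar (⇑Q) v x / QuadraticMap.polar (⇑Q) v w) • w,
      ⟨W.sub_mem hx (W.smul_mem _ hw), LinearMap.mem_ker.2 (by
        show B v (x - _ • w) = 0
        rw [map_sub, map_smul, hB, QuadraticMap.polarBilin_apply_apply, QuadraticMap.polarBilin_apply_apply, smul_eq_mul,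
          div_mul_cancel₀ _ hvw, sub_self])⟩, _, (sub_add_cancel _ _).symm⟩
  have hfixW0 : ∀ x ∈ W0, (Reflections.R Q v hv).1.1 *ᵥ x = x := fun x hx =>
    Reflections.R_fix v hv (LinearMap.mem_ker.1 hx.2)
  set w' := (Reflections.R Q v hv).1.1 *ᵥ w with hw'
  have hw'W : w' ∈ W' := ⟨w, hw, rfl⟩
  have hsplitW' : ∀ x ∈ W', ∃ x0 ∈ W0, ∃ c : F, x = x0 + c • w' := by
    rintro _ ⟨x, hx, rfl⟩
    obtain ⟨x0, hx0, c, rfl⟩ := hsplitW x hx
    refine ⟨x0, hx0, c, ?_⟩
    show (Reflections.R Q v hv).1.1 *ᵥ _ = _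
    rw [Matrix.mulVec_add, Matrix.mulVec_smul, hfixW0 x0 hx0]
  have hW0W' : W0 ≤ W' := fun x hx => ⟨x, hx.1, hfixW0 x hx⟩
  have hW'0 : ∀ x ∈ W', Q x = 0 := singular_im _ hW0
  have hw'eq : w' = w - ((Q v)⁻¹ * QuadraticMap.polar (⇑Q) v w) • v := Reflections.R_apply v hv w
  set γ := (Q v)⁻¹ * QuadraticMap.polar (⇑Q) v w with hγ
  have hγ0 : γ ≠ 0 := mul_ne_zero (inv_ne_zero hv) hvw
  -- vectors orthogonal to the hyperplane
  set P := LinearMap.BilinForm.orthogonal B W0 with hP
  have hWP : W ≤ P := fun x hx => by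
    rw [hP, LinearMap.BilinForm.mem_orthogonal_iff]; intro y hy; exact hpp W hW0 y hy.1 x hx
  have hW'P : W' ≤ P := fun x hx => by
    rw [hP, LinearMap.BilinForm.mem_orthogonal_iff]; intro y hy; exact hpp W' hW'0 y (hW0W' hy) x hx
  have hdW0 : Module.finrank F W0 + 1 = Module.finrank F W := by
    have hWeq : W = W0 ⊔ Submodule.span F {w} := by
      refine le_antisymm (fun x hx => ?_) (sup_le inf_le_left ((Submodule.span_singleton_le_iff_mem _ _).2 hw))
      obtain ⟨x0, hx0, c, rfl⟩ := hsplitW x hx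
      exact Submodule.add_mem_sup hx0 (Submodule.smul_mem _ _ (Submodule.mem_span_singleton_self w))
    conv_rhs => rw [hWeq]
    exact (Submodule.finrank_sup_span_singleton hwn).symm
  have hv_notW : v ∉ W := fun h => hv (hW0 v h)
  have hPeq : P = W ⊔ Submodule.span F {v} := by
    refine (Submodule.eq_of_le_of_finrank_le (sup_le hWP ((Submodule.span_singleton_le_iff_mem _ _).2 ?_)) ?_).symm
    · rw [hP, LinearMap.BilinForm.mem_orthogonal_iff]
      intro y hy
      show QuadraticMap.polar (⇑Q) y v = 0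
      rw [QuadraticMap.polar_comm]; exact LinearMap.mem_ker.1 hy.2
    · rw [Submodule.finrank_sup_span_singleton hv_notW, hP, LinearMap.BilinForm.finrank_orthogonal hQ,
        Module.finrank_fintype_fun_eq_card]
      omega
  -- the singular vectors of the quotient plane
  have hor : U ⊓ P ≤ W ∨ U ⊓ P ≤ W' := by
    by_contra hc
    rw [not_or] at hc
    obtain ⟨⟨x, hx, hxW⟩, ⟨y, hy, hyW'⟩⟩ := SetLike.not_le_iff_exists.1 hc.1, SetLike.not_le_iff_exists.1 hc.2
    have form : ∀ z ∈ U ⊓ P, ∃ z0 ∈ W0, ∃ a b : F, z = z0 + a • w + b • v ∧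
        b * (b * Q v + a * QuadraticMap.polar (⇑Q) v w) = 0 := by
      intro z hz
      have hzP : z ∈ W ⊔ Submodule.span F {v} := by rw [← hPeq]; exact hz.2
      obtain ⟨z1, hz1, z2, hz2, rfl⟩ := Submodule.mem_sup.1 hzP
      obtain ⟨b, rfl⟩ := Submodule.mem_span_singleton.1 hz2
      obtain ⟨z0, hz0, a, rfl⟩ := hsplitW z1 hz1
      refine ⟨z0, hz0, a, b, rfl, ?_⟩
      have h0 := hU0 _ hz.1
      rw [map_add_smul, hW0 _ hz1, QuadraticMap.polar_add_right, QuadraticMap.polar_smul_right,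
        show QuadraticMap.polar (⇑Q) v z0 = 0 from LinearMap.mem_ker.1 hz0.2, smul_eq_mul] at h0
      linear_combination h0
    have hW'mem : ∀ (z0 : ι → F) (a b : F), z0 ∈ W0 → b * Q v + a * QuadraticMap.polar (⇑Q) v w = 0 →
        z0 + a • w + b • v ∈ W' := fun z0 a b hz0 h => by
      have hb : b = -(a * γ) := by
        rw [hγ]; field_simp; linear_combination h
      rw [show z0 + a • w + b • v = z0 + a • w' by rw [hw'eq, hb]; module]
      exact W'.add_mem (hW0W' hz0) (W'.smul_mem _ hw'W)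
    obtain ⟨x0, hx0, a, b, rfl, hb⟩ := form x hx
    obtain ⟨y0, hy0, c, d, rfl, hd⟩ := form y hy
    have hb0 : b ≠ 0 := fun e => hxW (by rw [e, zero_smul, add_zero]; exact W.add_mem hx0.1 (W.smul_mem _ hw))
    have hbrel := (mul_eq_zero.1 hb).resolve_left hb0
    have hd0 : d = 0 := by
      by_contra hd0
      exact hyW' (hW'mem y0 c d hy0 ((mul_eq_zero.1 hd).resolve_left hd0))
    subst hd0
    obtain ⟨z0, hz0, e, f, hz, hf⟩ := form _ (add_mem hx hy)
    have h0 := hU0 _ (add_mem hx.1 hy.1)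
    rw [show x0 + a • w + b • v + (y0 + c • w + (0 : F) • v) = ((x0 + y0) + (a + c) • w) + b • v by module,
      map_add_smul, hW0 _ (W.add_mem (W.add_mem hx0.1 hy0.1) (W.smul_mem _ hw)), QuadraticMap.polar_add_right,
      QuadraticMap.polar_smul_right, QuadraticMap.polar_add_right,
      show QuadraticMap.polar (⇑Q) v x0 = 0 from LinearMap.mem_ker.1 hx0.2,
      show QuadraticMap.polar (⇑Q) v y0 = 0 from LinearMap.mem_ker.1 hy0.2, smul_eq_mul] at h0
    have hc0 : c = 0 := by
      have : b * (c * QuadraticMap.polar (⇑Q) v w) = 0 := by linear_combination h0 - b * hbrel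
      exact (mul_eq_zero.1 ((mul_eq_zero.1 this).resolve_left hb0)).resolve_right hvw
    exact hyW' (by rw [hc0, zero_smul, zero_smul, add_zero, add_zero]; exact hW0W' hy0)
  -- dimensions
  have hUperp : U = LinearMap.BilinForm.orthogonal B U := by
    refine Submodule.eq_of_le_of_finrank_le (fun x hx => ?_) ?_
    · rw [LinearMap.BilinForm.mem_orthogonal_iff]; intro y hy; exact hpp U hU0 y hy x hx
    · rw [LinearMap.BilinForm.finrank_orthogonal hQ, Module.finrank_fintype_fun_eq_card]; omega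
  have hUP : U ⊓ P = LinearMap.BilinForm.orthogonal B (U ⊔ W0) := by
    refine le_antisymm (fun x hx => ?_) (fun x hx => ⟨?_, ?_⟩)
    · rw [LinearMap.BilinForm.mem_orthogonal_iff]
      intro y hy
      obtain ⟨y1, hy1, y2, hy2, rfl⟩ := Submodule.mem_sup.1 hy
      show B (y1 + y2) x = 0
      rw [map_add, LinearMap.add_apply, show B y1 x = 0 from hpp U hU0 y1 hy1 x hx.1,
        show B y2 x = 0 from LinearMap.BilinForm.mem_orthogonal_iff.1 hx.2 y2 hy2, add_zero]
    · rw [hUperp]; exact LinearMap.BilinForm.orthogonal_le le_sup_left hx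
    · exact LinearMap.BilinForm.orthogonal_le le_sup_right hx
  have hdUP : Module.finrank F ↥(U ⊓ P) = Module.finrank F ↥(U ⊓ W0) + 1 := by
    rw [hUP, LinearMap.BilinForm.finrank_orthogonal hQ, Module.finrank_fintype_fun_eq_card]
    have := Submodule.finrank_sup_add_finrank_inf_eq U W0
    have := Submodule.finrank_le (U ⊔ W0)
    rw [Module.finrank_fintype_fun_eq_card] at this
    omega
  have hboth : ∀ x, x ∈ W → x ∈ W' → x ∈ W0 := by
    intro x hx hx'
    obtain ⟨x0, hx0, a, rfl⟩ := hsplitW x hx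
    obtain ⟨y0, hy0, b, he⟩ := hsplitW' _ hx'
    have hb : (b * γ) • v = y0 - x0 + (b - a) • w := by
      rw [hw'eq] at he
      linear_combination (norm := module) he
    have hb0 : b * γ = 0 := by
      by_contra hne
      apply hv_notW
      have : v = (b * γ)⁻¹ • (y0 - x0 + (b - a) • w) := by rw [← hb, inv_smul_smul₀ hne]
      rw [this]
      exact W.smul_mem _ (W.add_mem (W.sub_mem hy0.1 hx0.1) (W.smul_mem _ hw))
    rw [he, (mul_eq_zero.1 hb0).resolve_right hγ0, zero_smul, add_zero]; exact hy0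
  rcases hor with h | h
  · refine Or.inr ?_
    have e1 : U ⊓ W = U ⊓ P := le_antisymm (inf_le_inf_left _ hWP) (le_inf inf_le_left h)
    have e2 : U ⊓ W' = U ⊓ W0 := le_antisymm
      (fun x hx => ⟨hx.1, hboth x (h ⟨hx.1, hW'P hx.2⟩) hx.2⟩) (inf_le_inf_left _ hW0W')
    rw [e1, e2, hdUP]
  · refine Or.inl ?_
    have e1 : U ⊓ W' = U ⊓ P := le_antisymm (inf_le_inf_left _ hW'P) (le_inf inf_le_left h)
    have e2 : U ⊓ W = U ⊓ W0 := le_antisymm
      (fun x hx => ⟨hx.1, hboth x hx.2 (h ⟨hx.1, hWP hx.2⟩)⟩) (inf_le_inf_left _ inf_le_left)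
    rw [e1, e2, hdUP]

/-- The sign of an isometry seen on one maximal totally singular subspace. -/
theorem sign_eq (hex : (∃ c : F, c ≠ 0 ∧ c ≠ 1) ∨ Fintype.card ι ≠ 4) (D : Cfsg.isometryGroup F ⇑Q →* ℤˣ)
    (hD : ∀ v (hv : Q v ≠ 0), D (Reflections.R Q v hv) = -1) (g : Cfsg.isometryGroup F ⇑Q)
    (U : Submodule F (ι → F)) (hU : 2 * Module.finrank F U = Fintype.card ι) (hU0 : ∀ x ∈ U, Q x = 0) :
    D g = (-1) ^ (Module.finrank F U - Module.finrank F ↥(U ⊓ im g U)) := by
  classical
  have hg : g ∈ Subgroup.closure (Reflections.reflections Q) := by rw [DicksonGen.closure_eq_top hQ hex]; trivial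
  have step : ∀ r ∈ Reflections.reflections Q, ∀ z,
      D z = (-1) ^ (Module.finrank F U - Module.finrank F ↥(U ⊓ im z U)) →
      D (r * z) = (-1) ^ (Module.finrank F U - Module.finrank F ↥(U ⊓ im (r * z) U)) := by
    rintro r ⟨v, hv, hr⟩ z ih
    obtain rfl : r = Reflections.R Q v hv := Subtype.ext (Units.ext hr)
    have hd := flip hQ U (im z U) hU (by rw [finrank_im]; exact hU) hU0 (singular_im _ hU0) hv
    have h1 := Submodule.finrank_mono (inf_le_left : U ⊓ im z U ≤ U)
    have h2 := Submodule.finrank_mono (inf_le_left : U ⊓ im (Reflections.R Q v hv) (im z U) ≤ U)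
    rw [map_mul, hD, ih, im_mul]
    rcases hd with h | h
    · rw [show Module.finrank F U - Module.finrank F ↥(U ⊓ im z U)
        = (Module.finrank F U - Module.finrank F ↥(U ⊓ im (Reflections.R Q v hv) (im z U))) + 1 by omega, pow_succ]
      simp
    · rw [show Module.finrank F U - Module.finrank F ↥(U ⊓ im (Reflections.R Q v hv) (im z U))
        = (Module.finrank F U - Module.finrank F ↥(U ⊓ im z U)) + 1 by omega, pow_succ]
      simp
  induction hg using Subgroup.closure_induction_left with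
  | one => rw [map_one, im_one, inf_idem, Nat.sub_self, pow_zero]
  | mul_left r hr z _ ih => exact step r hr z ih
  | inv_mul_cancel r hr z _ ih =>
    obtain ⟨v, hv, hr'⟩ := hr
    have hrr : r⁻¹ = r := by
      refine inv_eq_of_mul_eq_one_right (Subtype.ext (Units.ext (Matrix.toLin'.injective (LinearMap.ext fun x => ?_))))
      simp only [Subgroup.coe_mul, Units.val_mul, hr', Matrix.toLin'_apply, ← Matrix.mulVec_mulVec,
        reflection_mulVec, OneMemClass.coe_one, Units.val_one, Matrix.one_mulVec]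
      exact Spinor.refl_refl Q hv x
    rw [hrr]; exact step r ⟨v, hv, hr'⟩ z ih

omit hQ in
theorem neg_one_pow_units (k : ℕ) : ((-1 : ℤˣ) ^ k = 1) ↔ Even k := by
  rcases Nat.even_or_odd k with h | h
  · simp [h, h.neg_one_pow]
  · simp [h.neg_one_pow, Nat.not_even_iff_odd.2 h]

end CfsgLib.Geometry.SingularClass
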