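import Mathlib
import Cfsg.Prelude.Def_ClassicalGeometry
import Cfsg.Agent.Lib.Geometry.InvolutionTwo
import Cfsg.Agent.Lib.Geometry.SingularClass

/-!
Counting classes of involutions in orthogonal groups in characteristic two.
-/

set_option autoImplicit false
open scoped Matrix

namespace CfsgLib.Geometry.InvolutionCount

open CfsgLib.Geometry CfsgLib.Geometry.QuadBasic CfsgLib.Geometry.InvolutionTwo

theorem card_classes {G : Type*} [Group G] {I : Type*} (f : I → G) (hf : ∀ i, orderOf (f i) = 2)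
    (inj : ∀ i j, IsConj (f i) (f j) → i = j) (surj : ∀ g : G, orderOf g = 2 → ∃ i, IsConj (f i) g) :
    Nat.card {C : ConjClasses G // ∃ g : G, ConjClasses.mk g = C ∧ orderOf g = 2} = Nat.card I := by
  refine (Nat.card_congr (Equiv.ofBijective (fun i => ⟨ConjClasses.mk (f i), f i, rfl, hf i⟩) ⟨fun i j h => ?_, ?_⟩)).symm
  · exact inj i j (ConjClasses.mk_eq_mk_iff_isConj.1 (congrArg Subtype.val h))
  · rintro ⟨C, g, rfl, hg⟩
    obtain ⟨i, hi⟩ := surj g hg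
    exact ⟨i, Subtype.ext (ConjClasses.mk_eq_mk_iff_isConj.2 hi)⟩

variable {F : Type*} [Field F] {ι : Type} [Fintype ι] [DecidableEq ι] {Q : QuadraticForm F (ι → F)}

theorem order_two_iff (g : Cfsg.isometryGroup F ⇑Q) : orderOf g = 2 ↔ g * g = 1 ∧ DicksonGen.rk g ≠ 0 := by
  have h1 : g = 1 → DicksonGen.rk g = 0 := by
    rintro rfl
    rw [RankParity.rk_eq_rank, show ((1 : Cfsg.isometryGroup F ⇑Q).1.1 - 1) = 0 from sub_self _, Matrix.rank_zero]
  constructor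
  · intro h
    have h2 := pow_orderOf_eq_one g
    rw [h, pow_two] at h2
    refine ⟨h2, fun h0 => ?_⟩
    have : g = 1 := eq_of_N fun x => by
      have hb : LinearMap.range (DicksonGen.N g) = ⊥ := Submodule.finrank_eq_zero.1 h0
      rw [LinearMap.range_eq_bot.1 hb, DicksonGen.N_apply]
      simp
    rw [this, orderOf_one] at h
    omega
  · rintro ⟨h, hr⟩
    exact orderOf_eq_prime (by rw [pow_two]; exact h) fun e => hr (h1 e)

theorem rk_conj {t s : Cfsg.isometryGroup F ⇑Q} (h : IsConj t s) :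
    DicksonGen.rk t = DicksonGen.rk s ∧ (Alt t ↔ Alt s) := by
  obtain ⟨g, rfl⟩ := isConj_iff.1 h
  have hgg : ∀ x, g.1.1 *ᵥ ((g⁻¹).1.1 *ᵥ x) = x := fun x => by
    rw [Matrix.mulVec_mulVec, ← Units.val_mul, ← Subgroup.coe_mul, mul_inv_cancel]; simp
  have hgg' : ∀ x, (g⁻¹).1.1 *ᵥ (g.1.1 *ᵥ x) = x := fun x => by
    rw [Matrix.mulVec_mulVec, ← Units.val_mul, ← Subgroup.coe_mul, inv_mul_cancel]; simp
  have hN : ∀ x, DicksonGen.N (g * t * g⁻¹) x = g.1.1 *ᵥ DicksonGen.N t ((g⁻¹).1.1 *ᵥ x) := fun x => by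
    simp only [DicksonGen.N_apply, Subgroup.coe_mul, Units.val_mul, ← Matrix.mulVec_mulVec, Matrix.mulVec_sub, hgg]
  refine ⟨?_, ?_⟩
  · have : LinearMap.range (DicksonGen.N (g * t * g⁻¹)) = (LinearMap.range (DicksonGen.N t)).map g.1.1.mulVecLin := by
      ext y
      constructor
      · rintro ⟨x, rfl⟩; exact ⟨_, ⟨(g⁻¹).1.1 *ᵥ x, rfl⟩, (hN x).symm⟩
      · rintro ⟨_, ⟨x, rfl⟩, rfl⟩; exact ⟨g.1.1 *ᵥ x, by rw [hN, hgg']; rfl⟩
    rw [DicksonGen.rk, DicksonGen.rk, this]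
    exact (Submodule.equivMapOfInjective _ (fun a b hab => by
      have := congrArg ((g⁻¹).1.1 *ᵥ ·) hab
      simpa [hgg'] using this) _).finrank_eq
  · constructor
    · intro h x
      rw [hN]
      conv_lhs => arg 2; rw [← hgg x]
      rw [Reflections.iso_polar]; exact h _
    · intro h x
      have := h (g.1.1 *ᵥ x)
      rwa [hN, hgg', Reflections.iso_polar] at this

theorem isConj_iff_inv [Finite F] [CharP F 2] (hQ : (QuadraticMap.polarBilin Q).Nondegenerate)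
    {t s : Cfsg.isometryGroup F ⇑Q} (ht : t * t = 1) (hs : s * s = 1) :
    IsConj t s ↔ DicksonGen.rk t = DicksonGen.rk s ∧ (Alt t ↔ Alt s) :=
  ⟨rk_conj, fun h => isConj_iff' hQ ht hs h.1 h.2⟩

/-- Conjugacy under the symplectic group is conjugacy under the orthogonal group. -/
theorem isConj_iff_preserving [Finite F] [CharP F 2] (hQ : (QuadraticMap.polarBilin Q).Nondegenerate)
    {t s : Cfsg.isometryGroup F ⇑Q} (ht : orderOf t = 2) (hs : orderOf s = 2) :
    IsConj t s ↔ ∃ g ∈ Cfsg.preserving (Units.coeHom (Matrix ι ι F)) (fun u v => Q (u + v) - Q u - Q v),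
      g * (t : Matrix.GeneralLinearGroup ι F) * g⁻¹ = (s : Matrix.GeneralLinearGroup ι F) := by
  constructor
  · intro h
    obtain ⟨g, rfl⟩ := isConj_iff.1 h
    refine ⟨g.1, fun u v => ?_, by simp⟩
    exact Reflections.iso_polar g u v
  · rintro ⟨g, hg, e⟩
    have hp : ∀ u v, QuadraticMap.polar (⇑Q) (g.1 *ᵥ u) (g.1 *ᵥ v) = QuadraticMap.polar (⇑Q) u v := fun u v => hg u v
    have e' : g.1 * t.1.1 = s.1.1 * g.1 := by
      rw [← Units.val_mul, ← Units.val_mul, ← e, inv_mul_cancel_right]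
    have hN : ∀ x, DicksonGen.N s (g.1 *ᵥ x) = g.1 *ᵥ DicksonGen.N t x := fun x => by
      rw [DicksonGen.N_apply, DicksonGen.N_apply, Matrix.mulVec_sub, Matrix.mulVec_mulVec, ← e', ← Matrix.mulVec_mulVec]
    have hgi : ∀ x, g.1 *ᵥ ((g⁻¹ : Matrix.GeneralLinearGroup ι F).1 *ᵥ x) = x := fun x => by
      rw [Matrix.mulVec_mulVec, ← Units.val_mul, mul_inv_cancel]; simp
    have hinj : Function.Injective g.1.mulVecLin := fun a b hab => by
      have := congrArg ((g⁻¹ : Matrix.GeneralLinearGroup ι F).1 *ᵥ ·) hab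
      simpa [Matrix.mulVec_mulVec, ← Units.val_mul] using this
    refine isConj_iff' hQ ((order_two_iff t).1 ht).1 ((order_two_iff s).1 hs).1 ?_ ⟨fun h x => ?_, fun h x => ?_⟩
    · have : LinearMap.range (DicksonGen.N s) = (LinearMap.range (DicksonGen.N t)).map g.1.mulVecLin := by
        ext y
        constructor
        · rintro ⟨x, rfl⟩
          exact ⟨_, ⟨(g⁻¹ : Matrix.GeneralLinearGroup ι F).1 *ᵥ x, rfl⟩, by
            rw [Matrix.mulVecLin_apply, ← hN, hgi]⟩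
        · rintro ⟨_, ⟨x, rfl⟩, rfl⟩; exact ⟨g.1 *ᵥ x, hN x⟩
      rw [DicksonGen.rk, DicksonGen.rk, this]
      exact (Submodule.equivMapOfInjective _ hinj _).finrank_eq
    · rw [← hgi x, hN, hp]; exact h _
    · have := h (g.1 *ᵥ x)
      rwa [hN, hp] at this

variable (hQ : (QuadraticMap.polarBilin Q).Nondegenerate)
include hQ

/-- Classes in the full group. -/
theorem card_full [Finite F] [CharP F 2] {m K : ℕ} (hcard : Fintype.card ι = 2 * m)
    (hc : ∀ s, 1 ≤ s → s ≤ m → ∃ t : Cfsg.isometryGroup F ⇑Q, t * t = 1 ∧ DicksonGen.rk t = s ∧ ¬ Alt t)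
    (ha : ∀ k, 1 ≤ k → k ≤ K → ∃ t : Cfsg.isometryGroup F ⇑Q, t * t = 1 ∧ DicksonGen.rk t = 2 * k ∧ Alt t)
    (hbound : ∀ t : Cfsg.isometryGroup F ⇑Q, t * t = 1 → Alt t → DicksonGen.rk t ≤ 2 * K + 1) :
    Nat.card {C : ConjClasses (Cfsg.isometryGroup F ⇑Q) // ∃ g, ConjClasses.mk g = C ∧ orderOf g = 2} = m + K := by
  choose tc hc1 hc2 hc3 using hc
  choose ta ha1 ha2 ha3 using ha
  let f : Fin m ⊕ Fin K → Cfsg.isometryGroup F ⇑Q :=
    Sum.elim (fun i => tc (i.1 + 1) (by omega) i.2) (fun i => ta (i.1 + 1) (by omega) i.2)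
  rw [card_classes f ?_ ?_ ?_]
  · simp
  · rintro (i | i) <;> simp only [f, Sum.elim_inl, Sum.elim_inr, order_two_iff]
    · exact ⟨hc1 _ _ _, by rw [hc2]; omega⟩
    · exact ⟨ha1 _ _ _, by rw [ha2]; omega⟩
  · rintro (i | i) (j | j) h <;> obtain ⟨h1, h2⟩ := rk_conj h <;> simp only [f, Sum.elim_inl, Sum.elim_inr, hc2, ha2] at h1 h2
    · exact congrArg _ (Fin.ext (by omega))
    · exact absurd (h2.2 (ha3 _ _ _)) (hc3 _ _ _)
    · exact absurd (h2.1 (ha3 _ _ _)) (hc3 _ _ _)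
    · exact congrArg _ (Fin.ext (by omega))
  · intro g hg
    rw [order_two_iff] at hg
    have hle := two_rk_le hQ hg.1
    by_cases hA : Alt g
    · obtain ⟨k, hk⟩ := even_of_alt hQ hg.1 hA
      have := hbound g hg.1 hA
      have hkK : k - 1 < K := by omega
      refine ⟨Sum.inr ⟨k - 1, hkK⟩, isConj_iff' hQ (ha1 _ _ _) hg.1 ?_ (iff_of_true (ha3 _ _ _) hA)⟩
      simp only [f, Sum.elim_inr, ha2]; omega
    · have hlt : DicksonGen.rk g - 1 < m := by omega
      refine ⟨Sum.inl ⟨DicksonGen.rk g - 1, hlt⟩, isConj_iff' hQ (hc1 _ _ _) hg.1 ?_ (iff_of_false (hc3 _ _ _) hA)⟩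
      simp only [f, Sum.elim_inl, hc2]; omega

/-- A reflection commutes past a fixed vector, so no class splits. -/
theorem conj_in_omega [CharP F 2] (D : Cfsg.isometryGroup F ⇑Q →* ℤˣ)
    (hD : ∀ v (hv : Q v ≠ 0), D (Reflections.R Q v hv) = -1)
    (hker : ∀ g, g ∈ Cfsg.Omega F ⇑Q ↔ D g = 1) {t s : Cfsg.isometryGroup F ⇑Q} (ht : t * t = 1)
    (hne : ¬ (Alt t ∧ 2 * DicksonGen.rk t = Fintype.card ι ∧ ∀ x ∈ LinearMap.ker (DicksonGen.N t), Q x = 0))
    (h : IsConj t s) : ∃ g ∈ Cfsg.Omega F ⇑Q, g * t * g⁻¹ = s := by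
  obtain ⟨g, hg⟩ := isConj_iff.1 h
  rcases Int.units_eq_one_or (D g) with e | e
  · exact ⟨g, (hker g).2 e, hg⟩
  · obtain ⟨v, hv, hfix⟩ := exists_fixed hQ ht hne
    have hcom := Spinor.R_conj t hv hv hfix
    refine ⟨g * Reflections.R Q v hv, (hker _).2 (by rw [map_mul, e, hD]; rfl), ?_⟩
    rw [mul_inv_eq_iff_eq_mul] at hcom
    rw [mul_inv_rev, RankParity.R_inv]
    calc g * Reflections.R Q v hv * t * (Reflections.R Q v hv * g⁻¹)
        = g * ((Reflections.R Q v hv * t) * Reflections.R Q v hv) * g⁻¹ := by group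
      _ = g * t * g⁻¹ := by rw [← hcom, mul_assoc t, RankParity.R_mul_self, mul_one]
      _ = s := hg

/-- The centraliser of a maximal totally singular involution lies in the commutator subgroup. -/
theorem split_of_singular [Finite F] [CharP F 2] (hex : (∃ c : F, c ≠ 0 ∧ c ≠ 1) ∨ Fintype.card ι ≠ 4)
    (D : Cfsg.isometryGroup F ⇑Q →* ℤˣ) (hD : ∀ v (hv : Q v ≠ 0), D (Reflections.R Q v hv) = -1)
    {t : Cfsg.isometryGroup F ⇑Q} (ht : t * t = 1) (hA : Alt t) (hr : 2 * DicksonGen.rk t = Fintype.card ι)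
    {g : Cfsg.isometryGroup F ⇑Q} (hg : g * t = t * g) : D g = 1 := by
  have hU0 : ∀ x ∈ LinearMap.range (DicksonGen.N t), Q x = 0 := by
    rintro _ ⟨x, rfl⟩; rw [(inv_of_sq ht).val]; exact hA x
  have him : SingularClass.im g (LinearMap.range (DicksonGen.N t)) = LinearMap.range (DicksonGen.N t) := by
    have hN : ∀ x, DicksonGen.N t (g.1.1 *ᵥ x) = g.1.1 *ᵥ DicksonGen.N t x := fun x => by
      rw [DicksonGen.N_apply, DicksonGen.N_apply, Matrix.mulVec_sub, Matrix.mulVec_mulVec, Matrix.mulVec_mulVec,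
        ← Units.val_mul, ← Units.val_mul, ← Subgroup.coe_mul, ← Subgroup.coe_mul, hg]
    refine Submodule.eq_of_le_of_finrank_eq ?_ (SingularClass.finrank_im _ _)
    rintro _ ⟨_, ⟨x, rfl⟩, rfl⟩
    exact ⟨g.1.1 *ᵥ x, hN x⟩
  rw [SingularClass.sign_eq hQ hex D hD g _ hr hU0, him, inf_idem, Nat.sub_self, pow_zero]

/-- Classes in the commutator subgroup: `T` tells whether the exceptional type occurs. -/
theorem card_omega [Finite F] [CharP F 2] {m K : ℕ} (hcard : Fintype.card ι = 2 * m)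
    (D : Cfsg.isometryGroup F ⇑Q →* ℤˣ) (hD : ∀ v (hv : Q v ≠ 0), D (Reflections.R Q v hv) = -1)
    (hker : ∀ g, g ∈ Cfsg.Omega F ⇑Q ↔ D g = 1) (hrk : ∀ g, D g = 1 ↔ Even (DicksonGen.rk g))
    (hc : ∀ s, 1 ≤ s → s ≤ m → ∃ t : Cfsg.isometryGroup F ⇑Q, t * t = 1 ∧ DicksonGen.rk t = s ∧ ¬ Alt t)
    (ha : ∀ k, 1 ≤ k → k ≤ K → ∃ t : Cfsg.isometryGroup F ⇑Q, t * t = 1 ∧ DicksonGen.rk t = 2 * k ∧ Alt t)
    (hbound : ∀ t : Cfsg.isometryGroup F ⇑Q, t * t = 1 → Alt t → DicksonGen.rk t ≤ 2 * K + 1)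
    (T : Prop) [Decidable T]
    (hT : T → 2 * K = m ∧ 1 ≤ m ∧ ((∃ c : F, c ≠ 0 ∧ c ≠ 1) ∨ Fintype.card ι ≠ 4))
    (hT' : ¬ T → ∀ t : Cfsg.isometryGroup F ⇑Q, t * t = 1 → Alt t → DicksonGen.rk t ≠ 0 →
      ¬ (2 * DicksonGen.rk t = Fintype.card ι ∧ ∀ x ∈ LinearMap.ker (DicksonGen.N t), Q x = 0)) :
    Nat.card {C : ConjClasses (Cfsg.Omega F ⇑Q) // ∃ g, ConjClasses.mk g = C ∧ orderOf g = 2}
      = m / 2 + K + (if T then 1 else 0) := by
  classical
  choose tc hc1 hc2 hc3 using hc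
  choose ta ha1 ha2 ha3 using ha
  have hev : ∀ g, Even (DicksonGen.rk g) → g ∈ Cfsg.Omega F ⇑Q := fun g h => (hker g).2 ((hrk g).2 h)
  have hne : ∀ {g : Cfsg.isometryGroup F ⇑Q}, g * g = 1 → DicksonGen.rk g ≠ 0 → ¬ (Alt g ∧ T ∧ DicksonGen.rk g = m) →
      ¬ (Alt g ∧ 2 * DicksonGen.rk g = Fintype.card ι ∧ ∀ x ∈ LinearMap.ker (DicksonGen.N g), Q x = 0) := by
    rintro g hg hg0 hno ⟨hA, h1, h2⟩
    by_cases t : T
    · exact hno ⟨hA, t, by omega⟩
    · exact hT' t g hg hA hg0 ⟨h1, h2⟩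
  have hconj : ∀ a b : Cfsg.Omega F ⇑Q, IsConj a b ↔ ∃ g ∈ Cfsg.Omega F ⇑Q, g * a.1 * g⁻¹ = b.1 := fun a b => by
    rw [isConj_iff]
    exact ⟨fun ⟨g, hg⟩ => ⟨g.1, g.2, congrArg Subtype.val hg⟩, fun ⟨g, hg, e⟩ => ⟨⟨g, hg⟩, Subtype.ext e⟩⟩
  -- representatives
  let fc : Fin (m / 2) → Cfsg.Omega F ⇑Q := fun i =>
    ⟨tc (2 * (i.1 + 1)) (by omega) (by omega), hev _ (by rw [hc2]; exact even_two_mul _)⟩
  let fa : Fin K → Cfsg.Omega F ⇑Q := fun i =>
    ⟨ta (i.1 + 1) (by omega) i.2, hev _ (by rw [ha2]; exact even_two_mul _)⟩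
  have fext : ∀ _ : T, ∃ r : Cfsg.Omega F ⇑Q, ∃ v, ∃ hv : Q v ≠ 0, ∃ h1 : 1 ≤ K,
      r.1 = Reflections.R Q v hv * ta K h1 le_rfl * Reflections.R Q v hv := by
    intro t
    obtain ⟨hK, hm, -⟩ := hT t
    haveI : Nonempty ι := Fintype.card_pos_iff.1 (by omega)
    obtain ⟨v, hv⟩ := OmegaIndex.exists_aniso hQ
    refine ⟨⟨Reflections.R Q v hv * ta K (by omega) le_rfl * Reflections.R Q v hv, (hker _).2 ?_⟩, v, hv, by omega, rfl⟩
    rw [map_mul, map_mul, hD, (hrk _).2 (by rw [ha2]; exact even_two_mul _)]; rfl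
  choose fx fv fhv fK fx_eq using fext
  let f : (Fin (m / 2) ⊕ Fin K) ⊕ PLift T → Cfsg.Omega F ⇑Q := Sum.elim (Sum.elim fc fa) (fun t => fx t.down)
  have hxinv : ∀ t : T, (fx t).1 * (fx t).1 = 1 ∧ DicksonGen.rk (fx t).1 = 2 * K ∧ Alt (fx t).1 ∧
      IsConj (ta K (fK t) le_rfl) (fx t).1 := by
    intro t
    have hcj : IsConj (ta K (fK t) le_rfl) (fx t).1 := by
      rw [fx_eq t, isConj_iff]
      exact ⟨Reflections.R Q (fv t) (fhv t), by rw [RankParity.R_inv]⟩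
    obtain ⟨h1, h2⟩ := rk_conj hcj
    refine ⟨?_, by rw [← h1, ha2], h2.1 (ha3 _ _ _), hcj⟩
    obtain ⟨g, hg⟩ := isConj_iff.1 hcj
    rw [← hg, conj_mul, ha1, mul_one, mul_inv_cancel]
  have hord : ∀ a : Cfsg.Omega F ⇑Q, orderOf a = 2 ↔ a.1 * a.1 = 1 ∧ DicksonGen.rk a.1 ≠ 0 := fun a => by
    rw [← Subgroup.orderOf_coe, order_two_iff]
  rw [card_classes f ?_ ?_ ?_]
  · rw [Nat.card_sum, Nat.card_sum, Nat.card_fin, Nat.card_fin]
    split_ifs with t
    · haveI : Unique (PLift T) := ⟨⟨⟨t⟩⟩, fun a => Subsingleton.elim _ _⟩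
      rw [Nat.card_unique]
    · haveI : IsEmpty (PLift T) := ⟨fun a => t a.down⟩
      rw [Nat.card_of_isEmpty]
  · rintro ((i | i) | t) <;> simp only [f, fc, fa, Sum.elim_inl, Sum.elim_inr, hord]
    · exact ⟨hc1 _ _ _, by rw [hc2]; omega⟩
    · exact ⟨ha1 _ _ _, by rw [ha2]; omega⟩
    · obtain ⟨hK, hm, -⟩ := hT t.down
      exact ⟨(hxinv _).1, by rw [(hxinv _).2.1]; omega⟩
  · intro a b h
    have hO : IsConj (f a).1 (f b).1 := by
      obtain ⟨g, -, e⟩ := (hconj _ _).1 h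
      exact isConj_iff.2 ⟨g, e⟩
    obtain ⟨h1, h2⟩ := rk_conj hO
    have hsplit : ∀ t : T, ¬ IsConj (fa ⟨K - 1, by have := hT t; omega⟩) (fx t) := by
      intro t hcj
      obtain ⟨hK, hm, hex⟩ := hT t
      obtain ⟨g, hgO, hge⟩ := (hconj _ _).1 hcj
      rw [fx_eq t] at hge
      have hKe : (fa ⟨K - 1, by omega⟩).1 = ta K (fK t) le_rfl := by
        show ta (K - 1 + 1) _ _ = _
        have key : ∀ a (h : 1 ≤ a) (h' : a ≤ K), a = K → ta a h h' = ta K (fK t) le_rfl := by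
          rintro a h h' rfl; rfl
        exact key _ _ _ (by omega)
      rw [hKe] at hge
      set R := Reflections.R Q (fv t) (fhv t) with hR
      set a := ta K (fK t) le_rfl
      have hcom : (R * g) * a = a * (R * g) := by
        have hRR : R * R = 1 := RankParity.R_mul_self _ _
        calc (R * g) * a = R * (g * a * g⁻¹) * g := by group
          _ = R * (R * a * R) * g := by rw [hge]
          _ = (R * R) * a * (R * g) := by group
          _ = a * (R * g) := by rw [hRR, one_mul]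
      have := split_of_singular hQ hex D hD (ha1 _ _ _) (ha3 _ _ _) (by rw [ha2]; omega) hcom
      rw [map_mul, hD, (hker g).1 hgO] at this
      exact absurd this (by decide)
    rcases a with (i | i) | t <;> rcases b with (j | j) | t' <;>
      simp only [f, fc, fa, Sum.elim_inl, Sum.elim_inr] at h h1 h2
    · rw [hc2, hc2] at h1
      exact congrArg _ (congrArg _ (Fin.ext (by omega)))
    · exact absurd (h2.2 (ha3 _ _ _)) (hc3 _ _ _)
    · exact absurd (h2.2 (hxinv _).2.2.1) (hc3 _ _ _)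
    · exact absurd (h2.1 (ha3 _ _ _)) (hc3 _ _ _)
    · rw [ha2, ha2] at h1
      exact congrArg _ (congrArg _ (Fin.ext (by omega)))
    · rw [ha2, (hxinv _).2.1] at h1
      have hi : i = ⟨K - 1, by have := hT t'.down; omega⟩ := Fin.ext (show i.1 = K - 1 by omega)
      rw [hi] at h
      exact absurd h (hsplit t'.down)
    · exact absurd (h2.1 (hxinv _).2.2.1) (hc3 _ _ _)
    · rw [ha2, (hxinv _).2.1] at h1
      have hj : j = ⟨K - 1, by have := hT t.down; omega⟩ := Fin.ext (show j.1 = K - 1 by omega)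
      rw [hj] at h
      exact absurd h.symm (hsplit t.down)
    · exact congrArg _ (Subsingleton.elim _ _)
  · intro g hg
    rw [hord] at hg
    have hge : Even (DicksonGen.rk g.1) := (hrk _).1 ((hker _).1 g.2)
    obtain ⟨k, hk⟩ := hge
    have hle := two_rk_le hQ hg.1
    by_cases hA : Alt g.1
    · have := hbound g.1 hg.1 hA
      have hkK : k - 1 < K := by omega
      have hO : IsConj (fa ⟨k - 1, hkK⟩).1 g.1 :=
        isConj_iff' hQ (ha1 _ _ _) hg.1 (by simp only [fa, ha2]; omega) (iff_of_true (ha3 _ _ _) hA)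
      by_cases hno : T ∧ DicksonGen.rk g.1 = m
      · obtain ⟨hTt, hrm⟩ := hno
        obtain ⟨hK, hm, -⟩ := hT hTt
        obtain ⟨c, hcc⟩ := isConj_iff.1 hO
        rcases Int.units_eq_one_or (D c) with e | e
        · exact ⟨Sum.inl (Sum.inr ⟨k - 1, hkK⟩), (hconj _ _).2 ⟨c, (hker c).2 e, hcc⟩⟩
        · refine ⟨Sum.inr ⟨hTt⟩, (hconj _ _).2 ⟨c * Reflections.R Q (fv hTt) (fhv hTt),
            (hker _).2 (by rw [map_mul, e, hD]; rfl), ?_⟩⟩
          have hkey : (fa ⟨k - 1, hkK⟩).1 = ta K (fK hTt) le_rfl := by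
            show ta (k - 1 + 1) _ _ = _
            have key : ∀ a (h : 1 ≤ a) (h' : a ≤ K), a = K → ta a h h' = ta K (fK hTt) le_rfl := by
              rintro a h h' rfl; rfl
            exact key _ _ _ (by omega)
          simp only [f, Sum.elim_inr]
          rw [← hcc, fx_eq, hkey, mul_inv_rev, RankParity.R_inv]
          have hRR : Reflections.R Q (fv hTt) (fhv hTt) * Reflections.R Q (fv hTt) (fhv hTt) = 1 :=
            RankParity.R_mul_self _ _
          generalize Reflections.R Q (fv hTt) (fhv hTt) = R at hRR ⊢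
          generalize ta K (fK hTt) le_rfl = a
          calc c * R * (R * a * R) * (R * c⁻¹) = c * (R * R) * a * (R * R) * c⁻¹ := by group
            _ = c * a * c⁻¹ := by rw [hRR, mul_one, mul_one]
      · refine ⟨Sum.inl (Sum.inr ⟨k - 1, hkK⟩), (hconj _ _).2 ?_⟩
        refine conj_in_omega hQ D hD hker (ha1 _ _ _) (hne (ha1 _ _ _) (by simp only [f, fa, Sum.elim_inl, Sum.elim_inr, ha2]; omega) ?_) hO
        rintro ⟨-, t, e⟩
        simp only [f, fa, Sum.elim_inl, Sum.elim_inr, ha2] at e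
        exact hno ⟨t, by omega⟩
    · have hlt : k - 1 < m / 2 := by omega
      refine ⟨Sum.inl (Sum.inl ⟨k - 1, hlt⟩), (hconj _ _).2 ?_⟩
      have hO : IsConj (fc ⟨k - 1, hlt⟩).1 g.1 :=
        isConj_iff' hQ (hc1 _ _ _) hg.1 (by simp only [fc, hc2]; omega) (iff_of_false (hc3 _ _ _) hA)
      exact conj_in_omega hQ D hD hker (hc1 _ _ _) (fun h => hc3 _ _ _ h.1) hO

end CfsgLib.Geometry.InvolutionCount
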