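import Mathlib
import Cfsg.Prelude.Def_Classical
import Cfsg.Agent.Lib.Geometry.InvolutionCount
import Cfsg.Agent.Lib.Geometry.Spinor
import Cfsg.Agent.Lib.Orth.Models
import Cfsg.Agent.Lib.QuadClass.Witt

/-!
Involutions of the standard forms in characteristic two.
-/

set_option autoImplicit false
open scoped Matrix commutatorElement

namespace CfsgLib.Geometry.InvolutionModels

open CfsgLib.Geometry CfsgLib.Geometry.QuadBasic CfsgLib.Geometry.InvolutionTwo CfsgLib.Orth.Models

/-- The parity character and the commutator subgroup. -/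
theorem omega_parity {F : Type*} [Field F] [Finite F] [CharP F 2] {ι : Type} [Fintype ι] [DecidableEq ι] [Nonempty ι]
    {Q : QuadraticForm F (ι → F)} (hQ : (QuadraticMap.polarBilin Q).Nondegenerate)
    (hgen : Subgroup.closure (Reflections.reflections Q) = ⊤) :
    ∃ D : Cfsg.isometryGroup F ⇑Q →* ℤˣ, (∀ v (hv : Q v ≠ 0), D (Reflections.R Q v hv) = -1) ∧
      (∀ g, g ∈ Cfsg.Omega F ⇑Q ↔ D g = 1) ∧ (∀ g, D g = 1 ↔ Even (DicksonGen.rk g)) := by
  obtain ⟨D, hD, hDr⟩ := DicksonGen.exists_dickson' hQ hgen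
  refine ⟨D, hD, fun g => ⟨fun h => (Abelianization.commutator_subset_ker D h : g ∈ D.ker), fun hg => ?_⟩,
    fun g => by rw [hDr, SingularClass.neg_one_pow_units]⟩
  obtain ⟨v, hv⟩ := OmegaIndex.exists_aniso hQ
  set π := QuotientGroup.mk' (Cfsg.Omega F ⇑Q)
  have hcongr : ∀ w (hw : Q w ≠ 0), π (Reflections.R Q w hw) = π (Reflections.R Q v hv) := by
    intro w hw
    have hinj : Function.Injective (fun x : F => x * x) := fun a b (hab : a * a = b * b) => by
      rcases mul_self_eq_mul_self_iff.1 hab with e | e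
      · exact e
      · rwa [CharTwo.neg_eq] at e
    obtain ⟨c, hc⟩ := (Finite.injective_iff_surjective.1 hinj) (Q w / Q v)
    have hcv : Q (c • v) = Q w := by
      rw [QuadraticMap.map_smul, show c * c = Q w / Q v from hc, smul_eq_mul, div_mul_cancel₀ _ hv]
    obtain ⟨h, hh⟩ := DicksonGen.exists_map hQ (v := c • v) (w := w) (by rw [hcv]; exact hw) hcv.symm
    rw [← Spinor.R_conj h (by rw [hcv]; exact hw) hw hh, Spinor.R_smul c hv, map_mul, map_mul, map_inv]
    have hcomm : π h * π (Reflections.R Q v hv) = π (Reflections.R Q v hv) * π h := by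
      rw [← map_mul, ← map_mul]
      refine QuotientGroup.eq.2 ?_
      rw [show (h * Reflections.R Q v hv)⁻¹ * (Reflections.R Q v hv * h)
        = ⁅(Reflections.R Q v hv)⁻¹, h⁻¹⁆ by rw [commutatorElement_def, inv_inv, inv_inv]; group]
      exact Subgroup.commutator_mem_commutator (Subgroup.mem_top _) (Subgroup.mem_top _)
    rw [hcomm, mul_inv_cancel_right]
  set r := π (Reflections.R Q v hv) with hr
  have hr2 : r * r = 1 := by rw [hr, ← map_mul, RankParity.R_mul_self, map_one]
  have key : ∀ z, (D z = 1 → π z = 1) ∧ (D z = -1 → π z = r) := by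
    intro z
    have hz : z ∈ Subgroup.closure (Reflections.reflections Q) := by rw [hgen]; trivial
    have step : ∀ w (hw : Q w ≠ 0) y, ((D y = 1 → π y = 1) ∧ (D y = -1 → π y = r)) →
        ((D (Reflections.R Q w hw * y) = 1 → π (Reflections.R Q w hw * y) = 1) ∧
          (D (Reflections.R Q w hw * y) = -1 → π (Reflections.R Q w hw * y) = r)) := by
      intro w hw y ih
      rw [map_mul, hD, map_mul, hcongr, neg_one_mul]
      rcases Int.units_eq_one_or (D y) with e | e
      · rw [e, ih.1 e, mul_one]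
        exact ⟨fun h => absurd h (by decide), fun _ => rfl⟩
      · rw [e, ih.2 e, neg_neg, hr2]
        exact ⟨fun _ => rfl, fun h => absurd h (by decide)⟩
    induction hz using Subgroup.closure_induction_left with
    | one => rw [map_one, map_one]; exact ⟨fun _ => rfl, fun h => absurd h (by decide)⟩
    | mul_left x hx y _ ih =>
      obtain ⟨w, hw, hxe⟩ := hx
      obtain rfl : x = Reflections.R Q w hw := Subtype.ext (Units.ext hxe)
      exact step w hw y ih
    | inv_mul_cancel x hx y _ ih =>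
      obtain ⟨w, hw, hxe⟩ := hx
      obtain rfl : x = Reflections.R Q w hw := Subtype.ext (Units.ext hxe)
      rw [RankParity.R_inv]
      exact step w hw y ih
  exact (QuotientGroup.eq_one_iff g).1 ((key g).1 hg)

variable {F : Type*} [Field F]

theorem polar_plus {m : ℕ} (u v : Fin m ⊕ Fin m → F) :
    QuadraticMap.polar (⇑(plusQ F m)) u v = ∑ i, (u (.inl i) * v (.inr i) + v (.inl i) * u (.inr i)) := by
  simp only [QuadraticMap.polar, plusQ_apply, Cfsg.quadFormPlus, Pi.add_apply, ← Finset.sum_sub_distrib]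
  exact Finset.sum_congr rfl fun i _ => by ring

theorem nondeg_plus' (m : ℕ) : (QuadraticMap.polarBilin (plusQ F m)).Nondegenerate :=
  Spinor.nondeg_polarBilin (nondeg_plus m)

/-- A vector supported on one hyperbolic pair. -/
def pairVec {m : ℕ} (i : Fin m) (c : F) : Fin m ⊕ Fin m → F := Sum.elim (Pi.single i 1) (Pi.single i c)

theorem pairVec_perp [CharP F 2] {m : ℕ} (i j : Fin m) (c : F) :
    QuadraticMap.polar (⇑(plusQ F m)) (pairVec i c) (pairVec j c) = 0 := by
  rw [polar_plus]
  refine Finset.sum_eq_zero fun k _ => ?_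
  simp only [pairVec, Sum.elim_inl, Sum.elim_inr, Pi.single_apply]
  split_ifs <;> simp [CharTwo.add_self_eq_zero]

theorem pairVec_norm {m : ℕ} (i : Fin m) (c : F) : plusQ F m (pairVec i c) = c := by
  rw [plusQ_apply, Cfsg.quadFormPlus, Finset.sum_eq_single i (fun j _ hj => by simp [pairVec, hj]) (by simp)]
  simp [pairVec]

theorem li_of_coord {V : Type} {κ : Type} [Fintype κ] [DecidableEq κ] (w : κ → V → F) (pos : κ → V)
    (h : ∀ i j, w i (pos j) = if i = j then 1 else 0) : LinearIndependent F w := by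
  rw [Fintype.linearIndependent_iff]
  intro g hg j
  simpa [Finset.sum_apply, h] using congrFun hg (pos j)

theorem val_id {κ : Type} [Fintype κ] (a : κ → F) : ∑ i, a i * a (id i) = 1 * ∑ i, a i * a i := by simp

theorem val_swap [CharP F 2] {k : ℕ} (a : Fin k ⊕ Fin k → F) :
    ∑ i, a i * a (Sum.swap i) = 0 * ∑ i, a i * a i := by
  rw [Fintype.sum_sum_type, zero_mul, ← Finset.sum_add_distrib]
  refine Finset.sum_eq_zero fun i _ => ?_
  rw [Sum.swap_inl, Sum.swap_inr, mul_comm, CharTwo.add_self_eq_zero]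

theorem swap_invol {k : ℕ} : Function.Involutive (Sum.swap : Fin k ⊕ Fin k → Fin k ⊕ Fin k) := Sum.swap_swap

/-- Witnesses, plus type. -/
theorem plus_c [CharP F 2] {m : ℕ} (s : ℕ) (h1 : 1 ≤ s) (h2 : s ≤ m) :
    ∃ t : Cfsg.isometryGroup F ⇑(plusQ F m), t * t = 1 ∧ DicksonGen.rk t = s ∧ ¬ Alt t := by
  obtain ⟨t, ht, hr, hA⟩ := exists_of_family (nondeg_plus' m) (id : Fin s → Fin s) (fun _ => rfl) 1
    (fun i => pairVec (Fin.castLE h2 i) (1 : F))
    (li_of_coord _ (fun i => Sum.inl (Fin.castLE h2 i)) fun i j => by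
      simp [pairVec, Pi.single_apply, Fin.ext_iff, eq_comm])
    (fun i j => pairVec_perp _ _ _) (fun i => pairVec_norm _ _) val_id
  refine ⟨t, ht, by simpa using hr, fun h => ?_⟩
  rcases hA.1 h with h | h
  · exact one_ne_zero h
  · exact h.false ⟨0, h1⟩

theorem plus_a [CharP F 2] {m : ℕ} (k : ℕ) (h2 : 2 * k ≤ m) :
    ∃ t : Cfsg.isometryGroup F ⇑(plusQ F m), t * t = 1 ∧ DicksonGen.rk t = 2 * k ∧ Alt t := by
  let e : Fin k ⊕ Fin k → Fin m := fun i => Fin.castLE (by omega) (finSumFinEquiv i)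
  have he : Function.Injective e := (Fin.castLE_injective _).comp finSumFinEquiv.injective
  obtain ⟨t, ht, hr, hA⟩ := exists_of_family (nondeg_plus' m) Sum.swap swap_invol 0 (fun i => pairVec (e i) (0 : F))
    (li_of_coord _ (fun i => Sum.inl (e i)) fun i j => by
      simp [pairVec, Pi.single_apply, he.eq_iff, eq_comm])
    (fun i j => pairVec_perp _ _ _) (fun i => pairVec_norm _ _) val_swap
  exact ⟨t, ht, by rw [hr, Fintype.card_sum, Fintype.card_fin]; omega, hA.2 (Or.inl rfl)⟩

theorem plus_bound [CharP F 2] {m : ℕ} (t : Cfsg.isometryGroup F ⇑(plusQ F m)) (ht : t * t = 1) :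
    DicksonGen.rk t ≤ m := by
  have := two_rk_le (nondeg_plus' m) ht
  simp only [Fintype.card_sum, Fintype.card_fin] at this
  omega

variable {a b : F}

theorem nondeg_minus' [Fintype F] (m : ℕ) (h : CfsgLib.Orth.Binary.Aniso a b) :
    (QuadraticMap.polarBilin (minusQ m a b)).Nondegenerate :=
  Spinor.nondeg_polarBilin (nondeg_minus m h)

theorem minus_elim {m : ℕ} (u : Fin m ⊕ Fin m → F) : minusQ m a b (Sum.elim u 0) = plusQ F m u := by
  simp [minusQ_apply, plusQ_apply, Cfsg.quadFormMinus, Cfsg.quadFormPlus]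

theorem polar_elim {m : ℕ} (u v : Fin m ⊕ Fin m → F) :
    QuadraticMap.polar (⇑(minusQ m a b)) (Sum.elim u 0) (Sum.elim v 0) = QuadraticMap.polar (⇑(plusQ F m)) u v := by
  have : (Sum.elim u 0 + Sum.elim v 0 : (Fin m ⊕ Fin m) ⊕ Fin 2 → F) = Sum.elim (u + v) 0 := by
    funext k; rcases k with k | k <;> simp
  simp only [QuadraticMap.polar, this, minus_elim]

/-- Witnesses, minus type. -/
theorem minus_c [Fintype F] [CharP F 2] {m : ℕ} (h : CfsgLib.Orth.Binary.Aniso a b) (s : ℕ) (h1 : 1 ≤ s) (h2 : s ≤ m + 1) :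
    ∃ t : Cfsg.isometryGroup F ⇑(minusQ m a b), t * t = 1 ∧ DicksonGen.rk t = s ∧ ¬ Alt t := by
  obtain ⟨r, rfl⟩ : ∃ r, s = r + 1 := ⟨s - 1, by omega⟩
  have h2' : r ≤ m := by omega
  let z : (Fin m ⊕ Fin m) ⊕ Fin 2 → F := Sum.elim 0 (Pi.single 0 1)
  let w : Fin (r + 1) → (Fin m ⊕ Fin m) ⊕ Fin 2 → F := Fin.cons z fun i => Sum.elim (pairVec (Fin.castLE h2' i) 1) 0
  let pos : Fin (r + 1) → (Fin m ⊕ Fin m) ⊕ Fin 2 := Fin.cons (Sum.inr 0) fun i => Sum.inl (Sum.inl (Fin.castLE h2' i))
  have hz : minusQ m a b z = 1 := by simp [z, minusQ_apply, Cfsg.quadFormMinus]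
  have hzu : ∀ u : Fin m ⊕ Fin m → F, QuadraticMap.polar (⇑(minusQ m a b)) z (Sum.elim u 0) = 0 := fun u => by
    simp [QuadraticMap.polar, z, minusQ_apply, Cfsg.quadFormMinus]
  obtain ⟨t, ht, hr, hA⟩ := exists_of_family (nondeg_minus' m h) (id : Fin (r + 1) → Fin (r + 1)) (fun _ => rfl) 1 w
    (li_of_coord w pos fun i j => by
      induction i using Fin.cases <;> induction j using Fin.cases <;>
        simp [w, z, pos, pairVec, Pi.single_apply, Fin.ext_iff, eq_comm, Fin.succ_ne_zero])
    (fun i j => by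
      induction i using Fin.cases with
      | zero =>
        induction j using Fin.cases with
        | zero => exact InvolutionFrame.polar_self_zero _
        | succ j => simpa [w] using hzu _
      | succ i =>
        induction j using Fin.cases with
        | zero => rw [QuadraticMap.polar_comm]; simpa [w] using hzu _
        | succ j => simp [w, polar_elim, pairVec_perp])
    (fun i => by
      induction i using Fin.cases with
      | zero => simpa [w] using hz
      | succ i => simp [w, minus_elim, pairVec_norm])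
    val_id
  refine ⟨t, ht, by simpa using hr, fun hh => ?_⟩
  rcases hA.1 hh with hh | hh
  · exact one_ne_zero hh
  · exact hh.false 0

theorem minus_a [Fintype F] [CharP F 2] {m : ℕ} (h : CfsgLib.Orth.Binary.Aniso a b) (k : ℕ) (h2 : 2 * k ≤ m) :
    ∃ t : Cfsg.isometryGroup F ⇑(minusQ m a b), t * t = 1 ∧ DicksonGen.rk t = 2 * k ∧ Alt t := by
  let e : Fin k ⊕ Fin k → Fin m := fun i => Fin.castLE (by omega) (finSumFinEquiv i)
  have he : Function.Injective e := (Fin.castLE_injective _).comp finSumFinEquiv.injective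
  obtain ⟨t, ht, hr, hA⟩ := exists_of_family (nondeg_minus' m h) Sum.swap swap_invol 0
    (fun i => Sum.elim (pairVec (e i) (0 : F)) 0)
    (li_of_coord _ (fun i => Sum.inl (Sum.inl (e i))) fun i j => by
      simp [pairVec, Pi.single_apply, he.eq_iff, eq_comm])
    (fun i j => by rw [polar_elim, pairVec_perp]) (fun i => by rw [minus_elim, pairVec_norm]) val_swap
  exact ⟨t, ht, by rw [hr, Fintype.card_sum, Fintype.card_fin]; omega, hA.2 (Or.inl rfl)⟩

theorem minus_bound [CharP F 2] {m : ℕ} (h : CfsgLib.Orth.Binary.Aniso a b) (t : Cfsg.isometryGroup F ⇑(minusQ m a b))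
    (ht : t * t = 1) (hA : Alt t) : DicksonGen.rk t ≤ m :=
  CfsgLib.QuadClass.minus_singular_le h _ (by
    rintro _ ⟨x, rfl⟩
    rw [(inv_of_sq ht).val]; exact hA x)

theorem minus_ker [CharP F 2] {m : ℕ} (h : CfsgLib.Orth.Binary.Aniso a b) (t : Cfsg.isometryGroup F ⇑(minusQ m a b)) :
    ¬ (2 * DicksonGen.rk t = Fintype.card ((Fin m ⊕ Fin m) ⊕ Fin 2) ∧
      ∀ x ∈ LinearMap.ker (DicksonGen.N t), minusQ m a b x = 0) := by
  rintro ⟨h1, h2⟩
  have h3 := CfsgLib.QuadClass.minus_singular_le h _ h2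
  have h4 := (DicksonGen.N t).finrank_range_add_finrank_ker
  simp only [Module.finrank_fintype_fun_eq_card, Fintype.card_sum, Fintype.card_fin] at h4 h1
  simp only [DicksonGen.rk] at h1
  omega

end CfsgLib.Geometry.InvolutionModels
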